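import Cfsg.Agent.Lib.Helper30.Fi24.F306936DataL

set_option autoImplicit false
set_option maxRecDepth 100000

namespace Cfsg.Agent.Lib.Helper30.Fi24.F306936

open Cfsg.Agent.Lib.Helper28

theorem lrel_0 : allRange (fun c => allList (fun w => L.checkRel w c) wordsL) 0 490 = true := by decide +kernel
theorem lrel_1 : allRange (fun c => allList (fun w => L.checkRel w c) wordsL) 490 490 = true := by decide +kernel
theorem lrel_2 : allRange (fun c => allList (fun w => L.checkRel w c) wordsL) 980 490 = true := by decide +kernel
theorem lrel_3 : allRange (fun c => allList (fun w => L.checkRel w c) wordsL) 1470 490 = true := by decide +kernel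
theorem lrel_4 : allRange (fun c => allList (fun w => L.checkRel w c) wordsL) 1960 490 = true := by decide +kernel
theorem lrel_5 : allRange (fun c => allList (fun w => L.checkRel w c) wordsL) 2450 490 = true := by decide +kernel
theorem lrel_6 : allRange (fun c => allList (fun w => L.checkRel w c) wordsL) 2940 490 = true := by decide +kernel
theorem lrel_7 : allRange (fun c => allList (fun w => L.checkRel w c) wordsL) 3430 490 = true := by decide +kernel
theorem lrel_8 : allRange (fun c => allList (fun w => L.checkRel w c) wordsL) 3920 490 = true := by decide +kernel
theorem lrel_9 : allRange (fun c => allList (fun w => L.checkRel w c) wordsL) 4410 490 = true := by decide +kernel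

end Cfsg.Agent.Lib.Helper30.Fi24.F306936
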