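import Cfsg.Agent.Lib.Helper30.Fi24.F306936DataL

set_option autoImplicit false
set_option maxRecDepth 100000

namespace Cfsg.Agent.Lib.Helper30.Fi24.F306936

open Cfsg.Agent.Lib.Helper28

theorem lrel_10 : allRange (fun c => allList (fun w => L.checkRel w c) wordsL) 4900 490 = true := by decide +kernel
theorem lrel_11 : allRange (fun c => allList (fun w => L.checkRel w c) wordsL) 5390 490 = true := by decide +kernel
theorem lrel_12 : allRange (fun c => allList (fun w => L.checkRel w c) wordsL) 5880 490 = true := by decide +kernel
theorem lrel_13 : allRange (fun c => allList (fun w => L.checkRel w c) wordsL) 6370 490 = true := by decide +kernel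
theorem lrel_14 : allRange (fun c => allList (fun w => L.checkRel w c) wordsL) 6860 490 = true := by decide +kernel
theorem lrel_15 : allRange (fun c => allList (fun w => L.checkRel w c) wordsL) 7350 490 = true := by decide +kernel
theorem lrel_16 : allRange (fun c => allList (fun w => L.checkRel w c) wordsL) 7840 490 = true := by decide +kernel
theorem lrel_17 : allRange (fun c => allList (fun w => L.checkRel w c) wordsL) 8330 490 = true := by decide +kernel
theorem lrel_18 : allRange (fun c => allList (fun w => L.checkRel w c) wordsL) 8820 490 = true := by decide +kernel
theorem lrel_19 : allRange (fun c => allList (fun w => L.checkRel w c) wordsL) 9310 490 = true := by decide +kernel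

end Cfsg.Agent.Lib.Helper30.Fi24.F306936
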