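import Cfsg.Agent.Lib.Helper30.Fi24.F306936DataL

set_option autoImplicit false
set_option maxRecDepth 100000

namespace Cfsg.Agent.Lib.Helper30.Fi24.F306936

open Cfsg.Agent.Lib.Helper28

theorem lrel_100 : allRange (fun c => allList (fun w => L.checkRel w c) wordsL) 49000 490 = true := by decide +kernel
theorem lrel_101 : allRange (fun c => allList (fun w => L.checkRel w c) wordsL) 49490 490 = true := by decide +kernel
theorem lrel_102 : allRange (fun c => allList (fun w => L.checkRel w c) wordsL) 49980 490 = true := by decide +kernel
theorem lrel_103 : allRange (fun c => allList (fun w => L.checkRel w c) wordsL) 50470 490 = true := by decide +kernel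
theorem lrel_104 : allRange (fun c => allList (fun w => L.checkRel w c) wordsL) 50960 490 = true := by decide +kernel
theorem lrel_105 : allRange (fun c => allList (fun w => L.checkRel w c) wordsL) 51450 490 = true := by decide +kernel
theorem lrel_106 : allRange (fun c => allList (fun w => L.checkRel w c) wordsL) 51940 490 = true := by decide +kernel
theorem lrel_107 : allRange (fun c => allList (fun w => L.checkRel w c) wordsL) 52430 490 = true := by decide +kernel
theorem lrel_108 : allRange (fun c => allList (fun w => L.checkRel w c) wordsL) 52920 490 = true := by decide +kernel
theorem lrel_109 : allRange (fun c => allList (fun w => L.checkRel w c) wordsL) 53410 490 = true := by decide +kernel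

end Cfsg.Agent.Lib.Helper30.Fi24.F306936
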