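import Cfsg.Agent.Lib.Helper30.Fi24.F306936DataL

set_option autoImplicit false
set_option maxRecDepth 100000

namespace Cfsg.Agent.Lib.Helper30.Fi24.F306936

open Cfsg.Agent.Lib.Helper28

theorem lrel_110 : allRange (fun c => allList (fun w => L.checkRel w c) wordsL) 53900 490 = true := by decide +kernel
theorem lrel_111 : allRange (fun c => allList (fun w => L.checkRel w c) wordsL) 54390 490 = true := by decide +kernel
theorem lrel_112 : allRange (fun c => allList (fun w => L.checkRel w c) wordsL) 54880 490 = true := by decide +kernel
theorem lrel_113 : allRange (fun c => allList (fun w => L.checkRel w c) wordsL) 55370 490 = true := by decide +kernel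
theorem lrel_114 : allRange (fun c => allList (fun w => L.checkRel w c) wordsL) 55860 490 = true := by decide +kernel
theorem lrel_115 : allRange (fun c => allList (fun w => L.checkRel w c) wordsL) 56350 490 = true := by decide +kernel
theorem lrel_116 : allRange (fun c => allList (fun w => L.checkRel w c) wordsL) 56840 490 = true := by decide +kernel
theorem lrel_117 : allRange (fun c => allList (fun w => L.checkRel w c) wordsL) 57330 490 = true := by decide +kernel
theorem lrel_118 : allRange (fun c => allList (fun w => L.checkRel w c) wordsL) 57820 490 = true := by decide +kernel
theorem lrel_119 : allRange (fun c => allList (fun w => L.checkRel w c) wordsL) 58310 490 = true := by decide +kernel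

end Cfsg.Agent.Lib.Helper30.Fi24.F306936
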