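import Cfsg.Agent.Lib.Helper30.Fi24.F306936DataL

set_option autoImplicit false
set_option maxRecDepth 100000

namespace Cfsg.Agent.Lib.Helper30.Fi24.F306936

open Cfsg.Agent.Lib.Helper28

theorem lrel_120 : allRange (fun c => allList (fun w => L.checkRel w c) wordsL) 58800 490 = true := by decide +kernel
theorem lrel_121 : allRange (fun c => allList (fun w => L.checkRel w c) wordsL) 59290 490 = true := by decide +kernel
theorem lrel_122 : allRange (fun c => allList (fun w => L.checkRel w c) wordsL) 59780 490 = true := by decide +kernel
theorem lrel_123 : allRange (fun c => allList (fun w => L.checkRel w c) wordsL) 60270 490 = true := by decide +kernel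
theorem lrel_124 : allRange (fun c => allList (fun w => L.checkRel w c) wordsL) 60760 490 = true := by decide +kernel
theorem lrel_125 : allRange (fun c => allList (fun w => L.checkRel w c) wordsL) 61250 490 = true := by decide +kernel
theorem lrel_126 : allRange (fun c => allList (fun w => L.checkRel w c) wordsL) 61740 490 = true := by decide +kernel
theorem lrel_127 : allRange (fun c => allList (fun w => L.checkRel w c) wordsL) 62230 490 = true := by decide +kernel
theorem lrel_128 : allRange (fun c => allList (fun w => L.checkRel w c) wordsL) 62720 490 = true := by decide +kernel
theorem lrel_129 : allRange (fun c => allList (fun w => L.checkRel w c) wordsL) 63210 490 = true := by decide +kernel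

end Cfsg.Agent.Lib.Helper30.Fi24.F306936
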