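import Cfsg.Agent.Lib.Helper30.Fi24.F306936DataL

set_option autoImplicit false
set_option maxRecDepth 100000

namespace Cfsg.Agent.Lib.Helper30.Fi24.F306936

open Cfsg.Agent.Lib.Helper28

theorem lrel_130 : allRange (fun c => allList (fun w => L.checkRel w c) wordsL) 63700 490 = true := by decide +kernel
theorem lrel_131 : allRange (fun c => allList (fun w => L.checkRel w c) wordsL) 64190 490 = true := by decide +kernel
theorem lrel_132 : allRange (fun c => allList (fun w => L.checkRel w c) wordsL) 64680 490 = true := by decide +kernel
theorem lrel_133 : allRange (fun c => allList (fun w => L.checkRel w c) wordsL) 65170 490 = true := by decide +kernel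
theorem lrel_134 : allRange (fun c => allList (fun w => L.checkRel w c) wordsL) 65660 490 = true := by decide +kernel
theorem lrel_135 : allRange (fun c => allList (fun w => L.checkRel w c) wordsL) 66150 490 = true := by decide +kernel
theorem lrel_136 : allRange (fun c => allList (fun w => L.checkRel w c) wordsL) 66640 490 = true := by decide +kernel
theorem lrel_137 : allRange (fun c => allList (fun w => L.checkRel w c) wordsL) 67130 490 = true := by decide +kernel
theorem lrel_138 : allRange (fun c => allList (fun w => L.checkRel w c) wordsL) 67620 490 = true := by decide +kernel
theorem lrel_139 : allRange (fun c => allList (fun w => L.checkRel w c) wordsL) 68110 490 = true := by decide +kernel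

end Cfsg.Agent.Lib.Helper30.Fi24.F306936
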