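import Cfsg.Agent.Lib.Helper30.Fi24.F306936DataL

set_option autoImplicit false
set_option maxRecDepth 100000

namespace Cfsg.Agent.Lib.Helper30.Fi24.F306936

open Cfsg.Agent.Lib.Helper28

theorem lrel_140 : allRange (fun c => allList (fun w => L.checkRel w c) wordsL) 68600 490 = true := by decide +kernel
theorem lrel_141 : allRange (fun c => allList (fun w => L.checkRel w c) wordsL) 69090 490 = true := by decide +kernel
theorem lrel_142 : allRange (fun c => allList (fun w => L.checkRel w c) wordsL) 69580 490 = true := by decide +kernel
theorem lrel_143 : allRange (fun c => allList (fun w => L.checkRel w c) wordsL) 70070 490 = true := by decide +kernel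
theorem lrel_144 : allRange (fun c => allList (fun w => L.checkRel w c) wordsL) 70560 490 = true := by decide +kernel
theorem lrel_145 : allRange (fun c => allList (fun w => L.checkRel w c) wordsL) 71050 490 = true := by decide +kernel
theorem lrel_146 : allRange (fun c => allList (fun w => L.checkRel w c) wordsL) 71540 490 = true := by decide +kernel
theorem lrel_147 : allRange (fun c => allList (fun w => L.checkRel w c) wordsL) 72030 490 = true := by decide +kernel
theorem lrel_148 : allRange (fun c => allList (fun w => L.checkRel w c) wordsL) 72520 490 = true := by decide +kernel
theorem lrel_149 : allRange (fun c => allList (fun w => L.checkRel w c) wordsL) 73010 490 = true := by decide +kernel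

end Cfsg.Agent.Lib.Helper30.Fi24.F306936
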