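import Cfsg.Agent.Lib.Helper30.Fi24.F306936DataL

set_option autoImplicit false
set_option maxRecDepth 100000

namespace Cfsg.Agent.Lib.Helper30.Fi24.F306936

open Cfsg.Agent.Lib.Helper28

theorem lrel_150 : allRange (fun c => allList (fun w => L.checkRel w c) wordsL) 73500 490 = true := by decide +kernel
theorem lrel_151 : allRange (fun c => allList (fun w => L.checkRel w c) wordsL) 73990 490 = true := by decide +kernel
theorem lrel_152 : allRange (fun c => allList (fun w => L.checkRel w c) wordsL) 74480 490 = true := by decide +kernel
theorem lrel_153 : allRange (fun c => allList (fun w => L.checkRel w c) wordsL) 74970 490 = true := by decide +kernel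
theorem lrel_154 : allRange (fun c => allList (fun w => L.checkRel w c) wordsL) 75460 490 = true := by decide +kernel
theorem lrel_155 : allRange (fun c => allList (fun w => L.checkRel w c) wordsL) 75950 490 = true := by decide +kernel
theorem lrel_156 : allRange (fun c => allList (fun w => L.checkRel w c) wordsL) 76440 490 = true := by decide +kernel
theorem lrel_157 : allRange (fun c => allList (fun w => L.checkRel w c) wordsL) 76930 490 = true := by decide +kernel
theorem lrel_158 : allRange (fun c => allList (fun w => L.checkRel w c) wordsL) 77420 490 = true := by decide +kernel
theorem lrel_159 : allRange (fun c => allList (fun w => L.checkRel w c) wordsL) 77910 490 = true := by decide +kernel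

end Cfsg.Agent.Lib.Helper30.Fi24.F306936
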