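import Cfsg.Agent.Lib.Helper30.Fi24.F306936DataL

set_option autoImplicit false
set_option maxRecDepth 100000

namespace Cfsg.Agent.Lib.Helper30.Fi24.F306936

open Cfsg.Agent.Lib.Helper28

theorem lrel_160 : allRange (fun c => allList (fun w => L.checkRel w c) wordsL) 78400 490 = true := by decide +kernel
theorem lrel_161 : allRange (fun c => allList (fun w => L.checkRel w c) wordsL) 78890 490 = true := by decide +kernel
theorem lrel_162 : allRange (fun c => allList (fun w => L.checkRel w c) wordsL) 79380 490 = true := by decide +kernel
theorem lrel_163 : allRange (fun c => allList (fun w => L.checkRel w c) wordsL) 79870 490 = true := by decide +kernel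
theorem lrel_164 : allRange (fun c => allList (fun w => L.checkRel w c) wordsL) 80360 490 = true := by decide +kernel
theorem lrel_165 : allRange (fun c => allList (fun w => L.checkRel w c) wordsL) 80850 490 = true := by decide +kernel
theorem lrel_166 : allRange (fun c => allList (fun w => L.checkRel w c) wordsL) 81340 490 = true := by decide +kernel
theorem lrel_167 : allRange (fun c => allList (fun w => L.checkRel w c) wordsL) 81830 490 = true := by decide +kernel
theorem lrel_168 : allRange (fun c => allList (fun w => L.checkRel w c) wordsL) 82320 490 = true := by decide +kernel
theorem lrel_169 : allRange (fun c => allList (fun w => L.checkRel w c) wordsL) 82810 490 = true := by decide +kernel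

end Cfsg.Agent.Lib.Helper30.Fi24.F306936
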