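import Cfsg.Agent.Lib.Helper30.Fi24.F306936DataL

set_option autoImplicit false
set_option maxRecDepth 100000

namespace Cfsg.Agent.Lib.Helper30.Fi24.F306936

open Cfsg.Agent.Lib.Helper28

theorem lrel_170 : allRange (fun c => allList (fun w => L.checkRel w c) wordsL) 83300 490 = true := by decide +kernel
theorem lrel_171 : allRange (fun c => allList (fun w => L.checkRel w c) wordsL) 83790 490 = true := by decide +kernel
theorem lrel_172 : allRange (fun c => allList (fun w => L.checkRel w c) wordsL) 84280 490 = true := by decide +kernel
theorem lrel_173 : allRange (fun c => allList (fun w => L.checkRel w c) wordsL) 84770 490 = true := by decide +kernel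
theorem lrel_174 : allRange (fun c => allList (fun w => L.checkRel w c) wordsL) 85260 490 = true := by decide +kernel
theorem lrel_175 : allRange (fun c => allList (fun w => L.checkRel w c) wordsL) 85750 490 = true := by decide +kernel
theorem lrel_176 : allRange (fun c => allList (fun w => L.checkRel w c) wordsL) 86240 490 = true := by decide +kernel
theorem lrel_177 : allRange (fun c => allList (fun w => L.checkRel w c) wordsL) 86730 490 = true := by decide +kernel
theorem lrel_178 : allRange (fun c => allList (fun w => L.checkRel w c) wordsL) 87220 490 = true := by decide +kernel
theorem lrel_179 : allRange (fun c => allList (fun w => L.checkRel w c) wordsL) 87710 490 = true := by decide +kernel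

end Cfsg.Agent.Lib.Helper30.Fi24.F306936
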