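import Cfsg.Agent.Lib.Helper30.Fi24.F306936DataL

set_option autoImplicit false
set_option maxRecDepth 100000

namespace Cfsg.Agent.Lib.Helper30.Fi24.F306936

open Cfsg.Agent.Lib.Helper28

theorem lrel_180 : allRange (fun c => allList (fun w => L.checkRel w c) wordsL) 88200 490 = true := by decide +kernel
theorem lrel_181 : allRange (fun c => allList (fun w => L.checkRel w c) wordsL) 88690 490 = true := by decide +kernel
theorem lrel_182 : allRange (fun c => allList (fun w => L.checkRel w c) wordsL) 89180 490 = true := by decide +kernel
theorem lrel_183 : allRange (fun c => allList (fun w => L.checkRel w c) wordsL) 89670 490 = true := by decide +kernel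
theorem lrel_184 : allRange (fun c => allList (fun w => L.checkRel w c) wordsL) 90160 490 = true := by decide +kernel
theorem lrel_185 : allRange (fun c => allList (fun w => L.checkRel w c) wordsL) 90650 490 = true := by decide +kernel
theorem lrel_186 : allRange (fun c => allList (fun w => L.checkRel w c) wordsL) 91140 490 = true := by decide +kernel
theorem lrel_187 : allRange (fun c => allList (fun w => L.checkRel w c) wordsL) 91630 490 = true := by decide +kernel
theorem lrel_188 : allRange (fun c => allList (fun w => L.checkRel w c) wordsL) 92120 490 = true := by decide +kernel
theorem lrel_189 : allRange (fun c => allList (fun w => L.checkRel w c) wordsL) 92610 490 = true := by decide +kernel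

end Cfsg.Agent.Lib.Helper30.Fi24.F306936
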