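import Cfsg.Agent.Lib.Helper30.Fi24.F306936DataL

set_option autoImplicit false
set_option maxRecDepth 100000

namespace Cfsg.Agent.Lib.Helper30.Fi24.F306936

open Cfsg.Agent.Lib.Helper28

theorem lrel_190 : allRange (fun c => allList (fun w => L.checkRel w c) wordsL) 93100 490 = true := by decide +kernel
theorem lrel_191 : allRange (fun c => allList (fun w => L.checkRel w c) wordsL) 93590 490 = true := by decide +kernel
theorem lrel_192 : allRange (fun c => allList (fun w => L.checkRel w c) wordsL) 94080 490 = true := by decide +kernel
theorem lrel_193 : allRange (fun c => allList (fun w => L.checkRel w c) wordsL) 94570 490 = true := by decide +kernel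
theorem lrel_194 : allRange (fun c => allList (fun w => L.checkRel w c) wordsL) 95060 490 = true := by decide +kernel
theorem lrel_195 : allRange (fun c => allList (fun w => L.checkRel w c) wordsL) 95550 490 = true := by decide +kernel
theorem lrel_196 : allRange (fun c => allList (fun w => L.checkRel w c) wordsL) 96040 490 = true := by decide +kernel
theorem lrel_197 : allRange (fun c => allList (fun w => L.checkRel w c) wordsL) 96530 490 = true := by decide +kernel
theorem lrel_198 : allRange (fun c => allList (fun w => L.checkRel w c) wordsL) 97020 490 = true := by decide +kernel
theorem lrel_199 : allRange (fun c => allList (fun w => L.checkRel w c) wordsL) 97510 490 = true := by decide +kernel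

end Cfsg.Agent.Lib.Helper30.Fi24.F306936
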