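import Cfsg.Agent.Lib.Helper30.Fi24.F306936DataL

set_option autoImplicit false
set_option maxRecDepth 100000

namespace Cfsg.Agent.Lib.Helper30.Fi24.F306936

open Cfsg.Agent.Lib.Helper28

theorem lrel_20 : allRange (fun c => allList (fun w => L.checkRel w c) wordsL) 9800 490 = true := by decide +kernel
theorem lrel_21 : allRange (fun c => allList (fun w => L.checkRel w c) wordsL) 10290 490 = true := by decide +kernel
theorem lrel_22 : allRange (fun c => allList (fun w => L.checkRel w c) wordsL) 10780 490 = true := by decide +kernel
theorem lrel_23 : allRange (fun c => allList (fun w => L.checkRel w c) wordsL) 11270 490 = true := by decide +kernel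
theorem lrel_24 : allRange (fun c => allList (fun w => L.checkRel w c) wordsL) 11760 490 = true := by decide +kernel
theorem lrel_25 : allRange (fun c => allList (fun w => L.checkRel w c) wordsL) 12250 490 = true := by decide +kernel
theorem lrel_26 : allRange (fun c => allList (fun w => L.checkRel w c) wordsL) 12740 490 = true := by decide +kernel
theorem lrel_27 : allRange (fun c => allList (fun w => L.checkRel w c) wordsL) 13230 490 = true := by decide +kernel
theorem lrel_28 : allRange (fun c => allList (fun w => L.checkRel w c) wordsL) 13720 490 = true := by decide +kernel
theorem lrel_29 : allRange (fun c => allList (fun w => L.checkRel w c) wordsL) 14210 490 = true := by decide +kernel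

end Cfsg.Agent.Lib.Helper30.Fi24.F306936
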