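import Cfsg.Agent.Lib.Helper30.Fi24.F306936DataL

set_option autoImplicit false
set_option maxRecDepth 100000

namespace Cfsg.Agent.Lib.Helper30.Fi24.F306936

open Cfsg.Agent.Lib.Helper28

theorem lrel_200 : allRange (fun c => allList (fun w => L.checkRel w c) wordsL) 98000 490 = true := by decide +kernel
theorem lrel_201 : allRange (fun c => allList (fun w => L.checkRel w c) wordsL) 98490 490 = true := by decide +kernel
theorem lrel_202 : allRange (fun c => allList (fun w => L.checkRel w c) wordsL) 98980 490 = true := by decide +kernel
theorem lrel_203 : allRange (fun c => allList (fun w => L.checkRel w c) wordsL) 99470 490 = true := by decide +kernel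
theorem lrel_204 : allRange (fun c => allList (fun w => L.checkRel w c) wordsL) 99960 490 = true := by decide +kernel
theorem lrel_205 : allRange (fun c => allList (fun w => L.checkRel w c) wordsL) 100450 490 = true := by decide +kernel
theorem lrel_206 : allRange (fun c => allList (fun w => L.checkRel w c) wordsL) 100940 490 = true := by decide +kernel
theorem lrel_207 : allRange (fun c => allList (fun w => L.checkRel w c) wordsL) 101430 490 = true := by decide +kernel
theorem lrel_208 : allRange (fun c => allList (fun w => L.checkRel w c) wordsL) 101920 490 = true := by decide +kernel
theorem lrel_209 : allRange (fun c => allList (fun w => L.checkRel w c) wordsL) 102410 490 = true := by decide +kernel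

end Cfsg.Agent.Lib.Helper30.Fi24.F306936
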