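import Cfsg.Agent.Lib.Helper30.Fi24.F306936DataL

set_option autoImplicit false
set_option maxRecDepth 100000

namespace Cfsg.Agent.Lib.Helper30.Fi24.F306936

open Cfsg.Agent.Lib.Helper28

theorem lrel_210 : allRange (fun c => allList (fun w => L.checkRel w c) wordsL) 102900 490 = true := by decide +kernel
theorem lrel_211 : allRange (fun c => allList (fun w => L.checkRel w c) wordsL) 103390 490 = true := by decide +kernel
theorem lrel_212 : allRange (fun c => allList (fun w => L.checkRel w c) wordsL) 103880 490 = true := by decide +kernel
theorem lrel_213 : allRange (fun c => allList (fun w => L.checkRel w c) wordsL) 104370 490 = true := by decide +kernel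
theorem lrel_214 : allRange (fun c => allList (fun w => L.checkRel w c) wordsL) 104860 490 = true := by decide +kernel
theorem lrel_215 : allRange (fun c => allList (fun w => L.checkRel w c) wordsL) 105350 490 = true := by decide +kernel
theorem lrel_216 : allRange (fun c => allList (fun w => L.checkRel w c) wordsL) 105840 490 = true := by decide +kernel
theorem lrel_217 : allRange (fun c => allList (fun w => L.checkRel w c) wordsL) 106330 490 = true := by decide +kernel
theorem lrel_218 : allRange (fun c => allList (fun w => L.checkRel w c) wordsL) 106820 490 = true := by decide +kernel
theorem lrel_219 : allRange (fun c => allList (fun w => L.checkRel w c) wordsL) 107310 490 = true := by decide +kernel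

end Cfsg.Agent.Lib.Helper30.Fi24.F306936
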