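import Cfsg.Agent.Lib.Helper30.Fi24.F306936DataL

set_option autoImplicit false
set_option maxRecDepth 100000

namespace Cfsg.Agent.Lib.Helper30.Fi24.F306936

open Cfsg.Agent.Lib.Helper28

theorem lrel_220 : allRange (fun c => allList (fun w => L.checkRel w c) wordsL) 107800 490 = true := by decide +kernel
theorem lrel_221 : allRange (fun c => allList (fun w => L.checkRel w c) wordsL) 108290 490 = true := by decide +kernel
theorem lrel_222 : allRange (fun c => allList (fun w => L.checkRel w c) wordsL) 108780 490 = true := by decide +kernel
theorem lrel_223 : allRange (fun c => allList (fun w => L.checkRel w c) wordsL) 109270 490 = true := by decide +kernel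
theorem lrel_224 : allRange (fun c => allList (fun w => L.checkRel w c) wordsL) 109760 490 = true := by decide +kernel
theorem lrel_225 : allRange (fun c => allList (fun w => L.checkRel w c) wordsL) 110250 490 = true := by decide +kernel
theorem lrel_226 : allRange (fun c => allList (fun w => L.checkRel w c) wordsL) 110740 490 = true := by decide +kernel
theorem lrel_227 : allRange (fun c => allList (fun w => L.checkRel w c) wordsL) 111230 490 = true := by decide +kernel
theorem lrel_228 : allRange (fun c => allList (fun w => L.checkRel w c) wordsL) 111720 490 = true := by decide +kernel
theorem lrel_229 : allRange (fun c => allList (fun w => L.checkRel w c) wordsL) 112210 490 = true := by decide +kernel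

end Cfsg.Agent.Lib.Helper30.Fi24.F306936
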