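import Cfsg.Agent.Lib.Helper30.Fi24.F306936DataL

set_option autoImplicit false
set_option maxRecDepth 100000

namespace Cfsg.Agent.Lib.Helper30.Fi24.F306936

open Cfsg.Agent.Lib.Helper28

theorem lrel_230 : allRange (fun c => allList (fun w => L.checkRel w c) wordsL) 112700 490 = true := by decide +kernel
theorem lrel_231 : allRange (fun c => allList (fun w => L.checkRel w c) wordsL) 113190 490 = true := by decide +kernel
theorem lrel_232 : allRange (fun c => allList (fun w => L.checkRel w c) wordsL) 113680 490 = true := by decide +kernel
theorem lrel_233 : allRange (fun c => allList (fun w => L.checkRel w c) wordsL) 114170 490 = true := by decide +kernel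
theorem lrel_234 : allRange (fun c => allList (fun w => L.checkRel w c) wordsL) 114660 490 = true := by decide +kernel
theorem lrel_235 : allRange (fun c => allList (fun w => L.checkRel w c) wordsL) 115150 490 = true := by decide +kernel
theorem lrel_236 : allRange (fun c => allList (fun w => L.checkRel w c) wordsL) 115640 490 = true := by decide +kernel
theorem lrel_237 : allRange (fun c => allList (fun w => L.checkRel w c) wordsL) 116130 490 = true := by decide +kernel
theorem lrel_238 : allRange (fun c => allList (fun w => L.checkRel w c) wordsL) 116620 490 = true := by decide +kernel
theorem lrel_239 : allRange (fun c => allList (fun w => L.checkRel w c) wordsL) 117110 490 = true := by decide +kernel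

end Cfsg.Agent.Lib.Helper30.Fi24.F306936
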