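import Cfsg.Agent.Lib.Helper30.Fi24.F306936DataL

set_option autoImplicit false
set_option maxRecDepth 100000

namespace Cfsg.Agent.Lib.Helper30.Fi24.F306936

open Cfsg.Agent.Lib.Helper28

theorem lrel_240 : allRange (fun c => allList (fun w => L.checkRel w c) wordsL) 117600 490 = true := by decide +kernel
theorem lrel_241 : allRange (fun c => allList (fun w => L.checkRel w c) wordsL) 118090 490 = true := by decide +kernel
theorem lrel_242 : allRange (fun c => allList (fun w => L.checkRel w c) wordsL) 118580 490 = true := by decide +kernel
theorem lrel_243 : allRange (fun c => allList (fun w => L.checkRel w c) wordsL) 119070 490 = true := by decide +kernel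
theorem lrel_244 : allRange (fun c => allList (fun w => L.checkRel w c) wordsL) 119560 490 = true := by decide +kernel
theorem lrel_245 : allRange (fun c => allList (fun w => L.checkRel w c) wordsL) 120050 490 = true := by decide +kernel
theorem lrel_246 : allRange (fun c => allList (fun w => L.checkRel w c) wordsL) 120540 490 = true := by decide +kernel
theorem lrel_247 : allRange (fun c => allList (fun w => L.checkRel w c) wordsL) 121030 490 = true := by decide +kernel
theorem lrel_248 : allRange (fun c => allList (fun w => L.checkRel w c) wordsL) 121520 490 = true := by decide +kernel
theorem lrel_249 : allRange (fun c => allList (fun w => L.checkRel w c) wordsL) 122010 490 = true := by decide +kernel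

end Cfsg.Agent.Lib.Helper30.Fi24.F306936
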