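import Cfsg.Agent.Lib.Helper30.Fi24.F306936DataL

set_option autoImplicit false
set_option maxRecDepth 100000

namespace Cfsg.Agent.Lib.Helper30.Fi24.F306936

open Cfsg.Agent.Lib.Helper28

theorem lrel_250 : allRange (fun c => allList (fun w => L.checkRel w c) wordsL) 122500 490 = true := by decide +kernel
theorem lrel_251 : allRange (fun c => allList (fun w => L.checkRel w c) wordsL) 122990 490 = true := by decide +kernel
theorem lrel_252 : allRange (fun c => allList (fun w => L.checkRel w c) wordsL) 123480 490 = true := by decide +kernel
theorem lrel_253 : allRange (fun c => allList (fun w => L.checkRel w c) wordsL) 123970 490 = true := by decide +kernel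
theorem lrel_254 : allRange (fun c => allList (fun w => L.checkRel w c) wordsL) 124460 490 = true := by decide +kernel
theorem lrel_255 : allRange (fun c => allList (fun w => L.checkRel w c) wordsL) 124950 490 = true := by decide +kernel
theorem lrel_256 : allRange (fun c => allList (fun w => L.checkRel w c) wordsL) 125440 490 = true := by decide +kernel
theorem lrel_257 : allRange (fun c => allList (fun w => L.checkRel w c) wordsL) 125930 490 = true := by decide +kernel
theorem lrel_258 : allRange (fun c => allList (fun w => L.checkRel w c) wordsL) 126420 490 = true := by decide +kernel
theorem lrel_259 : allRange (fun c => allList (fun w => L.checkRel w c) wordsL) 126910 490 = true := by decide +kernel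

end Cfsg.Agent.Lib.Helper30.Fi24.F306936
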