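import Cfsg.Agent.Lib.Helper30.Fi24.F306936DataL

set_option autoImplicit false
set_option maxRecDepth 100000

namespace Cfsg.Agent.Lib.Helper30.Fi24.F306936

open Cfsg.Agent.Lib.Helper28

theorem lrel_260 : allRange (fun c => allList (fun w => L.checkRel w c) wordsL) 127400 490 = true := by decide +kernel
theorem lrel_261 : allRange (fun c => allList (fun w => L.checkRel w c) wordsL) 127890 490 = true := by decide +kernel
theorem lrel_262 : allRange (fun c => allList (fun w => L.checkRel w c) wordsL) 128380 490 = true := by decide +kernel
theorem lrel_263 : allRange (fun c => allList (fun w => L.checkRel w c) wordsL) 128870 490 = true := by decide +kernel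
theorem lrel_264 : allRange (fun c => allList (fun w => L.checkRel w c) wordsL) 129360 490 = true := by decide +kernel
theorem lrel_265 : allRange (fun c => allList (fun w => L.checkRel w c) wordsL) 129850 490 = true := by decide +kernel
theorem lrel_266 : allRange (fun c => allList (fun w => L.checkRel w c) wordsL) 130340 490 = true := by decide +kernel
theorem lrel_267 : allRange (fun c => allList (fun w => L.checkRel w c) wordsL) 130830 490 = true := by decide +kernel
theorem lrel_268 : allRange (fun c => allList (fun w => L.checkRel w c) wordsL) 131320 490 = true := by decide +kernel
theorem lrel_269 : allRange (fun c => allList (fun w => L.checkRel w c) wordsL) 131810 490 = true := by decide +kernel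

end Cfsg.Agent.Lib.Helper30.Fi24.F306936
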