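import Cfsg.Agent.Lib.Helper30.Fi24.F306936DataL

set_option autoImplicit false
set_option maxRecDepth 100000

namespace Cfsg.Agent.Lib.Helper30.Fi24.F306936

open Cfsg.Agent.Lib.Helper28

theorem lrel_270 : allRange (fun c => allList (fun w => L.checkRel w c) wordsL) 132300 490 = true := by decide +kernel
theorem lrel_271 : allRange (fun c => allList (fun w => L.checkRel w c) wordsL) 132790 490 = true := by decide +kernel
theorem lrel_272 : allRange (fun c => allList (fun w => L.checkRel w c) wordsL) 133280 490 = true := by decide +kernel
theorem lrel_273 : allRange (fun c => allList (fun w => L.checkRel w c) wordsL) 133770 490 = true := by decide +kernel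
theorem lrel_274 : allRange (fun c => allList (fun w => L.checkRel w c) wordsL) 134260 490 = true := by decide +kernel
theorem lrel_275 : allRange (fun c => allList (fun w => L.checkRel w c) wordsL) 134750 490 = true := by decide +kernel
theorem lrel_276 : allRange (fun c => allList (fun w => L.checkRel w c) wordsL) 135240 490 = true := by decide +kernel
theorem lrel_277 : allRange (fun c => allList (fun w => L.checkRel w c) wordsL) 135730 490 = true := by decide +kernel
theorem lrel_278 : allRange (fun c => allList (fun w => L.checkRel w c) wordsL) 136220 490 = true := by decide +kernel
theorem lrel_279 : allRange (fun c => allList (fun w => L.checkRel w c) wordsL) 136710 490 = true := by decide +kernel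

end Cfsg.Agent.Lib.Helper30.Fi24.F306936
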