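import Cfsg.Agent.Lib.Helper30.Fi24.F306936DataL

set_option autoImplicit false
set_option maxRecDepth 100000

namespace Cfsg.Agent.Lib.Helper30.Fi24.F306936

open Cfsg.Agent.Lib.Helper28

theorem lrel_280 : allRange (fun c => allList (fun w => L.checkRel w c) wordsL) 137200 490 = true := by decide +kernel
theorem lrel_281 : allRange (fun c => allList (fun w => L.checkRel w c) wordsL) 137690 490 = true := by decide +kernel
theorem lrel_282 : allRange (fun c => allList (fun w => L.checkRel w c) wordsL) 138180 490 = true := by decide +kernel
theorem lrel_283 : allRange (fun c => allList (fun w => L.checkRel w c) wordsL) 138670 490 = true := by decide +kernel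
theorem lrel_284 : allRange (fun c => allList (fun w => L.checkRel w c) wordsL) 139160 490 = true := by decide +kernel
theorem lrel_285 : allRange (fun c => allList (fun w => L.checkRel w c) wordsL) 139650 490 = true := by decide +kernel
theorem lrel_286 : allRange (fun c => allList (fun w => L.checkRel w c) wordsL) 140140 490 = true := by decide +kernel
theorem lrel_287 : allRange (fun c => allList (fun w => L.checkRel w c) wordsL) 140630 490 = true := by decide +kernel
theorem lrel_288 : allRange (fun c => allList (fun w => L.checkRel w c) wordsL) 141120 490 = true := by decide +kernel
theorem lrel_289 : allRange (fun c => allList (fun w => L.checkRel w c) wordsL) 141610 490 = true := by decide +kernel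

end Cfsg.Agent.Lib.Helper30.Fi24.F306936
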