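import Cfsg.Agent.Lib.Helper30.Fi24.F306936DataL

set_option autoImplicit false
set_option maxRecDepth 100000

namespace Cfsg.Agent.Lib.Helper30.Fi24.F306936

open Cfsg.Agent.Lib.Helper28

theorem lrel_290 : allRange (fun c => allList (fun w => L.checkRel w c) wordsL) 142100 490 = true := by decide +kernel
theorem lrel_291 : allRange (fun c => allList (fun w => L.checkRel w c) wordsL) 142590 490 = true := by decide +kernel
theorem lrel_292 : allRange (fun c => allList (fun w => L.checkRel w c) wordsL) 143080 490 = true := by decide +kernel
theorem lrel_293 : allRange (fun c => allList (fun w => L.checkRel w c) wordsL) 143570 490 = true := by decide +kernel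
theorem lrel_294 : allRange (fun c => allList (fun w => L.checkRel w c) wordsL) 144060 490 = true := by decide +kernel
theorem lrel_295 : allRange (fun c => allList (fun w => L.checkRel w c) wordsL) 144550 490 = true := by decide +kernel
theorem lrel_296 : allRange (fun c => allList (fun w => L.checkRel w c) wordsL) 145040 490 = true := by decide +kernel
theorem lrel_297 : allRange (fun c => allList (fun w => L.checkRel w c) wordsL) 145530 490 = true := by decide +kernel
theorem lrel_298 : allRange (fun c => allList (fun w => L.checkRel w c) wordsL) 146020 490 = true := by decide +kernel
theorem lrel_299 : allRange (fun c => allList (fun w => L.checkRel w c) wordsL) 146510 490 = true := by decide +kernel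

end Cfsg.Agent.Lib.Helper30.Fi24.F306936
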