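import Cfsg.Agent.Lib.Helper30.Fi24.F306936DataL

set_option autoImplicit false
set_option maxRecDepth 100000

namespace Cfsg.Agent.Lib.Helper30.Fi24.F306936

open Cfsg.Agent.Lib.Helper28

theorem lrel_30 : allRange (fun c => allList (fun w => L.checkRel w c) wordsL) 14700 490 = true := by decide +kernel
theorem lrel_31 : allRange (fun c => allList (fun w => L.checkRel w c) wordsL) 15190 490 = true := by decide +kernel
theorem lrel_32 : allRange (fun c => allList (fun w => L.checkRel w c) wordsL) 15680 490 = true := by decide +kernel
theorem lrel_33 : allRange (fun c => allList (fun w => L.checkRel w c) wordsL) 16170 490 = true := by decide +kernel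
theorem lrel_34 : allRange (fun c => allList (fun w => L.checkRel w c) wordsL) 16660 490 = true := by decide +kernel
theorem lrel_35 : allRange (fun c => allList (fun w => L.checkRel w c) wordsL) 17150 490 = true := by decide +kernel
theorem lrel_36 : allRange (fun c => allList (fun w => L.checkRel w c) wordsL) 17640 490 = true := by decide +kernel
theorem lrel_37 : allRange (fun c => allList (fun w => L.checkRel w c) wordsL) 18130 490 = true := by decide +kernel
theorem lrel_38 : allRange (fun c => allList (fun w => L.checkRel w c) wordsL) 18620 490 = true := by decide +kernel
theorem lrel_39 : allRange (fun c => allList (fun w => L.checkRel w c) wordsL) 19110 490 = true := by decide +kernel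

end Cfsg.Agent.Lib.Helper30.Fi24.F306936
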