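import Cfsg.Agent.Lib.Helper30.Fi24.F306936DataL

set_option autoImplicit false
set_option maxRecDepth 100000

namespace Cfsg.Agent.Lib.Helper30.Fi24.F306936

open Cfsg.Agent.Lib.Helper28

theorem lrel_300 : allRange (fun c => allList (fun w => L.checkRel w c) wordsL) 147000 490 = true := by decide +kernel
theorem lrel_301 : allRange (fun c => allList (fun w => L.checkRel w c) wordsL) 147490 490 = true := by decide +kernel
theorem lrel_302 : allRange (fun c => allList (fun w => L.checkRel w c) wordsL) 147980 490 = true := by decide +kernel
theorem lrel_303 : allRange (fun c => allList (fun w => L.checkRel w c) wordsL) 148470 490 = true := by decide +kernel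
theorem lrel_304 : allRange (fun c => allList (fun w => L.checkRel w c) wordsL) 148960 490 = true := by decide +kernel
theorem lrel_305 : allRange (fun c => allList (fun w => L.checkRel w c) wordsL) 149450 490 = true := by decide +kernel
theorem lrel_306 : allRange (fun c => allList (fun w => L.checkRel w c) wordsL) 149940 490 = true := by decide +kernel
theorem lrel_307 : allRange (fun c => allList (fun w => L.checkRel w c) wordsL) 150430 490 = true := by decide +kernel
theorem lrel_308 : allRange (fun c => allList (fun w => L.checkRel w c) wordsL) 150920 490 = true := by decide +kernel
theorem lrel_309 : allRange (fun c => allList (fun w => L.checkRel w c) wordsL) 151410 490 = true := by decide +kernel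

end Cfsg.Agent.Lib.Helper30.Fi24.F306936
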