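import Cfsg.Agent.Lib.Helper30.Fi24.F306936DataL

set_option autoImplicit false
set_option maxRecDepth 100000

namespace Cfsg.Agent.Lib.Helper30.Fi24.F306936

open Cfsg.Agent.Lib.Helper28

theorem lrel_310 : allRange (fun c => allList (fun w => L.checkRel w c) wordsL) 151900 490 = true := by decide +kernel
theorem lrel_311 : allRange (fun c => allList (fun w => L.checkRel w c) wordsL) 152390 490 = true := by decide +kernel
theorem lrel_312 : allRange (fun c => allList (fun w => L.checkRel w c) wordsL) 152880 490 = true := by decide +kernel
theorem lrel_313 : allRange (fun c => allList (fun w => L.checkRel w c) wordsL) 153370 490 = true := by decide +kernel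
theorem lrel_314 : allRange (fun c => allList (fun w => L.checkRel w c) wordsL) 153860 490 = true := by decide +kernel
theorem lrel_315 : allRange (fun c => allList (fun w => L.checkRel w c) wordsL) 154350 490 = true := by decide +kernel
theorem lrel_316 : allRange (fun c => allList (fun w => L.checkRel w c) wordsL) 154840 490 = true := by decide +kernel
theorem lrel_317 : allRange (fun c => allList (fun w => L.checkRel w c) wordsL) 155330 490 = true := by decide +kernel
theorem lrel_318 : allRange (fun c => allList (fun w => L.checkRel w c) wordsL) 155820 490 = true := by decide +kernel
theorem lrel_319 : allRange (fun c => allList (fun w => L.checkRel w c) wordsL) 156310 490 = true := by decide +kernel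

end Cfsg.Agent.Lib.Helper30.Fi24.F306936
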