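import Cfsg.Agent.Lib.Helper30.Fi24.F306936DataL

set_option autoImplicit false
set_option maxRecDepth 100000

namespace Cfsg.Agent.Lib.Helper30.Fi24.F306936

open Cfsg.Agent.Lib.Helper28

theorem lrel_320 : allRange (fun c => allList (fun w => L.checkRel w c) wordsL) 156800 490 = true := by decide +kernel
theorem lrel_321 : allRange (fun c => allList (fun w => L.checkRel w c) wordsL) 157290 490 = true := by decide +kernel
theorem lrel_322 : allRange (fun c => allList (fun w => L.checkRel w c) wordsL) 157780 490 = true := by decide +kernel
theorem lrel_323 : allRange (fun c => allList (fun w => L.checkRel w c) wordsL) 158270 490 = true := by decide +kernel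
theorem lrel_324 : allRange (fun c => allList (fun w => L.checkRel w c) wordsL) 158760 490 = true := by decide +kernel
theorem lrel_325 : allRange (fun c => allList (fun w => L.checkRel w c) wordsL) 159250 490 = true := by decide +kernel
theorem lrel_326 : allRange (fun c => allList (fun w => L.checkRel w c) wordsL) 159740 490 = true := by decide +kernel
theorem lrel_327 : allRange (fun c => allList (fun w => L.checkRel w c) wordsL) 160230 490 = true := by decide +kernel
theorem lrel_328 : allRange (fun c => allList (fun w => L.checkRel w c) wordsL) 160720 490 = true := by decide +kernel
theorem lrel_329 : allRange (fun c => allList (fun w => L.checkRel w c) wordsL) 161210 490 = true := by decide +kernel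

end Cfsg.Agent.Lib.Helper30.Fi24.F306936
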