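import Cfsg.Agent.Lib.Helper30.Fi24.F306936DataL

set_option autoImplicit false
set_option maxRecDepth 100000

namespace Cfsg.Agent.Lib.Helper30.Fi24.F306936

open Cfsg.Agent.Lib.Helper28

theorem lrel_330 : allRange (fun c => allList (fun w => L.checkRel w c) wordsL) 161700 490 = true := by decide +kernel
theorem lrel_331 : allRange (fun c => allList (fun w => L.checkRel w c) wordsL) 162190 490 = true := by decide +kernel
theorem lrel_332 : allRange (fun c => allList (fun w => L.checkRel w c) wordsL) 162680 490 = true := by decide +kernel
theorem lrel_333 : allRange (fun c => allList (fun w => L.checkRel w c) wordsL) 163170 490 = true := by decide +kernel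
theorem lrel_334 : allRange (fun c => allList (fun w => L.checkRel w c) wordsL) 163660 490 = true := by decide +kernel
theorem lrel_335 : allRange (fun c => allList (fun w => L.checkRel w c) wordsL) 164150 490 = true := by decide +kernel
theorem lrel_336 : allRange (fun c => allList (fun w => L.checkRel w c) wordsL) 164640 490 = true := by decide +kernel
theorem lrel_337 : allRange (fun c => allList (fun w => L.checkRel w c) wordsL) 165130 490 = true := by decide +kernel
theorem lrel_338 : allRange (fun c => allList (fun w => L.checkRel w c) wordsL) 165620 490 = true := by decide +kernel
theorem lrel_339 : allRange (fun c => allList (fun w => L.checkRel w c) wordsL) 166110 490 = true := by decide +kernel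

end Cfsg.Agent.Lib.Helper30.Fi24.F306936
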