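import Cfsg.Agent.Lib.Helper30.Fi24.F306936DataL

set_option autoImplicit false
set_option maxRecDepth 100000

namespace Cfsg.Agent.Lib.Helper30.Fi24.F306936

open Cfsg.Agent.Lib.Helper28

theorem lrel_340 : allRange (fun c => allList (fun w => L.checkRel w c) wordsL) 166600 490 = true := by decide +kernel
theorem lrel_341 : allRange (fun c => allList (fun w => L.checkRel w c) wordsL) 167090 490 = true := by decide +kernel
theorem lrel_342 : allRange (fun c => allList (fun w => L.checkRel w c) wordsL) 167580 490 = true := by decide +kernel
theorem lrel_343 : allRange (fun c => allList (fun w => L.checkRel w c) wordsL) 168070 490 = true := by decide +kernel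
theorem lrel_344 : allRange (fun c => allList (fun w => L.checkRel w c) wordsL) 168560 490 = true := by decide +kernel
theorem lrel_345 : allRange (fun c => allList (fun w => L.checkRel w c) wordsL) 169050 490 = true := by decide +kernel
theorem lrel_346 : allRange (fun c => allList (fun w => L.checkRel w c) wordsL) 169540 490 = true := by decide +kernel
theorem lrel_347 : allRange (fun c => allList (fun w => L.checkRel w c) wordsL) 170030 490 = true := by decide +kernel
theorem lrel_348 : allRange (fun c => allList (fun w => L.checkRel w c) wordsL) 170520 490 = true := by decide +kernel
theorem lrel_349 : allRange (fun c => allList (fun w => L.checkRel w c) wordsL) 171010 490 = true := by decide +kernel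

end Cfsg.Agent.Lib.Helper30.Fi24.F306936
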