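import Cfsg.Agent.Lib.Helper30.Fi24.F306936DataL

set_option autoImplicit false
set_option maxRecDepth 100000

namespace Cfsg.Agent.Lib.Helper30.Fi24.F306936

open Cfsg.Agent.Lib.Helper28

theorem lrel_350 : allRange (fun c => allList (fun w => L.checkRel w c) wordsL) 171500 490 = true := by decide +kernel
theorem lrel_351 : allRange (fun c => allList (fun w => L.checkRel w c) wordsL) 171990 490 = true := by decide +kernel
theorem lrel_352 : allRange (fun c => allList (fun w => L.checkRel w c) wordsL) 172480 490 = true := by decide +kernel
theorem lrel_353 : allRange (fun c => allList (fun w => L.checkRel w c) wordsL) 172970 490 = true := by decide +kernel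
theorem lrel_354 : allRange (fun c => allList (fun w => L.checkRel w c) wordsL) 173460 490 = true := by decide +kernel
theorem lrel_355 : allRange (fun c => allList (fun w => L.checkRel w c) wordsL) 173950 490 = true := by decide +kernel
theorem lrel_356 : allRange (fun c => allList (fun w => L.checkRel w c) wordsL) 174440 490 = true := by decide +kernel
theorem lrel_357 : allRange (fun c => allList (fun w => L.checkRel w c) wordsL) 174930 490 = true := by decide +kernel
theorem lrel_358 : allRange (fun c => allList (fun w => L.checkRel w c) wordsL) 175420 490 = true := by decide +kernel
theorem lrel_359 : allRange (fun c => allList (fun w => L.checkRel w c) wordsL) 175910 490 = true := by decide +kernel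

end Cfsg.Agent.Lib.Helper30.Fi24.F306936
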