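import Cfsg.Agent.Lib.Helper30.Fi24.F306936DataL

set_option autoImplicit false
set_option maxRecDepth 100000

namespace Cfsg.Agent.Lib.Helper30.Fi24.F306936

open Cfsg.Agent.Lib.Helper28

theorem lrel_360 : allRange (fun c => allList (fun w => L.checkRel w c) wordsL) 176400 490 = true := by decide +kernel
theorem lrel_361 : allRange (fun c => allList (fun w => L.checkRel w c) wordsL) 176890 490 = true := by decide +kernel
theorem lrel_362 : allRange (fun c => allList (fun w => L.checkRel w c) wordsL) 177380 490 = true := by decide +kernel
theorem lrel_363 : allRange (fun c => allList (fun w => L.checkRel w c) wordsL) 177870 490 = true := by decide +kernel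
theorem lrel_364 : allRange (fun c => allList (fun w => L.checkRel w c) wordsL) 178360 490 = true := by decide +kernel
theorem lrel_365 : allRange (fun c => allList (fun w => L.checkRel w c) wordsL) 178850 490 = true := by decide +kernel
theorem lrel_366 : allRange (fun c => allList (fun w => L.checkRel w c) wordsL) 179340 490 = true := by decide +kernel
theorem lrel_367 : allRange (fun c => allList (fun w => L.checkRel w c) wordsL) 179830 490 = true := by decide +kernel
theorem lrel_368 : allRange (fun c => allList (fun w => L.checkRel w c) wordsL) 180320 490 = true := by decide +kernel
theorem lrel_369 : allRange (fun c => allList (fun w => L.checkRel w c) wordsL) 180810 490 = true := by decide +kernel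

end Cfsg.Agent.Lib.Helper30.Fi24.F306936
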