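import Cfsg.Agent.Lib.Helper30.Fi24.F306936DataL

set_option autoImplicit false
set_option maxRecDepth 100000

namespace Cfsg.Agent.Lib.Helper30.Fi24.F306936

open Cfsg.Agent.Lib.Helper28

theorem lrel_370 : allRange (fun c => allList (fun w => L.checkRel w c) wordsL) 181300 490 = true := by decide +kernel
theorem lrel_371 : allRange (fun c => allList (fun w => L.checkRel w c) wordsL) 181790 490 = true := by decide +kernel
theorem lrel_372 : allRange (fun c => allList (fun w => L.checkRel w c) wordsL) 182280 490 = true := by decide +kernel
theorem lrel_373 : allRange (fun c => allList (fun w => L.checkRel w c) wordsL) 182770 490 = true := by decide +kernel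
theorem lrel_374 : allRange (fun c => allList (fun w => L.checkRel w c) wordsL) 183260 490 = true := by decide +kernel
theorem lrel_375 : allRange (fun c => allList (fun w => L.checkRel w c) wordsL) 183750 490 = true := by decide +kernel
theorem lrel_376 : allRange (fun c => allList (fun w => L.checkRel w c) wordsL) 184240 490 = true := by decide +kernel
theorem lrel_377 : allRange (fun c => allList (fun w => L.checkRel w c) wordsL) 184730 490 = true := by decide +kernel
theorem lrel_378 : allRange (fun c => allList (fun w => L.checkRel w c) wordsL) 185220 490 = true := by decide +kernel
theorem lrel_379 : allRange (fun c => allList (fun w => L.checkRel w c) wordsL) 185710 490 = true := by decide +kernel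

end Cfsg.Agent.Lib.Helper30.Fi24.F306936
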