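import Cfsg.Agent.Lib.Helper30.Fi24.F306936DataL

set_option autoImplicit false
set_option maxRecDepth 100000

namespace Cfsg.Agent.Lib.Helper30.Fi24.F306936

open Cfsg.Agent.Lib.Helper28

theorem lrel_380 : allRange (fun c => allList (fun w => L.checkRel w c) wordsL) 186200 490 = true := by decide +kernel
theorem lrel_381 : allRange (fun c => allList (fun w => L.checkRel w c) wordsL) 186690 490 = true := by decide +kernel
theorem lrel_382 : allRange (fun c => allList (fun w => L.checkRel w c) wordsL) 187180 490 = true := by decide +kernel
theorem lrel_383 : allRange (fun c => allList (fun w => L.checkRel w c) wordsL) 187670 490 = true := by decide +kernel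
theorem lrel_384 : allRange (fun c => allList (fun w => L.checkRel w c) wordsL) 188160 490 = true := by decide +kernel
theorem lrel_385 : allRange (fun c => allList (fun w => L.checkRel w c) wordsL) 188650 490 = true := by decide +kernel
theorem lrel_386 : allRange (fun c => allList (fun w => L.checkRel w c) wordsL) 189140 490 = true := by decide +kernel
theorem lrel_387 : allRange (fun c => allList (fun w => L.checkRel w c) wordsL) 189630 490 = true := by decide +kernel
theorem lrel_388 : allRange (fun c => allList (fun w => L.checkRel w c) wordsL) 190120 490 = true := by decide +kernel
theorem lrel_389 : allRange (fun c => allList (fun w => L.checkRel w c) wordsL) 190610 490 = true := by decide +kernel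

end Cfsg.Agent.Lib.Helper30.Fi24.F306936
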