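import Cfsg.Agent.Lib.Helper30.Fi24.F306936DataL

set_option autoImplicit false
set_option maxRecDepth 100000

namespace Cfsg.Agent.Lib.Helper30.Fi24.F306936

open Cfsg.Agent.Lib.Helper28

theorem lrel_390 : allRange (fun c => allList (fun w => L.checkRel w c) wordsL) 191100 490 = true := by decide +kernel
theorem lrel_391 : allRange (fun c => allList (fun w => L.checkRel w c) wordsL) 191590 490 = true := by decide +kernel
theorem lrel_392 : allRange (fun c => allList (fun w => L.checkRel w c) wordsL) 192080 490 = true := by decide +kernel
theorem lrel_393 : allRange (fun c => allList (fun w => L.checkRel w c) wordsL) 192570 490 = true := by decide +kernel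
theorem lrel_394 : allRange (fun c => allList (fun w => L.checkRel w c) wordsL) 193060 490 = true := by decide +kernel
theorem lrel_395 : allRange (fun c => allList (fun w => L.checkRel w c) wordsL) 193550 490 = true := by decide +kernel
theorem lrel_396 : allRange (fun c => allList (fun w => L.checkRel w c) wordsL) 194040 490 = true := by decide +kernel
theorem lrel_397 : allRange (fun c => allList (fun w => L.checkRel w c) wordsL) 194530 490 = true := by decide +kernel
theorem lrel_398 : allRange (fun c => allList (fun w => L.checkRel w c) wordsL) 195020 490 = true := by decide +kernel
theorem lrel_399 : allRange (fun c => allList (fun w => L.checkRel w c) wordsL) 195510 490 = true := by decide +kernel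

end Cfsg.Agent.Lib.Helper30.Fi24.F306936
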