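import Cfsg.Agent.Lib.Helper30.Fi24.F306936DataL

set_option autoImplicit false
set_option maxRecDepth 100000

namespace Cfsg.Agent.Lib.Helper30.Fi24.F306936

open Cfsg.Agent.Lib.Helper28

theorem lrel_40 : allRange (fun c => allList (fun w => L.checkRel w c) wordsL) 19600 490 = true := by decide +kernel
theorem lrel_41 : allRange (fun c => allList (fun w => L.checkRel w c) wordsL) 20090 490 = true := by decide +kernel
theorem lrel_42 : allRange (fun c => allList (fun w => L.checkRel w c) wordsL) 20580 490 = true := by decide +kernel
theorem lrel_43 : allRange (fun c => allList (fun w => L.checkRel w c) wordsL) 21070 490 = true := by decide +kernel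
theorem lrel_44 : allRange (fun c => allList (fun w => L.checkRel w c) wordsL) 21560 490 = true := by decide +kernel
theorem lrel_45 : allRange (fun c => allList (fun w => L.checkRel w c) wordsL) 22050 490 = true := by decide +kernel
theorem lrel_46 : allRange (fun c => allList (fun w => L.checkRel w c) wordsL) 22540 490 = true := by decide +kernel
theorem lrel_47 : allRange (fun c => allList (fun w => L.checkRel w c) wordsL) 23030 490 = true := by decide +kernel
theorem lrel_48 : allRange (fun c => allList (fun w => L.checkRel w c) wordsL) 23520 490 = true := by decide +kernel
theorem lrel_49 : allRange (fun c => allList (fun w => L.checkRel w c) wordsL) 24010 490 = true := by decide +kernel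

end Cfsg.Agent.Lib.Helper30.Fi24.F306936
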