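import Cfsg.Agent.Lib.Helper30.Fi24.F306936DataL

set_option autoImplicit false
set_option maxRecDepth 100000

namespace Cfsg.Agent.Lib.Helper30.Fi24.F306936

open Cfsg.Agent.Lib.Helper28

theorem lrel_400 : allRange (fun c => allList (fun w => L.checkRel w c) wordsL) 196000 490 = true := by decide +kernel
theorem lrel_401 : allRange (fun c => allList (fun w => L.checkRel w c) wordsL) 196490 490 = true := by decide +kernel
theorem lrel_402 : allRange (fun c => allList (fun w => L.checkRel w c) wordsL) 196980 490 = true := by decide +kernel
theorem lrel_403 : allRange (fun c => allList (fun w => L.checkRel w c) wordsL) 197470 490 = true := by decide +kernel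
theorem lrel_404 : allRange (fun c => allList (fun w => L.checkRel w c) wordsL) 197960 490 = true := by decide +kernel
theorem lrel_405 : allRange (fun c => allList (fun w => L.checkRel w c) wordsL) 198450 490 = true := by decide +kernel
theorem lrel_406 : allRange (fun c => allList (fun w => L.checkRel w c) wordsL) 198940 490 = true := by decide +kernel
theorem lrel_407 : allRange (fun c => allList (fun w => L.checkRel w c) wordsL) 199430 490 = true := by decide +kernel
theorem lrel_408 : allRange (fun c => allList (fun w => L.checkRel w c) wordsL) 199920 490 = true := by decide +kernel
theorem lrel_409 : allRange (fun c => allList (fun w => L.checkRel w c) wordsL) 200410 490 = true := by decide +kernel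

end Cfsg.Agent.Lib.Helper30.Fi24.F306936
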