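import Cfsg.Agent.Lib.Helper30.Fi24.F306936DataL

set_option autoImplicit false
set_option maxRecDepth 100000

namespace Cfsg.Agent.Lib.Helper30.Fi24.F306936

open Cfsg.Agent.Lib.Helper28

theorem lrel_410 : allRange (fun c => allList (fun w => L.checkRel w c) wordsL) 200900 490 = true := by decide +kernel
theorem lrel_411 : allRange (fun c => allList (fun w => L.checkRel w c) wordsL) 201390 490 = true := by decide +kernel
theorem lrel_412 : allRange (fun c => allList (fun w => L.checkRel w c) wordsL) 201880 490 = true := by decide +kernel
theorem lrel_413 : allRange (fun c => allList (fun w => L.checkRel w c) wordsL) 202370 490 = true := by decide +kernel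
theorem lrel_414 : allRange (fun c => allList (fun w => L.checkRel w c) wordsL) 202860 490 = true := by decide +kernel
theorem lrel_415 : allRange (fun c => allList (fun w => L.checkRel w c) wordsL) 203350 490 = true := by decide +kernel
theorem lrel_416 : allRange (fun c => allList (fun w => L.checkRel w c) wordsL) 203840 490 = true := by decide +kernel
theorem lrel_417 : allRange (fun c => allList (fun w => L.checkRel w c) wordsL) 204330 490 = true := by decide +kernel
theorem lrel_418 : allRange (fun c => allList (fun w => L.checkRel w c) wordsL) 204820 490 = true := by decide +kernel
theorem lrel_419 : allRange (fun c => allList (fun w => L.checkRel w c) wordsL) 205310 490 = true := by decide +kernel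

end Cfsg.Agent.Lib.Helper30.Fi24.F306936
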