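import Cfsg.Agent.Lib.Helper30.Fi24.F306936DataL

set_option autoImplicit false
set_option maxRecDepth 100000

namespace Cfsg.Agent.Lib.Helper30.Fi24.F306936

open Cfsg.Agent.Lib.Helper28

theorem lrel_420 : allRange (fun c => allList (fun w => L.checkRel w c) wordsL) 205800 490 = true := by decide +kernel
theorem lrel_421 : allRange (fun c => allList (fun w => L.checkRel w c) wordsL) 206290 490 = true := by decide +kernel
theorem lrel_422 : allRange (fun c => allList (fun w => L.checkRel w c) wordsL) 206780 490 = true := by decide +kernel
theorem lrel_423 : allRange (fun c => allList (fun w => L.checkRel w c) wordsL) 207270 490 = true := by decide +kernel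
theorem lrel_424 : allRange (fun c => allList (fun w => L.checkRel w c) wordsL) 207760 490 = true := by decide +kernel
theorem lrel_425 : allRange (fun c => allList (fun w => L.checkRel w c) wordsL) 208250 490 = true := by decide +kernel
theorem lrel_426 : allRange (fun c => allList (fun w => L.checkRel w c) wordsL) 208740 490 = true := by decide +kernel
theorem lrel_427 : allRange (fun c => allList (fun w => L.checkRel w c) wordsL) 209230 490 = true := by decide +kernel
theorem lrel_428 : allRange (fun c => allList (fun w => L.checkRel w c) wordsL) 209720 490 = true := by decide +kernel
theorem lrel_429 : allRange (fun c => allList (fun w => L.checkRel w c) wordsL) 210210 490 = true := by decide +kernel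

end Cfsg.Agent.Lib.Helper30.Fi24.F306936
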