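import Cfsg.Agent.Lib.Helper30.Fi24.F306936DataL

set_option autoImplicit false
set_option maxRecDepth 100000

namespace Cfsg.Agent.Lib.Helper30.Fi24.F306936

open Cfsg.Agent.Lib.Helper28

theorem lrel_430 : allRange (fun c => allList (fun w => L.checkRel w c) wordsL) 210700 490 = true := by decide +kernel
theorem lrel_431 : allRange (fun c => allList (fun w => L.checkRel w c) wordsL) 211190 490 = true := by decide +kernel
theorem lrel_432 : allRange (fun c => allList (fun w => L.checkRel w c) wordsL) 211680 490 = true := by decide +kernel
theorem lrel_433 : allRange (fun c => allList (fun w => L.checkRel w c) wordsL) 212170 490 = true := by decide +kernel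
theorem lrel_434 : allRange (fun c => allList (fun w => L.checkRel w c) wordsL) 212660 490 = true := by decide +kernel
theorem lrel_435 : allRange (fun c => allList (fun w => L.checkRel w c) wordsL) 213150 490 = true := by decide +kernel
theorem lrel_436 : allRange (fun c => allList (fun w => L.checkRel w c) wordsL) 213640 490 = true := by decide +kernel
theorem lrel_437 : allRange (fun c => allList (fun w => L.checkRel w c) wordsL) 214130 490 = true := by decide +kernel
theorem lrel_438 : allRange (fun c => allList (fun w => L.checkRel w c) wordsL) 214620 490 = true := by decide +kernel
theorem lrel_439 : allRange (fun c => allList (fun w => L.checkRel w c) wordsL) 215110 490 = true := by decide +kernel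

end Cfsg.Agent.Lib.Helper30.Fi24.F306936
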