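import Cfsg.Agent.Lib.Helper30.Fi24.F306936DataL

set_option autoImplicit false
set_option maxRecDepth 100000

namespace Cfsg.Agent.Lib.Helper30.Fi24.F306936

open Cfsg.Agent.Lib.Helper28

theorem lrel_440 : allRange (fun c => allList (fun w => L.checkRel w c) wordsL) 215600 490 = true := by decide +kernel
theorem lrel_441 : allRange (fun c => allList (fun w => L.checkRel w c) wordsL) 216090 490 = true := by decide +kernel
theorem lrel_442 : allRange (fun c => allList (fun w => L.checkRel w c) wordsL) 216580 490 = true := by decide +kernel
theorem lrel_443 : allRange (fun c => allList (fun w => L.checkRel w c) wordsL) 217070 490 = true := by decide +kernel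
theorem lrel_444 : allRange (fun c => allList (fun w => L.checkRel w c) wordsL) 217560 490 = true := by decide +kernel
theorem lrel_445 : allRange (fun c => allList (fun w => L.checkRel w c) wordsL) 218050 490 = true := by decide +kernel
theorem lrel_446 : allRange (fun c => allList (fun w => L.checkRel w c) wordsL) 218540 490 = true := by decide +kernel
theorem lrel_447 : allRange (fun c => allList (fun w => L.checkRel w c) wordsL) 219030 490 = true := by decide +kernel
theorem lrel_448 : allRange (fun c => allList (fun w => L.checkRel w c) wordsL) 219520 490 = true := by decide +kernel
theorem lrel_449 : allRange (fun c => allList (fun w => L.checkRel w c) wordsL) 220010 490 = true := by decide +kernel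

end Cfsg.Agent.Lib.Helper30.Fi24.F306936
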