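import Cfsg.Agent.Lib.Helper30.Fi24.F306936DataL

set_option autoImplicit false
set_option maxRecDepth 100000

namespace Cfsg.Agent.Lib.Helper30.Fi24.F306936

open Cfsg.Agent.Lib.Helper28

theorem lrel_450 : allRange (fun c => allList (fun w => L.checkRel w c) wordsL) 220500 490 = true := by decide +kernel
theorem lrel_451 : allRange (fun c => allList (fun w => L.checkRel w c) wordsL) 220990 490 = true := by decide +kernel
theorem lrel_452 : allRange (fun c => allList (fun w => L.checkRel w c) wordsL) 221480 490 = true := by decide +kernel
theorem lrel_453 : allRange (fun c => allList (fun w => L.checkRel w c) wordsL) 221970 490 = true := by decide +kernel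
theorem lrel_454 : allRange (fun c => allList (fun w => L.checkRel w c) wordsL) 222460 490 = true := by decide +kernel
theorem lrel_455 : allRange (fun c => allList (fun w => L.checkRel w c) wordsL) 222950 490 = true := by decide +kernel
theorem lrel_456 : allRange (fun c => allList (fun w => L.checkRel w c) wordsL) 223440 490 = true := by decide +kernel
theorem lrel_457 : allRange (fun c => allList (fun w => L.checkRel w c) wordsL) 223930 490 = true := by decide +kernel
theorem lrel_458 : allRange (fun c => allList (fun w => L.checkRel w c) wordsL) 224420 490 = true := by decide +kernel
theorem lrel_459 : allRange (fun c => allList (fun w => L.checkRel w c) wordsL) 224910 490 = true := by decide +kernel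

end Cfsg.Agent.Lib.Helper30.Fi24.F306936
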