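import Cfsg.Agent.Lib.Helper30.Fi24.F306936DataL

set_option autoImplicit false
set_option maxRecDepth 100000

namespace Cfsg.Agent.Lib.Helper30.Fi24.F306936

open Cfsg.Agent.Lib.Helper28

theorem lrel_460 : allRange (fun c => allList (fun w => L.checkRel w c) wordsL) 225400 490 = true := by decide +kernel
theorem lrel_461 : allRange (fun c => allList (fun w => L.checkRel w c) wordsL) 225890 490 = true := by decide +kernel
theorem lrel_462 : allRange (fun c => allList (fun w => L.checkRel w c) wordsL) 226380 490 = true := by decide +kernel
theorem lrel_463 : allRange (fun c => allList (fun w => L.checkRel w c) wordsL) 226870 490 = true := by decide +kernel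
theorem lrel_464 : allRange (fun c => allList (fun w => L.checkRel w c) wordsL) 227360 490 = true := by decide +kernel
theorem lrel_465 : allRange (fun c => allList (fun w => L.checkRel w c) wordsL) 227850 490 = true := by decide +kernel
theorem lrel_466 : allRange (fun c => allList (fun w => L.checkRel w c) wordsL) 228340 490 = true := by decide +kernel
theorem lrel_467 : allRange (fun c => allList (fun w => L.checkRel w c) wordsL) 228830 490 = true := by decide +kernel
theorem lrel_468 : allRange (fun c => allList (fun w => L.checkRel w c) wordsL) 229320 490 = true := by decide +kernel
theorem lrel_469 : allRange (fun c => allList (fun w => L.checkRel w c) wordsL) 229810 490 = true := by decide +kernel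

end Cfsg.Agent.Lib.Helper30.Fi24.F306936
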