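import Cfsg.Agent.Lib.Helper30.Fi24.F306936DataL

set_option autoImplicit false
set_option maxRecDepth 100000

namespace Cfsg.Agent.Lib.Helper30.Fi24.F306936

open Cfsg.Agent.Lib.Helper28

theorem lrel_470 : allRange (fun c => allList (fun w => L.checkRel w c) wordsL) 230300 490 = true := by decide +kernel
theorem lrel_471 : allRange (fun c => allList (fun w => L.checkRel w c) wordsL) 230790 490 = true := by decide +kernel
theorem lrel_472 : allRange (fun c => allList (fun w => L.checkRel w c) wordsL) 231280 490 = true := by decide +kernel
theorem lrel_473 : allRange (fun c => allList (fun w => L.checkRel w c) wordsL) 231770 490 = true := by decide +kernel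
theorem lrel_474 : allRange (fun c => allList (fun w => L.checkRel w c) wordsL) 232260 490 = true := by decide +kernel
theorem lrel_475 : allRange (fun c => allList (fun w => L.checkRel w c) wordsL) 232750 490 = true := by decide +kernel
theorem lrel_476 : allRange (fun c => allList (fun w => L.checkRel w c) wordsL) 233240 490 = true := by decide +kernel
theorem lrel_477 : allRange (fun c => allList (fun w => L.checkRel w c) wordsL) 233730 490 = true := by decide +kernel
theorem lrel_478 : allRange (fun c => allList (fun w => L.checkRel w c) wordsL) 234220 490 = true := by decide +kernel
theorem lrel_479 : allRange (fun c => allList (fun w => L.checkRel w c) wordsL) 234710 490 = true := by decide +kernel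

end Cfsg.Agent.Lib.Helper30.Fi24.F306936
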