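import Cfsg.Agent.Lib.Helper30.Fi24.F306936DataL

set_option autoImplicit false
set_option maxRecDepth 100000

namespace Cfsg.Agent.Lib.Helper30.Fi24.F306936

open Cfsg.Agent.Lib.Helper28

theorem lrel_480 : allRange (fun c => allList (fun w => L.checkRel w c) wordsL) 235200 490 = true := by decide +kernel
theorem lrel_481 : allRange (fun c => allList (fun w => L.checkRel w c) wordsL) 235690 490 = true := by decide +kernel
theorem lrel_482 : allRange (fun c => allList (fun w => L.checkRel w c) wordsL) 236180 490 = true := by decide +kernel
theorem lrel_483 : allRange (fun c => allList (fun w => L.checkRel w c) wordsL) 236670 490 = true := by decide +kernel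
theorem lrel_484 : allRange (fun c => allList (fun w => L.checkRel w c) wordsL) 237160 490 = true := by decide +kernel
theorem lrel_485 : allRange (fun c => allList (fun w => L.checkRel w c) wordsL) 237650 490 = true := by decide +kernel
theorem lrel_486 : allRange (fun c => allList (fun w => L.checkRel w c) wordsL) 238140 490 = true := by decide +kernel
theorem lrel_487 : allRange (fun c => allList (fun w => L.checkRel w c) wordsL) 238630 490 = true := by decide +kernel
theorem lrel_488 : allRange (fun c => allList (fun w => L.checkRel w c) wordsL) 239120 490 = true := by decide +kernel
theorem lrel_489 : allRange (fun c => allList (fun w => L.checkRel w c) wordsL) 239610 490 = true := by decide +kernel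

end Cfsg.Agent.Lib.Helper30.Fi24.F306936
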