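import Cfsg.Agent.Lib.Helper30.Fi24.F306936DataL

set_option autoImplicit false
set_option maxRecDepth 100000

namespace Cfsg.Agent.Lib.Helper30.Fi24.F306936

open Cfsg.Agent.Lib.Helper28

theorem lrel_490 : allRange (fun c => allList (fun w => L.checkRel w c) wordsL) 240100 490 = true := by decide +kernel
theorem lrel_491 : allRange (fun c => allList (fun w => L.checkRel w c) wordsL) 240590 490 = true := by decide +kernel
theorem lrel_492 : allRange (fun c => allList (fun w => L.checkRel w c) wordsL) 241080 490 = true := by decide +kernel
theorem lrel_493 : allRange (fun c => allList (fun w => L.checkRel w c) wordsL) 241570 490 = true := by decide +kernel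
theorem lrel_494 : allRange (fun c => allList (fun w => L.checkRel w c) wordsL) 242060 490 = true := by decide +kernel
theorem lrel_495 : allRange (fun c => allList (fun w => L.checkRel w c) wordsL) 242550 490 = true := by decide +kernel
theorem lrel_496 : allRange (fun c => allList (fun w => L.checkRel w c) wordsL) 243040 490 = true := by decide +kernel
theorem lrel_497 : allRange (fun c => allList (fun w => L.checkRel w c) wordsL) 243530 490 = true := by decide +kernel
theorem lrel_498 : allRange (fun c => allList (fun w => L.checkRel w c) wordsL) 244020 490 = true := by decide +kernel
theorem lrel_499 : allRange (fun c => allList (fun w => L.checkRel w c) wordsL) 244510 490 = true := by decide +kernel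

end Cfsg.Agent.Lib.Helper30.Fi24.F306936
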