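import Cfsg.Agent.Lib.Helper30.Fi24.F306936DataL

set_option autoImplicit false
set_option maxRecDepth 100000

namespace Cfsg.Agent.Lib.Helper30.Fi24.F306936

open Cfsg.Agent.Lib.Helper28

theorem lrel_50 : allRange (fun c => allList (fun w => L.checkRel w c) wordsL) 24500 490 = true := by decide +kernel
theorem lrel_51 : allRange (fun c => allList (fun w => L.checkRel w c) wordsL) 24990 490 = true := by decide +kernel
theorem lrel_52 : allRange (fun c => allList (fun w => L.checkRel w c) wordsL) 25480 490 = true := by decide +kernel
theorem lrel_53 : allRange (fun c => allList (fun w => L.checkRel w c) wordsL) 25970 490 = true := by decide +kernel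
theorem lrel_54 : allRange (fun c => allList (fun w => L.checkRel w c) wordsL) 26460 490 = true := by decide +kernel
theorem lrel_55 : allRange (fun c => allList (fun w => L.checkRel w c) wordsL) 26950 490 = true := by decide +kernel
theorem lrel_56 : allRange (fun c => allList (fun w => L.checkRel w c) wordsL) 27440 490 = true := by decide +kernel
theorem lrel_57 : allRange (fun c => allList (fun w => L.checkRel w c) wordsL) 27930 490 = true := by decide +kernel
theorem lrel_58 : allRange (fun c => allList (fun w => L.checkRel w c) wordsL) 28420 490 = true := by decide +kernel
theorem lrel_59 : allRange (fun c => allList (fun w => L.checkRel w c) wordsL) 28910 490 = true := by decide +kernel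

end Cfsg.Agent.Lib.Helper30.Fi24.F306936
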