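import Cfsg.Agent.Lib.Helper30.Fi24.F306936DataL

set_option autoImplicit false
set_option maxRecDepth 100000

namespace Cfsg.Agent.Lib.Helper30.Fi24.F306936

open Cfsg.Agent.Lib.Helper28

theorem lrel_500 : allRange (fun c => allList (fun w => L.checkRel w c) wordsL) 245000 490 = true := by decide +kernel
theorem lrel_501 : allRange (fun c => allList (fun w => L.checkRel w c) wordsL) 245490 490 = true := by decide +kernel
theorem lrel_502 : allRange (fun c => allList (fun w => L.checkRel w c) wordsL) 245980 490 = true := by decide +kernel
theorem lrel_503 : allRange (fun c => allList (fun w => L.checkRel w c) wordsL) 246470 490 = true := by decide +kernel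
theorem lrel_504 : allRange (fun c => allList (fun w => L.checkRel w c) wordsL) 246960 490 = true := by decide +kernel
theorem lrel_505 : allRange (fun c => allList (fun w => L.checkRel w c) wordsL) 247450 490 = true := by decide +kernel
theorem lrel_506 : allRange (fun c => allList (fun w => L.checkRel w c) wordsL) 247940 490 = true := by decide +kernel
theorem lrel_507 : allRange (fun c => allList (fun w => L.checkRel w c) wordsL) 248430 490 = true := by decide +kernel
theorem lrel_508 : allRange (fun c => allList (fun w => L.checkRel w c) wordsL) 248920 490 = true := by decide +kernel
theorem lrel_509 : allRange (fun c => allList (fun w => L.checkRel w c) wordsL) 249410 490 = true := by decide +kernel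

end Cfsg.Agent.Lib.Helper30.Fi24.F306936
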