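import Cfsg.Agent.Lib.Helper30.Fi24.F306936DataL

set_option autoImplicit false
set_option maxRecDepth 100000

namespace Cfsg.Agent.Lib.Helper30.Fi24.F306936

open Cfsg.Agent.Lib.Helper28

theorem lrel_510 : allRange (fun c => allList (fun w => L.checkRel w c) wordsL) 249900 490 = true := by decide +kernel
theorem lrel_511 : allRange (fun c => allList (fun w => L.checkRel w c) wordsL) 250390 490 = true := by decide +kernel
theorem lrel_512 : allRange (fun c => allList (fun w => L.checkRel w c) wordsL) 250880 490 = true := by decide +kernel
theorem lrel_513 : allRange (fun c => allList (fun w => L.checkRel w c) wordsL) 251370 490 = true := by decide +kernel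
theorem lrel_514 : allRange (fun c => allList (fun w => L.checkRel w c) wordsL) 251860 490 = true := by decide +kernel
theorem lrel_515 : allRange (fun c => allList (fun w => L.checkRel w c) wordsL) 252350 490 = true := by decide +kernel
theorem lrel_516 : allRange (fun c => allList (fun w => L.checkRel w c) wordsL) 252840 490 = true := by decide +kernel
theorem lrel_517 : allRange (fun c => allList (fun w => L.checkRel w c) wordsL) 253330 490 = true := by decide +kernel
theorem lrel_518 : allRange (fun c => allList (fun w => L.checkRel w c) wordsL) 253820 490 = true := by decide +kernel
theorem lrel_519 : allRange (fun c => allList (fun w => L.checkRel w c) wordsL) 254310 490 = true := by decide +kernel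

end Cfsg.Agent.Lib.Helper30.Fi24.F306936
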