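import Cfsg.Agent.Lib.Helper30.Fi24.F306936DataL

set_option autoImplicit false
set_option maxRecDepth 100000

namespace Cfsg.Agent.Lib.Helper30.Fi24.F306936

open Cfsg.Agent.Lib.Helper28

theorem lrel_520 : allRange (fun c => allList (fun w => L.checkRel w c) wordsL) 254800 490 = true := by decide +kernel
theorem lrel_521 : allRange (fun c => allList (fun w => L.checkRel w c) wordsL) 255290 490 = true := by decide +kernel
theorem lrel_522 : allRange (fun c => allList (fun w => L.checkRel w c) wordsL) 255780 490 = true := by decide +kernel
theorem lrel_523 : allRange (fun c => allList (fun w => L.checkRel w c) wordsL) 256270 490 = true := by decide +kernel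
theorem lrel_524 : allRange (fun c => allList (fun w => L.checkRel w c) wordsL) 256760 490 = true := by decide +kernel
theorem lrel_525 : allRange (fun c => allList (fun w => L.checkRel w c) wordsL) 257250 490 = true := by decide +kernel
theorem lrel_526 : allRange (fun c => allList (fun w => L.checkRel w c) wordsL) 257740 490 = true := by decide +kernel
theorem lrel_527 : allRange (fun c => allList (fun w => L.checkRel w c) wordsL) 258230 490 = true := by decide +kernel
theorem lrel_528 : allRange (fun c => allList (fun w => L.checkRel w c) wordsL) 258720 490 = true := by decide +kernel
theorem lrel_529 : allRange (fun c => allList (fun w => L.checkRel w c) wordsL) 259210 490 = true := by decide +kernel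

end Cfsg.Agent.Lib.Helper30.Fi24.F306936
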