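import Cfsg.Agent.Lib.Helper30.Fi24.F306936DataL

set_option autoImplicit false
set_option maxRecDepth 100000

namespace Cfsg.Agent.Lib.Helper30.Fi24.F306936

open Cfsg.Agent.Lib.Helper28

theorem lrel_530 : allRange (fun c => allList (fun w => L.checkRel w c) wordsL) 259700 490 = true := by decide +kernel
theorem lrel_531 : allRange (fun c => allList (fun w => L.checkRel w c) wordsL) 260190 490 = true := by decide +kernel
theorem lrel_532 : allRange (fun c => allList (fun w => L.checkRel w c) wordsL) 260680 490 = true := by decide +kernel
theorem lrel_533 : allRange (fun c => allList (fun w => L.checkRel w c) wordsL) 261170 490 = true := by decide +kernel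
theorem lrel_534 : allRange (fun c => allList (fun w => L.checkRel w c) wordsL) 261660 490 = true := by decide +kernel
theorem lrel_535 : allRange (fun c => allList (fun w => L.checkRel w c) wordsL) 262150 490 = true := by decide +kernel
theorem lrel_536 : allRange (fun c => allList (fun w => L.checkRel w c) wordsL) 262640 490 = true := by decide +kernel
theorem lrel_537 : allRange (fun c => allList (fun w => L.checkRel w c) wordsL) 263130 490 = true := by decide +kernel
theorem lrel_538 : allRange (fun c => allList (fun w => L.checkRel w c) wordsL) 263620 490 = true := by decide +kernel
theorem lrel_539 : allRange (fun c => allList (fun w => L.checkRel w c) wordsL) 264110 490 = true := by decide +kernel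

end Cfsg.Agent.Lib.Helper30.Fi24.F306936
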