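import Cfsg.Agent.Lib.Helper30.Fi24.F306936DataL

set_option autoImplicit false
set_option maxRecDepth 100000

namespace Cfsg.Agent.Lib.Helper30.Fi24.F306936

open Cfsg.Agent.Lib.Helper28

theorem lrel_540 : allRange (fun c => allList (fun w => L.checkRel w c) wordsL) 264600 490 = true := by decide +kernel
theorem lrel_541 : allRange (fun c => allList (fun w => L.checkRel w c) wordsL) 265090 490 = true := by decide +kernel
theorem lrel_542 : allRange (fun c => allList (fun w => L.checkRel w c) wordsL) 265580 490 = true := by decide +kernel
theorem lrel_543 : allRange (fun c => allList (fun w => L.checkRel w c) wordsL) 266070 490 = true := by decide +kernel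
theorem lrel_544 : allRange (fun c => allList (fun w => L.checkRel w c) wordsL) 266560 490 = true := by decide +kernel
theorem lrel_545 : allRange (fun c => allList (fun w => L.checkRel w c) wordsL) 267050 490 = true := by decide +kernel
theorem lrel_546 : allRange (fun c => allList (fun w => L.checkRel w c) wordsL) 267540 490 = true := by decide +kernel
theorem lrel_547 : allRange (fun c => allList (fun w => L.checkRel w c) wordsL) 268030 490 = true := by decide +kernel
theorem lrel_548 : allRange (fun c => allList (fun w => L.checkRel w c) wordsL) 268520 490 = true := by decide +kernel
theorem lrel_549 : allRange (fun c => allList (fun w => L.checkRel w c) wordsL) 269010 490 = true := by decide +kernel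

end Cfsg.Agent.Lib.Helper30.Fi24.F306936
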