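import Cfsg.Agent.Lib.Helper30.Fi24.F306936DataL

set_option autoImplicit false
set_option maxRecDepth 100000

namespace Cfsg.Agent.Lib.Helper30.Fi24.F306936

open Cfsg.Agent.Lib.Helper28

theorem lrel_550 : allRange (fun c => allList (fun w => L.checkRel w c) wordsL) 269500 490 = true := by decide +kernel
theorem lrel_551 : allRange (fun c => allList (fun w => L.checkRel w c) wordsL) 269990 490 = true := by decide +kernel
theorem lrel_552 : allRange (fun c => allList (fun w => L.checkRel w c) wordsL) 270480 490 = true := by decide +kernel
theorem lrel_553 : allRange (fun c => allList (fun w => L.checkRel w c) wordsL) 270970 490 = true := by decide +kernel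
theorem lrel_554 : allRange (fun c => allList (fun w => L.checkRel w c) wordsL) 271460 490 = true := by decide +kernel
theorem lrel_555 : allRange (fun c => allList (fun w => L.checkRel w c) wordsL) 271950 490 = true := by decide +kernel
theorem lrel_556 : allRange (fun c => allList (fun w => L.checkRel w c) wordsL) 272440 490 = true := by decide +kernel
theorem lrel_557 : allRange (fun c => allList (fun w => L.checkRel w c) wordsL) 272930 490 = true := by decide +kernel
theorem lrel_558 : allRange (fun c => allList (fun w => L.checkRel w c) wordsL) 273420 490 = true := by decide +kernel
theorem lrel_559 : allRange (fun c => allList (fun w => L.checkRel w c) wordsL) 273910 490 = true := by decide +kernel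

end Cfsg.Agent.Lib.Helper30.Fi24.F306936
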