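import Cfsg.Agent.Lib.Helper30.Fi24.F306936DataL

set_option autoImplicit false
set_option maxRecDepth 100000

namespace Cfsg.Agent.Lib.Helper30.Fi24.F306936

open Cfsg.Agent.Lib.Helper28

theorem lrel_560 : allRange (fun c => allList (fun w => L.checkRel w c) wordsL) 274400 490 = true := by decide +kernel
theorem lrel_561 : allRange (fun c => allList (fun w => L.checkRel w c) wordsL) 274890 490 = true := by decide +kernel
theorem lrel_562 : allRange (fun c => allList (fun w => L.checkRel w c) wordsL) 275380 490 = true := by decide +kernel
theorem lrel_563 : allRange (fun c => allList (fun w => L.checkRel w c) wordsL) 275870 490 = true := by decide +kernel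
theorem lrel_564 : allRange (fun c => allList (fun w => L.checkRel w c) wordsL) 276360 490 = true := by decide +kernel
theorem lrel_565 : allRange (fun c => allList (fun w => L.checkRel w c) wordsL) 276850 490 = true := by decide +kernel
theorem lrel_566 : allRange (fun c => allList (fun w => L.checkRel w c) wordsL) 277340 490 = true := by decide +kernel
theorem lrel_567 : allRange (fun c => allList (fun w => L.checkRel w c) wordsL) 277830 490 = true := by decide +kernel
theorem lrel_568 : allRange (fun c => allList (fun w => L.checkRel w c) wordsL) 278320 490 = true := by decide +kernel
theorem lrel_569 : allRange (fun c => allList (fun w => L.checkRel w c) wordsL) 278810 490 = true := by decide +kernel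

end Cfsg.Agent.Lib.Helper30.Fi24.F306936
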