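import Cfsg.Agent.Lib.Helper30.Fi24.F306936DataL

set_option autoImplicit false
set_option maxRecDepth 100000

namespace Cfsg.Agent.Lib.Helper30.Fi24.F306936

open Cfsg.Agent.Lib.Helper28

theorem lrel_570 : allRange (fun c => allList (fun w => L.checkRel w c) wordsL) 279300 490 = true := by decide +kernel
theorem lrel_571 : allRange (fun c => allList (fun w => L.checkRel w c) wordsL) 279790 490 = true := by decide +kernel
theorem lrel_572 : allRange (fun c => allList (fun w => L.checkRel w c) wordsL) 280280 490 = true := by decide +kernel
theorem lrel_573 : allRange (fun c => allList (fun w => L.checkRel w c) wordsL) 280770 490 = true := by decide +kernel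
theorem lrel_574 : allRange (fun c => allList (fun w => L.checkRel w c) wordsL) 281260 490 = true := by decide +kernel
theorem lrel_575 : allRange (fun c => allList (fun w => L.checkRel w c) wordsL) 281750 490 = true := by decide +kernel
theorem lrel_576 : allRange (fun c => allList (fun w => L.checkRel w c) wordsL) 282240 490 = true := by decide +kernel
theorem lrel_577 : allRange (fun c => allList (fun w => L.checkRel w c) wordsL) 282730 490 = true := by decide +kernel
theorem lrel_578 : allRange (fun c => allList (fun w => L.checkRel w c) wordsL) 283220 490 = true := by decide +kernel
theorem lrel_579 : allRange (fun c => allList (fun w => L.checkRel w c) wordsL) 283710 490 = true := by decide +kernel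

end Cfsg.Agent.Lib.Helper30.Fi24.F306936
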