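import Cfsg.Agent.Lib.Helper30.Fi24.F306936DataL

set_option autoImplicit false
set_option maxRecDepth 100000

namespace Cfsg.Agent.Lib.Helper30.Fi24.F306936

open Cfsg.Agent.Lib.Helper28

theorem lrel_580 : allRange (fun c => allList (fun w => L.checkRel w c) wordsL) 284200 490 = true := by decide +kernel
theorem lrel_581 : allRange (fun c => allList (fun w => L.checkRel w c) wordsL) 284690 490 = true := by decide +kernel
theorem lrel_582 : allRange (fun c => allList (fun w => L.checkRel w c) wordsL) 285180 490 = true := by decide +kernel
theorem lrel_583 : allRange (fun c => allList (fun w => L.checkRel w c) wordsL) 285670 490 = true := by decide +kernel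
theorem lrel_584 : allRange (fun c => allList (fun w => L.checkRel w c) wordsL) 286160 490 = true := by decide +kernel
theorem lrel_585 : allRange (fun c => allList (fun w => L.checkRel w c) wordsL) 286650 490 = true := by decide +kernel
theorem lrel_586 : allRange (fun c => allList (fun w => L.checkRel w c) wordsL) 287140 490 = true := by decide +kernel
theorem lrel_587 : allRange (fun c => allList (fun w => L.checkRel w c) wordsL) 287630 490 = true := by decide +kernel
theorem lrel_588 : allRange (fun c => allList (fun w => L.checkRel w c) wordsL) 288120 490 = true := by decide +kernel
theorem lrel_589 : allRange (fun c => allList (fun w => L.checkRel w c) wordsL) 288610 490 = true := by decide +kernel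

end Cfsg.Agent.Lib.Helper30.Fi24.F306936
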