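import Cfsg.Agent.Lib.Helper30.Fi24.F306936DataL

set_option autoImplicit false
set_option maxRecDepth 100000

namespace Cfsg.Agent.Lib.Helper30.Fi24.F306936

open Cfsg.Agent.Lib.Helper28

theorem lrel_590 : allRange (fun c => allList (fun w => L.checkRel w c) wordsL) 289100 490 = true := by decide +kernel
theorem lrel_591 : allRange (fun c => allList (fun w => L.checkRel w c) wordsL) 289590 490 = true := by decide +kernel
theorem lrel_592 : allRange (fun c => allList (fun w => L.checkRel w c) wordsL) 290080 490 = true := by decide +kernel
theorem lrel_593 : allRange (fun c => allList (fun w => L.checkRel w c) wordsL) 290570 490 = true := by decide +kernel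
theorem lrel_594 : allRange (fun c => allList (fun w => L.checkRel w c) wordsL) 291060 490 = true := by decide +kernel
theorem lrel_595 : allRange (fun c => allList (fun w => L.checkRel w c) wordsL) 291550 490 = true := by decide +kernel
theorem lrel_596 : allRange (fun c => allList (fun w => L.checkRel w c) wordsL) 292040 490 = true := by decide +kernel
theorem lrel_597 : allRange (fun c => allList (fun w => L.checkRel w c) wordsL) 292530 490 = true := by decide +kernel
theorem lrel_598 : allRange (fun c => allList (fun w => L.checkRel w c) wordsL) 293020 490 = true := by decide +kernel
theorem lrel_599 : allRange (fun c => allList (fun w => L.checkRel w c) wordsL) 293510 490 = true := by decide +kernel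

end Cfsg.Agent.Lib.Helper30.Fi24.F306936
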