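import Cfsg.Agent.Lib.Helper30.Fi24.F306936DataL

set_option autoImplicit false
set_option maxRecDepth 100000

namespace Cfsg.Agent.Lib.Helper30.Fi24.F306936

open Cfsg.Agent.Lib.Helper28

theorem lrel_60 : allRange (fun c => allList (fun w => L.checkRel w c) wordsL) 29400 490 = true := by decide +kernel
theorem lrel_61 : allRange (fun c => allList (fun w => L.checkRel w c) wordsL) 29890 490 = true := by decide +kernel
theorem lrel_62 : allRange (fun c => allList (fun w => L.checkRel w c) wordsL) 30380 490 = true := by decide +kernel
theorem lrel_63 : allRange (fun c => allList (fun w => L.checkRel w c) wordsL) 30870 490 = true := by decide +kernel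
theorem lrel_64 : allRange (fun c => allList (fun w => L.checkRel w c) wordsL) 31360 490 = true := by decide +kernel
theorem lrel_65 : allRange (fun c => allList (fun w => L.checkRel w c) wordsL) 31850 490 = true := by decide +kernel
theorem lrel_66 : allRange (fun c => allList (fun w => L.checkRel w c) wordsL) 32340 490 = true := by decide +kernel
theorem lrel_67 : allRange (fun c => allList (fun w => L.checkRel w c) wordsL) 32830 490 = true := by decide +kernel
theorem lrel_68 : allRange (fun c => allList (fun w => L.checkRel w c) wordsL) 33320 490 = true := by decide +kernel
theorem lrel_69 : allRange (fun c => allList (fun w => L.checkRel w c) wordsL) 33810 490 = true := by decide +kernel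

end Cfsg.Agent.Lib.Helper30.Fi24.F306936
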