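import Cfsg.Agent.Lib.Helper30.Fi24.F306936DataL

set_option autoImplicit false
set_option maxRecDepth 100000

namespace Cfsg.Agent.Lib.Helper30.Fi24.F306936

open Cfsg.Agent.Lib.Helper28

theorem lrel_600 : allRange (fun c => allList (fun w => L.checkRel w c) wordsL) 294000 490 = true := by decide +kernel
theorem lrel_601 : allRange (fun c => allList (fun w => L.checkRel w c) wordsL) 294490 490 = true := by decide +kernel
theorem lrel_602 : allRange (fun c => allList (fun w => L.checkRel w c) wordsL) 294980 490 = true := by decide +kernel
theorem lrel_603 : allRange (fun c => allList (fun w => L.checkRel w c) wordsL) 295470 490 = true := by decide +kernel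
theorem lrel_604 : allRange (fun c => allList (fun w => L.checkRel w c) wordsL) 295960 490 = true := by decide +kernel
theorem lrel_605 : allRange (fun c => allList (fun w => L.checkRel w c) wordsL) 296450 490 = true := by decide +kernel
theorem lrel_606 : allRange (fun c => allList (fun w => L.checkRel w c) wordsL) 296940 490 = true := by decide +kernel
theorem lrel_607 : allRange (fun c => allList (fun w => L.checkRel w c) wordsL) 297430 490 = true := by decide +kernel
theorem lrel_608 : allRange (fun c => allList (fun w => L.checkRel w c) wordsL) 297920 490 = true := by decide +kernel
theorem lrel_609 : allRange (fun c => allList (fun w => L.checkRel w c) wordsL) 298410 490 = true := by decide +kernel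

end Cfsg.Agent.Lib.Helper30.Fi24.F306936
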