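import Cfsg.Agent.Lib.Helper30.Fi24.F306936DataL

set_option autoImplicit false
set_option maxRecDepth 100000

namespace Cfsg.Agent.Lib.Helper30.Fi24.F306936

open Cfsg.Agent.Lib.Helper28

theorem lrel_610 : allRange (fun c => allList (fun w => L.checkRel w c) wordsL) 298900 490 = true := by decide +kernel
theorem lrel_611 : allRange (fun c => allList (fun w => L.checkRel w c) wordsL) 299390 490 = true := by decide +kernel
theorem lrel_612 : allRange (fun c => allList (fun w => L.checkRel w c) wordsL) 299880 490 = true := by decide +kernel
theorem lrel_613 : allRange (fun c => allList (fun w => L.checkRel w c) wordsL) 300370 490 = true := by decide +kernel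
theorem lrel_614 : allRange (fun c => allList (fun w => L.checkRel w c) wordsL) 300860 490 = true := by decide +kernel
theorem lrel_615 : allRange (fun c => allList (fun w => L.checkRel w c) wordsL) 301350 490 = true := by decide +kernel
theorem lrel_616 : allRange (fun c => allList (fun w => L.checkRel w c) wordsL) 301840 490 = true := by decide +kernel
theorem lrel_617 : allRange (fun c => allList (fun w => L.checkRel w c) wordsL) 302330 490 = true := by decide +kernel
theorem lrel_618 : allRange (fun c => allList (fun w => L.checkRel w c) wordsL) 302820 490 = true := by decide +kernel
theorem lrel_619 : allRange (fun c => allList (fun w => L.checkRel w c) wordsL) 303310 490 = true := by decide +kernel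

end Cfsg.Agent.Lib.Helper30.Fi24.F306936
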