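import Cfsg.Agent.Lib.Helper30.Fi24.F306936DataL

set_option autoImplicit false
set_option maxRecDepth 100000

namespace Cfsg.Agent.Lib.Helper30.Fi24.F306936

open Cfsg.Agent.Lib.Helper28

theorem lrel_620 : allRange (fun c => allList (fun w => L.checkRel w c) wordsL) 303800 490 = true := by decide +kernel
theorem lrel_621 : allRange (fun c => allList (fun w => L.checkRel w c) wordsL) 304290 490 = true := by decide +kernel
theorem lrel_622 : allRange (fun c => allList (fun w => L.checkRel w c) wordsL) 304780 490 = true := by decide +kernel
theorem lrel_623 : allRange (fun c => allList (fun w => L.checkRel w c) wordsL) 305270 490 = true := by decide +kernel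
theorem lrel_624 : allRange (fun c => allList (fun w => L.checkRel w c) wordsL) 305760 490 = true := by decide +kernel
theorem lrel_625 : allRange (fun c => allList (fun w => L.checkRel w c) wordsL) 306250 490 = true := by decide +kernel
theorem lrel_626 : allRange (fun c => allList (fun w => L.checkRel w c) wordsL) 306740 196 = true := by decide +kernel

end Cfsg.Agent.Lib.Helper30.Fi24.F306936
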