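import Cfsg.Agent.Lib.Helper30.Fi24.F306936DataL

set_option autoImplicit false
set_option maxRecDepth 100000

namespace Cfsg.Agent.Lib.Helper30.Fi24.F306936

open Cfsg.Agent.Lib.Helper28

theorem lrel_70 : allRange (fun c => allList (fun w => L.checkRel w c) wordsL) 34300 490 = true := by decide +kernel
theorem lrel_71 : allRange (fun c => allList (fun w => L.checkRel w c) wordsL) 34790 490 = true := by decide +kernel
theorem lrel_72 : allRange (fun c => allList (fun w => L.checkRel w c) wordsL) 35280 490 = true := by decide +kernel
theorem lrel_73 : allRange (fun c => allList (fun w => L.checkRel w c) wordsL) 35770 490 = true := by decide +kernel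
theorem lrel_74 : allRange (fun c => allList (fun w => L.checkRel w c) wordsL) 36260 490 = true := by decide +kernel
theorem lrel_75 : allRange (fun c => allList (fun w => L.checkRel w c) wordsL) 36750 490 = true := by decide +kernel
theorem lrel_76 : allRange (fun c => allList (fun w => L.checkRel w c) wordsL) 37240 490 = true := by decide +kernel
theorem lrel_77 : allRange (fun c => allList (fun w => L.checkRel w c) wordsL) 37730 490 = true := by decide +kernel
theorem lrel_78 : allRange (fun c => allList (fun w => L.checkRel w c) wordsL) 38220 490 = true := by decide +kernel
theorem lrel_79 : allRange (fun c => allList (fun w => L.checkRel w c) wordsL) 38710 490 = true := by decide +kernel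

end Cfsg.Agent.Lib.Helper30.Fi24.F306936
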