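import Cfsg.Agent.Lib.Helper30.Fi24.F306936DataL

set_option autoImplicit false
set_option maxRecDepth 100000

namespace Cfsg.Agent.Lib.Helper30.Fi24.F306936

open Cfsg.Agent.Lib.Helper28

theorem lrel_80 : allRange (fun c => allList (fun w => L.checkRel w c) wordsL) 39200 490 = true := by decide +kernel
theorem lrel_81 : allRange (fun c => allList (fun w => L.checkRel w c) wordsL) 39690 490 = true := by decide +kernel
theorem lrel_82 : allRange (fun c => allList (fun w => L.checkRel w c) wordsL) 40180 490 = true := by decide +kernel
theorem lrel_83 : allRange (fun c => allList (fun w => L.checkRel w c) wordsL) 40670 490 = true := by decide +kernel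
theorem lrel_84 : allRange (fun c => allList (fun w => L.checkRel w c) wordsL) 41160 490 = true := by decide +kernel
theorem lrel_85 : allRange (fun c => allList (fun w => L.checkRel w c) wordsL) 41650 490 = true := by decide +kernel
theorem lrel_86 : allRange (fun c => allList (fun w => L.checkRel w c) wordsL) 42140 490 = true := by decide +kernel
theorem lrel_87 : allRange (fun c => allList (fun w => L.checkRel w c) wordsL) 42630 490 = true := by decide +kernel
theorem lrel_88 : allRange (fun c => allList (fun w => L.checkRel w c) wordsL) 43120 490 = true := by decide +kernel
theorem lrel_89 : allRange (fun c => allList (fun w => L.checkRel w c) wordsL) 43610 490 = true := by decide +kernel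

end Cfsg.Agent.Lib.Helper30.Fi24.F306936
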