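import Cfsg.Agent.Lib.Helper30.Fi24.F306936DataL

set_option autoImplicit false
set_option maxRecDepth 100000

namespace Cfsg.Agent.Lib.Helper30.Fi24.F306936

open Cfsg.Agent.Lib.Helper28

theorem lrel_90 : allRange (fun c => allList (fun w => L.checkRel w c) wordsL) 44100 490 = true := by decide +kernel
theorem lrel_91 : allRange (fun c => allList (fun w => L.checkRel w c) wordsL) 44590 490 = true := by decide +kernel
theorem lrel_92 : allRange (fun c => allList (fun w => L.checkRel w c) wordsL) 45080 490 = true := by decide +kernel
theorem lrel_93 : allRange (fun c => allList (fun w => L.checkRel w c) wordsL) 45570 490 = true := by decide +kernel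
theorem lrel_94 : allRange (fun c => allList (fun w => L.checkRel w c) wordsL) 46060 490 = true := by decide +kernel
theorem lrel_95 : allRange (fun c => allList (fun w => L.checkRel w c) wordsL) 46550 490 = true := by decide +kernel
theorem lrel_96 : allRange (fun c => allList (fun w => L.checkRel w c) wordsL) 47040 490 = true := by decide +kernel
theorem lrel_97 : allRange (fun c => allList (fun w => L.checkRel w c) wordsL) 47530 490 = true := by decide +kernel
theorem lrel_98 : allRange (fun c => allList (fun w => L.checkRel w c) wordsL) 48020 490 = true := by decide +kernel
theorem lrel_99 : allRange (fun c => allList (fun w => L.checkRel w c) wordsL) 48510 490 = true := by decide +kernel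

end Cfsg.Agent.Lib.Helper30.Fi24.F306936
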