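import Cfsg.Agent.Lib.Helper30.Fi24.F306936DataL

set_option autoImplicit false
set_option maxRecDepth 100000

namespace Cfsg.Agent.Lib.Helper30.Fi24.F306936

open Cfsg.Agent.Lib.Helper28

theorem point_0 : allRange L.checkPoint 0 10000 = true := by decide +kernel
theorem point_1 : allRange L.checkPoint 10000 10000 = true := by decide +kernel
theorem point_2 : allRange L.checkPoint 20000 10000 = true := by decide +kernel
theorem point_3 : allRange L.checkPoint 30000 10000 = true := by decide +kernel
theorem point_4 : allRange L.checkPoint 40000 10000 = true := by decide +kernel
theorem point_5 : allRange L.checkPoint 50000 10000 = true := by decide +kernel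
theorem point_6 : allRange L.checkPoint 60000 10000 = true := by decide +kernel
theorem point_7 : allRange L.checkPoint 70000 10000 = true := by decide +kernel
theorem point_8 : allRange L.checkPoint 80000 10000 = true := by decide +kernel
theorem point_9 : allRange L.checkPoint 90000 10000 = true := by decide +kernel
theorem point_10 : allRange L.checkPoint 100000 10000 = true := by decide +kernel
theorem point_11 : allRange L.checkPoint 110000 10000 = true := by decide +kernel
theorem point_12 : allRange L.checkPoint 120000 10000 = true := by decide +kernel
theorem point_13 : allRange L.checkPoint 130000 10000 = true := by decide +kernel
theorem point_14 : allRange L.checkPoint 140000 10000 = true := by decide +kernel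
theorem point_15 : allRange L.checkPoint 150000 10000 = true := by decide +kernel
theorem point_16 : allRange L.checkPoint 160000 10000 = true := by decide +kernel
theorem point_17 : allRange L.checkPoint 170000 10000 = true := by decide +kernel
theorem point_18 : allRange L.checkPoint 180000 10000 = true := by decide +kernel
theorem point_19 : allRange L.checkPoint 190000 10000 = true := by decide +kernel
theorem point_20 : allRange L.checkPoint 200000 10000 = true := by decide +kernel
theorem point_21 : allRange L.checkPoint 210000 10000 = true := by decide +kernel
theorem point_22 : allRange L.checkPoint 220000 10000 = true := by decide +kernel
theorem point_23 : allRange L.checkPoint 230000 10000 = true := by decide +kernel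
theorem point_24 : allRange L.checkPoint 240000 10000 = true := by decide +kernel
theorem point_25 : allRange L.checkPoint 250000 10000 = true := by decide +kernel
theorem point_26 : allRange L.checkPoint 260000 10000 = true := by decide +kernel
theorem point_27 : allRange L.checkPoint 270000 10000 = true := by decide +kernel
theorem point_28 : allRange L.checkPoint 280000 10000 = true := by decide +kernel
theorem point_29 : allRange L.checkPoint 290000 10000 = true := by decide +kernel
theorem point_30 : allRange L.checkPoint 300000 6936 = true := by decide +kernel
theorem tree_0 : allRange L.checkTree 0 80000 = true := by decide +kernel
theorem tree_1 : allRange L.checkTree 80000 80000 = true := by decide +kernel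
theorem tree_2 : allRange L.checkTree 160000 80000 = true := by decide +kernel
theorem tree_3 : allRange L.checkTree 240000 66936 = true := by decide +kernel

end Cfsg.Agent.Lib.Helper30.Fi24.F306936
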