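import Cfsg.Agent.Lib.Helper30.Fi24.F306936DataU

set_option autoImplicit false
set_option maxRecDepth 100000

namespace Cfsg.Agent.Lib.Helper30.Fi24.F306936

open Cfsg.Agent.Lib.Helper28

theorem chk_120 : allRange D.checkLabel 120000 1000 = true := by decide +kernel
theorem chk_121 : allRange D.checkLabel 121000 1000 = true := by decide +kernel
theorem chk_122 : allRange D.checkLabel 122000 1000 = true := by decide +kernel
theorem chk_123 : allRange D.checkLabel 123000 1000 = true := by decide +kernel
theorem chk_124 : allRange D.checkLabel 124000 1000 = true := by decide +kernel
theorem chk_125 : allRange D.checkLabel 125000 1000 = true := by decide +kernel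
theorem chk_126 : allRange D.checkLabel 126000 1000 = true := by decide +kernel
theorem chk_127 : allRange D.checkLabel 127000 1000 = true := by decide +kernel
theorem chk_128 : allRange D.checkLabel 128000 1000 = true := by decide +kernel
theorem chk_129 : allRange D.checkLabel 129000 1000 = true := by decide +kernel
theorem chk_130 : allRange D.checkLabel 130000 1000 = true := by decide +kernel
theorem chk_131 : allRange D.checkLabel 131000 1000 = true := by decide +kernel

end Cfsg.Agent.Lib.Helper30.Fi24.F306936
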