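import Cfsg.Agent.Lib.Helper30.Fi24.F306936DataU

set_option autoImplicit false
set_option maxRecDepth 100000

namespace Cfsg.Agent.Lib.Helper30.Fi24.F306936

open Cfsg.Agent.Lib.Helper28

theorem chk_132 : allRange D.checkLabel 132000 1000 = true := by decide +kernel
theorem chk_133 : allRange D.checkLabel 133000 1000 = true := by decide +kernel
theorem chk_134 : allRange D.checkLabel 134000 1000 = true := by decide +kernel
theorem chk_135 : allRange D.checkLabel 135000 1000 = true := by decide +kernel
theorem chk_136 : allRange D.checkLabel 136000 1000 = true := by decide +kernel
theorem chk_137 : allRange D.checkLabel 137000 1000 = true := by decide +kernel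
theorem chk_138 : allRange D.checkLabel 138000 1000 = true := by decide +kernel
theorem chk_139 : allRange D.checkLabel 139000 1000 = true := by decide +kernel
theorem chk_140 : allRange D.checkLabel 140000 1000 = true := by decide +kernel
theorem chk_141 : allRange D.checkLabel 141000 1000 = true := by decide +kernel
theorem chk_142 : allRange D.checkLabel 142000 1000 = true := by decide +kernel
theorem chk_143 : allRange D.checkLabel 143000 1000 = true := by decide +kernel

end Cfsg.Agent.Lib.Helper30.Fi24.F306936
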