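import Cfsg.Agent.Lib.Helper30.Fi24.F306936DataU

set_option autoImplicit false
set_option maxRecDepth 100000

namespace Cfsg.Agent.Lib.Helper30.Fi24.F306936

open Cfsg.Agent.Lib.Helper28

theorem chk_144 : allRange D.checkLabel 144000 1000 = true := by decide +kernel
theorem chk_145 : allRange D.checkLabel 145000 1000 = true := by decide +kernel
theorem chk_146 : allRange D.checkLabel 146000 1000 = true := by decide +kernel
theorem chk_147 : allRange D.checkLabel 147000 1000 = true := by decide +kernel
theorem chk_148 : allRange D.checkLabel 148000 1000 = true := by decide +kernel
theorem chk_149 : allRange D.checkLabel 149000 1000 = true := by decide +kernel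
theorem chk_150 : allRange D.checkLabel 150000 1000 = true := by decide +kernel
theorem chk_151 : allRange D.checkLabel 151000 1000 = true := by decide +kernel
theorem chk_152 : allRange D.checkLabel 152000 1000 = true := by decide +kernel
theorem chk_153 : allRange D.checkLabel 153000 1000 = true := by decide +kernel
theorem chk_154 : allRange D.checkLabel 154000 1000 = true := by decide +kernel
theorem chk_155 : allRange D.checkLabel 155000 1000 = true := by decide +kernel

end Cfsg.Agent.Lib.Helper30.Fi24.F306936
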