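import Cfsg.Agent.Lib.Helper30.Fi24.F306936DataU

set_option autoImplicit false
set_option maxRecDepth 100000

namespace Cfsg.Agent.Lib.Helper30.Fi24.F306936

open Cfsg.Agent.Lib.Helper28

theorem chk_156 : allRange D.checkLabel 156000 1000 = true := by decide +kernel
theorem chk_157 : allRange D.checkLabel 157000 1000 = true := by decide +kernel
theorem chk_158 : allRange D.checkLabel 158000 1000 = true := by decide +kernel
theorem chk_159 : allRange D.checkLabel 159000 1000 = true := by decide +kernel
theorem chk_160 : allRange D.checkLabel 160000 1000 = true := by decide +kernel
theorem chk_161 : allRange D.checkLabel 161000 1000 = true := by decide +kernel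
theorem chk_162 : allRange D.checkLabel 162000 1000 = true := by decide +kernel
theorem chk_163 : allRange D.checkLabel 163000 1000 = true := by decide +kernel
theorem chk_164 : allRange D.checkLabel 164000 1000 = true := by decide +kernel
theorem chk_165 : allRange D.checkLabel 165000 1000 = true := by decide +kernel
theorem chk_166 : allRange D.checkLabel 166000 1000 = true := by decide +kernel
theorem chk_167 : allRange D.checkLabel 167000 1000 = true := by decide +kernel

end Cfsg.Agent.Lib.Helper30.Fi24.F306936
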