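import Cfsg.Agent.Lib.Helper30.Fi24.F306936DataU

set_option autoImplicit false
set_option maxRecDepth 100000

namespace Cfsg.Agent.Lib.Helper30.Fi24.F306936

open Cfsg.Agent.Lib.Helper28

theorem chk_168 : allRange D.checkLabel 168000 1000 = true := by decide +kernel
theorem chk_169 : allRange D.checkLabel 169000 1000 = true := by decide +kernel
theorem chk_170 : allRange D.checkLabel 170000 1000 = true := by decide +kernel
theorem chk_171 : allRange D.checkLabel 171000 1000 = true := by decide +kernel
theorem chk_172 : allRange D.checkLabel 172000 1000 = true := by decide +kernel
theorem chk_173 : allRange D.checkLabel 173000 1000 = true := by decide +kernel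
theorem chk_174 : allRange D.checkLabel 174000 1000 = true := by decide +kernel
theorem chk_175 : allRange D.checkLabel 175000 1000 = true := by decide +kernel
theorem chk_176 : allRange D.checkLabel 176000 1000 = true := by decide +kernel
theorem chk_177 : allRange D.checkLabel 177000 1000 = true := by decide +kernel
theorem chk_178 : allRange D.checkLabel 178000 1000 = true := by decide +kernel
theorem chk_179 : allRange D.checkLabel 179000 1000 = true := by decide +kernel

end Cfsg.Agent.Lib.Helper30.Fi24.F306936
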