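import Cfsg.Agent.Lib.Helper30.Fi24.F306936DataU

set_option autoImplicit false
set_option maxRecDepth 100000

namespace Cfsg.Agent.Lib.Helper30.Fi24.F306936

open Cfsg.Agent.Lib.Helper28

theorem chk_180 : allRange D.checkLabel 180000 1000 = true := by decide +kernel
theorem chk_181 : allRange D.checkLabel 181000 1000 = true := by decide +kernel
theorem chk_182 : allRange D.checkLabel 182000 1000 = true := by decide +kernel
theorem chk_183 : allRange D.checkLabel 183000 1000 = true := by decide +kernel
theorem chk_184 : allRange D.checkLabel 184000 1000 = true := by decide +kernel
theorem chk_185 : allRange D.checkLabel 185000 1000 = true := by decide +kernel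
theorem chk_186 : allRange D.checkLabel 186000 1000 = true := by decide +kernel
theorem chk_187 : allRange D.checkLabel 187000 1000 = true := by decide +kernel
theorem chk_188 : allRange D.checkLabel 188000 1000 = true := by decide +kernel
theorem chk_189 : allRange D.checkLabel 189000 1000 = true := by decide +kernel
theorem chk_190 : allRange D.checkLabel 190000 1000 = true := by decide +kernel
theorem chk_191 : allRange D.checkLabel 191000 1000 = true := by decide +kernel

end Cfsg.Agent.Lib.Helper30.Fi24.F306936
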