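import Cfsg.Agent.Lib.Helper30.Fi24.F306936DataU

set_option autoImplicit false
set_option maxRecDepth 100000

namespace Cfsg.Agent.Lib.Helper30.Fi24.F306936

open Cfsg.Agent.Lib.Helper28

theorem chk_192 : allRange D.checkLabel 192000 1000 = true := by decide +kernel
theorem chk_193 : allRange D.checkLabel 193000 1000 = true := by decide +kernel
theorem chk_194 : allRange D.checkLabel 194000 1000 = true := by decide +kernel
theorem chk_195 : allRange D.checkLabel 195000 1000 = true := by decide +kernel
theorem chk_196 : allRange D.checkLabel 196000 1000 = true := by decide +kernel
theorem chk_197 : allRange D.checkLabel 197000 1000 = true := by decide +kernel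
theorem chk_198 : allRange D.checkLabel 198000 1000 = true := by decide +kernel
theorem chk_199 : allRange D.checkLabel 199000 1000 = true := by decide +kernel
theorem chk_200 : allRange D.checkLabel 200000 1000 = true := by decide +kernel
theorem chk_201 : allRange D.checkLabel 201000 1000 = true := by decide +kernel
theorem chk_202 : allRange D.checkLabel 202000 1000 = true := by decide +kernel
theorem chk_203 : allRange D.checkLabel 203000 1000 = true := by decide +kernel

end Cfsg.Agent.Lib.Helper30.Fi24.F306936
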