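import Cfsg.Agent.Lib.Helper30.Fi24.F306936DataU

set_option autoImplicit false
set_option maxRecDepth 100000

namespace Cfsg.Agent.Lib.Helper30.Fi24.F306936

open Cfsg.Agent.Lib.Helper28

theorem chk_204 : allRange D.checkLabel 204000 1000 = true := by decide +kernel
theorem chk_205 : allRange D.checkLabel 205000 1000 = true := by decide +kernel
theorem chk_206 : allRange D.checkLabel 206000 1000 = true := by decide +kernel
theorem chk_207 : allRange D.checkLabel 207000 1000 = true := by decide +kernel
theorem chk_208 : allRange D.checkLabel 208000 1000 = true := by decide +kernel
theorem chk_209 : allRange D.checkLabel 209000 1000 = true := by decide +kernel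
theorem chk_210 : allRange D.checkLabel 210000 1000 = true := by decide +kernel
theorem chk_211 : allRange D.checkLabel 211000 1000 = true := by decide +kernel
theorem chk_212 : allRange D.checkLabel 212000 1000 = true := by decide +kernel
theorem chk_213 : allRange D.checkLabel 213000 1000 = true := by decide +kernel
theorem chk_214 : allRange D.checkLabel 214000 1000 = true := by decide +kernel
theorem chk_215 : allRange D.checkLabel 215000 1000 = true := by decide +kernel

end Cfsg.Agent.Lib.Helper30.Fi24.F306936
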