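import Cfsg.Agent.Lib.Helper30.Fi24.F306936DataU

set_option autoImplicit false
set_option maxRecDepth 100000

namespace Cfsg.Agent.Lib.Helper30.Fi24.F306936

open Cfsg.Agent.Lib.Helper28

theorem chk_216 : allRange D.checkLabel 216000 1000 = true := by decide +kernel
theorem chk_217 : allRange D.checkLabel 217000 1000 = true := by decide +kernel
theorem chk_218 : allRange D.checkLabel 218000 1000 = true := by decide +kernel
theorem chk_219 : allRange D.checkLabel 219000 1000 = true := by decide +kernel
theorem chk_220 : allRange D.checkLabel 220000 1000 = true := by decide +kernel
theorem chk_221 : allRange D.checkLabel 221000 1000 = true := by decide +kernel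
theorem chk_222 : allRange D.checkLabel 222000 1000 = true := by decide +kernel
theorem chk_223 : allRange D.checkLabel 223000 1000 = true := by decide +kernel
theorem chk_224 : allRange D.checkLabel 224000 1000 = true := by decide +kernel
theorem chk_225 : allRange D.checkLabel 225000 1000 = true := by decide +kernel
theorem chk_226 : allRange D.checkLabel 226000 1000 = true := by decide +kernel
theorem chk_227 : allRange D.checkLabel 227000 1000 = true := by decide +kernel

end Cfsg.Agent.Lib.Helper30.Fi24.F306936
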