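import Cfsg.Agent.Lib.Helper30.Fi24.F306936DataU

set_option autoImplicit false
set_option maxRecDepth 100000

namespace Cfsg.Agent.Lib.Helper30.Fi24.F306936

open Cfsg.Agent.Lib.Helper28

theorem chk_228 : allRange D.checkLabel 228000 1000 = true := by decide +kernel
theorem chk_229 : allRange D.checkLabel 229000 1000 = true := by decide +kernel
theorem chk_230 : allRange D.checkLabel 230000 1000 = true := by decide +kernel
theorem chk_231 : allRange D.checkLabel 231000 1000 = true := by decide +kernel
theorem chk_232 : allRange D.checkLabel 232000 1000 = true := by decide +kernel
theorem chk_233 : allRange D.checkLabel 233000 1000 = true := by decide +kernel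
theorem chk_234 : allRange D.checkLabel 234000 1000 = true := by decide +kernel
theorem chk_235 : allRange D.checkLabel 235000 1000 = true := by decide +kernel
theorem chk_236 : allRange D.checkLabel 236000 1000 = true := by decide +kernel
theorem chk_237 : allRange D.checkLabel 237000 1000 = true := by decide +kernel
theorem chk_238 : allRange D.checkLabel 238000 1000 = true := by decide +kernel
theorem chk_239 : allRange D.checkLabel 239000 1000 = true := by decide +kernel

end Cfsg.Agent.Lib.Helper30.Fi24.F306936
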