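import Cfsg.Agent.Lib.Helper30.Fi24.F306936DataU

set_option autoImplicit false
set_option maxRecDepth 100000

namespace Cfsg.Agent.Lib.Helper30.Fi24.F306936

open Cfsg.Agent.Lib.Helper28

theorem chk_240 : allRange D.checkLabel 240000 1000 = true := by decide +kernel
theorem chk_241 : allRange D.checkLabel 241000 1000 = true := by decide +kernel
theorem chk_242 : allRange D.checkLabel 242000 1000 = true := by decide +kernel
theorem chk_243 : allRange D.checkLabel 243000 1000 = true := by decide +kernel
theorem chk_244 : allRange D.checkLabel 244000 1000 = true := by decide +kernel
theorem chk_245 : allRange D.checkLabel 245000 1000 = true := by decide +kernel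
theorem chk_246 : allRange D.checkLabel 246000 1000 = true := by decide +kernel
theorem chk_247 : allRange D.checkLabel 247000 1000 = true := by decide +kernel
theorem chk_248 : allRange D.checkLabel 248000 1000 = true := by decide +kernel
theorem chk_249 : allRange D.checkLabel 249000 1000 = true := by decide +kernel
theorem chk_250 : allRange D.checkLabel 250000 1000 = true := by decide +kernel
theorem chk_251 : allRange D.checkLabel 251000 1000 = true := by decide +kernel

end Cfsg.Agent.Lib.Helper30.Fi24.F306936
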