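import Cfsg.Agent.Lib.Helper30.Fi24.F306936DataU

set_option autoImplicit false
set_option maxRecDepth 100000

namespace Cfsg.Agent.Lib.Helper30.Fi24.F306936

open Cfsg.Agent.Lib.Helper28

theorem chk_252 : allRange D.checkLabel 252000 1000 = true := by decide +kernel
theorem chk_253 : allRange D.checkLabel 253000 1000 = true := by decide +kernel
theorem chk_254 : allRange D.checkLabel 254000 1000 = true := by decide +kernel
theorem chk_255 : allRange D.checkLabel 255000 1000 = true := by decide +kernel
theorem chk_256 : allRange D.checkLabel 256000 1000 = true := by decide +kernel
theorem chk_257 : allRange D.checkLabel 257000 1000 = true := by decide +kernel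
theorem chk_258 : allRange D.checkLabel 258000 1000 = true := by decide +kernel
theorem chk_259 : allRange D.checkLabel 259000 1000 = true := by decide +kernel
theorem chk_260 : allRange D.checkLabel 260000 1000 = true := by decide +kernel
theorem chk_261 : allRange D.checkLabel 261000 1000 = true := by decide +kernel
theorem chk_262 : allRange D.checkLabel 262000 1000 = true := by decide +kernel
theorem chk_263 : allRange D.checkLabel 263000 1000 = true := by decide +kernel

end Cfsg.Agent.Lib.Helper30.Fi24.F306936
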