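import Cfsg.Agent.Lib.Helper30.Fi24.F306936DataU

set_option autoImplicit false
set_option maxRecDepth 100000

namespace Cfsg.Agent.Lib.Helper30.Fi24.F306936

open Cfsg.Agent.Lib.Helper28

theorem chk_264 : allRange D.checkLabel 264000 1000 = true := by decide +kernel
theorem chk_265 : allRange D.checkLabel 265000 1000 = true := by decide +kernel
theorem chk_266 : allRange D.checkLabel 266000 1000 = true := by decide +kernel
theorem chk_267 : allRange D.checkLabel 267000 1000 = true := by decide +kernel
theorem chk_268 : allRange D.checkLabel 268000 1000 = true := by decide +kernel
theorem chk_269 : allRange D.checkLabel 269000 1000 = true := by decide +kernel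
theorem chk_270 : allRange D.checkLabel 270000 1000 = true := by decide +kernel
theorem chk_271 : allRange D.checkLabel 271000 1000 = true := by decide +kernel
theorem chk_272 : allRange D.checkLabel 272000 1000 = true := by decide +kernel
theorem chk_273 : allRange D.checkLabel 273000 1000 = true := by decide +kernel
theorem chk_274 : allRange D.checkLabel 274000 1000 = true := by decide +kernel
theorem chk_275 : allRange D.checkLabel 275000 1000 = true := by decide +kernel

end Cfsg.Agent.Lib.Helper30.Fi24.F306936
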