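import Cfsg.Agent.Lib.Helper30.Fi24.F306936DataU

set_option autoImplicit false
set_option maxRecDepth 100000

namespace Cfsg.Agent.Lib.Helper30.Fi24.F306936

open Cfsg.Agent.Lib.Helper28

theorem chk_276 : allRange D.checkLabel 276000 1000 = true := by decide +kernel
theorem chk_277 : allRange D.checkLabel 277000 1000 = true := by decide +kernel
theorem chk_278 : allRange D.checkLabel 278000 1000 = true := by decide +kernel
theorem chk_279 : allRange D.checkLabel 279000 1000 = true := by decide +kernel
theorem chk_280 : allRange D.checkLabel 280000 1000 = true := by decide +kernel
theorem chk_281 : allRange D.checkLabel 281000 1000 = true := by decide +kernel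
theorem chk_282 : allRange D.checkLabel 282000 1000 = true := by decide +kernel
theorem chk_283 : allRange D.checkLabel 283000 1000 = true := by decide +kernel
theorem chk_284 : allRange D.checkLabel 284000 1000 = true := by decide +kernel
theorem chk_285 : allRange D.checkLabel 285000 1000 = true := by decide +kernel
theorem chk_286 : allRange D.checkLabel 286000 1000 = true := by decide +kernel
theorem chk_287 : allRange D.checkLabel 287000 1000 = true := by decide +kernel

end Cfsg.Agent.Lib.Helper30.Fi24.F306936
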