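import Cfsg.Agent.Lib.Helper30.Fi24.F306936DataU

set_option autoImplicit false
set_option maxRecDepth 100000

namespace Cfsg.Agent.Lib.Helper30.Fi24.F306936

open Cfsg.Agent.Lib.Helper28

theorem chk_288 : allRange D.checkLabel 288000 1000 = true := by decide +kernel
theorem chk_289 : allRange D.checkLabel 289000 1000 = true := by decide +kernel
theorem chk_290 : allRange D.checkLabel 290000 1000 = true := by decide +kernel
theorem chk_291 : allRange D.checkLabel 291000 1000 = true := by decide +kernel
theorem chk_292 : allRange D.checkLabel 292000 1000 = true := by decide +kernel
theorem chk_293 : allRange D.checkLabel 293000 1000 = true := by decide +kernel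
theorem chk_294 : allRange D.checkLabel 294000 1000 = true := by decide +kernel
theorem chk_295 : allRange D.checkLabel 295000 1000 = true := by decide +kernel
theorem chk_296 : allRange D.checkLabel 296000 1000 = true := by decide +kernel
theorem chk_297 : allRange D.checkLabel 297000 1000 = true := by decide +kernel
theorem chk_298 : allRange D.checkLabel 298000 1000 = true := by decide +kernel
theorem chk_299 : allRange D.checkLabel 299000 1000 = true := by decide +kernel

end Cfsg.Agent.Lib.Helper30.Fi24.F306936
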