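import Cfsg.Agent.Lib.Helper30.Fi24.F306936DataU

set_option autoImplicit false
set_option maxRecDepth 100000

namespace Cfsg.Agent.Lib.Helper30.Fi24.F306936

open Cfsg.Agent.Lib.Helper28

theorem chk_300 : allRange D.checkLabel 300000 1000 = true := by decide +kernel
theorem chk_301 : allRange D.checkLabel 301000 1000 = true := by decide +kernel
theorem chk_302 : allRange D.checkLabel 302000 1000 = true := by decide +kernel
theorem chk_303 : allRange D.checkLabel 303000 1000 = true := by decide +kernel
theorem chk_304 : allRange D.checkLabel 304000 1000 = true := by decide +kernel
theorem chk_305 : allRange D.checkLabel 305000 1000 = true := by decide +kernel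
theorem chk_306 : allRange D.checkLabel 306000 1000 = true := by decide +kernel
theorem chk_307 : allRange D.checkLabel 307000 1000 = true := by decide +kernel
theorem chk_308 : allRange D.checkLabel 308000 1000 = true := by decide +kernel
theorem chk_309 : allRange D.checkLabel 309000 1000 = true := by decide +kernel
theorem chk_310 : allRange D.checkLabel 310000 1000 = true := by decide +kernel
theorem chk_311 : allRange D.checkLabel 311000 1000 = true := by decide +kernel

end Cfsg.Agent.Lib.Helper30.Fi24.F306936
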