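import Cfsg.Agent.Lib.Helper30.Fi24.F306936DataU

set_option autoImplicit false
set_option maxRecDepth 100000

namespace Cfsg.Agent.Lib.Helper30.Fi24.F306936

open Cfsg.Agent.Lib.Helper28

theorem chk_312 : allRange D.checkLabel 312000 1000 = true := by decide +kernel
theorem chk_313 : allRange D.checkLabel 313000 1000 = true := by decide +kernel
theorem chk_314 : allRange D.checkLabel 314000 1000 = true := by decide +kernel
theorem chk_315 : allRange D.checkLabel 315000 1000 = true := by decide +kernel
theorem chk_316 : allRange D.checkLabel 316000 1000 = true := by decide +kernel
theorem chk_317 : allRange D.checkLabel 317000 1000 = true := by decide +kernel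
theorem chk_318 : allRange D.checkLabel 318000 1000 = true := by decide +kernel
theorem chk_319 : allRange D.checkLabel 319000 1000 = true := by decide +kernel
theorem chk_320 : allRange D.checkLabel 320000 1000 = true := by decide +kernel
theorem chk_321 : allRange D.checkLabel 321000 1000 = true := by decide +kernel
theorem chk_322 : allRange D.checkLabel 322000 1000 = true := by decide +kernel
theorem chk_323 : allRange D.checkLabel 323000 1000 = true := by decide +kernel

end Cfsg.Agent.Lib.Helper30.Fi24.F306936
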