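import Cfsg.Agent.Lib.Helper30.Fi24.F306936DataU

set_option autoImplicit false
set_option maxRecDepth 100000

namespace Cfsg.Agent.Lib.Helper30.Fi24.F306936

open Cfsg.Agent.Lib.Helper28

theorem chk_324 : allRange D.checkLabel 324000 1000 = true := by decide +kernel
theorem chk_325 : allRange D.checkLabel 325000 1000 = true := by decide +kernel
theorem chk_326 : allRange D.checkLabel 326000 1000 = true := by decide +kernel
theorem chk_327 : allRange D.checkLabel 327000 1000 = true := by decide +kernel
theorem chk_328 : allRange D.checkLabel 328000 1000 = true := by decide +kernel
theorem chk_329 : allRange D.checkLabel 329000 1000 = true := by decide +kernel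
theorem chk_330 : allRange D.checkLabel 330000 1000 = true := by decide +kernel
theorem chk_331 : allRange D.checkLabel 331000 1000 = true := by decide +kernel
theorem chk_332 : allRange D.checkLabel 332000 1000 = true := by decide +kernel
theorem chk_333 : allRange D.checkLabel 333000 1000 = true := by decide +kernel
theorem chk_334 : allRange D.checkLabel 334000 1000 = true := by decide +kernel
theorem chk_335 : allRange D.checkLabel 335000 1000 = true := by decide +kernel

end Cfsg.Agent.Lib.Helper30.Fi24.F306936
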