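import Cfsg.Agent.Lib.Helper30.Fi24.F306936DataU

set_option autoImplicit false
set_option maxRecDepth 100000

namespace Cfsg.Agent.Lib.Helper30.Fi24.F306936

open Cfsg.Agent.Lib.Helper28

theorem chk_336 : allRange D.checkLabel 336000 1000 = true := by decide +kernel
theorem chk_337 : allRange D.checkLabel 337000 1000 = true := by decide +kernel
theorem chk_338 : allRange D.checkLabel 338000 1000 = true := by decide +kernel
theorem chk_339 : allRange D.checkLabel 339000 1000 = true := by decide +kernel
theorem chk_340 : allRange D.checkLabel 340000 1000 = true := by decide +kernel
theorem chk_341 : allRange D.checkLabel 341000 1000 = true := by decide +kernel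
theorem chk_342 : allRange D.checkLabel 342000 1000 = true := by decide +kernel
theorem chk_343 : allRange D.checkLabel 343000 1000 = true := by decide +kernel
theorem chk_344 : allRange D.checkLabel 344000 1000 = true := by decide +kernel
theorem chk_345 : allRange D.checkLabel 345000 1000 = true := by decide +kernel
theorem chk_346 : allRange D.checkLabel 346000 1000 = true := by decide +kernel
theorem chk_347 : allRange D.checkLabel 347000 1000 = true := by decide +kernel

end Cfsg.Agent.Lib.Helper30.Fi24.F306936
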