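import Cfsg.Agent.Lib.Helper30.Fi24.F306936DataU

set_option autoImplicit false
set_option maxRecDepth 100000

namespace Cfsg.Agent.Lib.Helper30.Fi24.F306936

open Cfsg.Agent.Lib.Helper28

theorem chk_348 : allRange D.checkLabel 348000 1000 = true := by decide +kernel
theorem chk_349 : allRange D.checkLabel 349000 988 = true := by decide +kernel

end Cfsg.Agent.Lib.Helper30.Fi24.F306936
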