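import Cfsg.Agent.Lib.Helper30.Fi24.F306936DataU

set_option autoImplicit false
set_option maxRecDepth 100000

namespace Cfsg.Agent.Lib.Helper30.Fi24.F306936

open Cfsg.Agent.Lib.Helper28

theorem chk_48 : allRange D.checkLabel 48000 1000 = true := by decide +kernel
theorem chk_49 : allRange D.checkLabel 49000 1000 = true := by decide +kernel
theorem chk_50 : allRange D.checkLabel 50000 1000 = true := by decide +kernel
theorem chk_51 : allRange D.checkLabel 51000 1000 = true := by decide +kernel
theorem chk_52 : allRange D.checkLabel 52000 1000 = true := by decide +kernel
theorem chk_53 : allRange D.checkLabel 53000 1000 = true := by decide +kernel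
theorem chk_54 : allRange D.checkLabel 54000 1000 = true := by decide +kernel
theorem chk_55 : allRange D.checkLabel 55000 1000 = true := by decide +kernel
theorem chk_56 : allRange D.checkLabel 56000 1000 = true := by decide +kernel
theorem chk_57 : allRange D.checkLabel 57000 1000 = true := by decide +kernel
theorem chk_58 : allRange D.checkLabel 58000 1000 = true := by decide +kernel
theorem chk_59 : allRange D.checkLabel 59000 1000 = true := by decide +kernel

end Cfsg.Agent.Lib.Helper30.Fi24.F306936
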