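import Cfsg.Agent.Lib.Helper30.Fi24.F306936DataU

set_option autoImplicit false
set_option maxRecDepth 100000

namespace Cfsg.Agent.Lib.Helper30.Fi24.F306936

open Cfsg.Agent.Lib.Helper28

theorem chk_60 : allRange D.checkLabel 60000 1000 = true := by decide +kernel
theorem chk_61 : allRange D.checkLabel 61000 1000 = true := by decide +kernel
theorem chk_62 : allRange D.checkLabel 62000 1000 = true := by decide +kernel
theorem chk_63 : allRange D.checkLabel 63000 1000 = true := by decide +kernel
theorem chk_64 : allRange D.checkLabel 64000 1000 = true := by decide +kernel
theorem chk_65 : allRange D.checkLabel 65000 1000 = true := by decide +kernel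
theorem chk_66 : allRange D.checkLabel 66000 1000 = true := by decide +kernel
theorem chk_67 : allRange D.checkLabel 67000 1000 = true := by decide +kernel
theorem chk_68 : allRange D.checkLabel 68000 1000 = true := by decide +kernel
theorem chk_69 : allRange D.checkLabel 69000 1000 = true := by decide +kernel
theorem chk_70 : allRange D.checkLabel 70000 1000 = true := by decide +kernel
theorem chk_71 : allRange D.checkLabel 71000 1000 = true := by decide +kernel

end Cfsg.Agent.Lib.Helper30.Fi24.F306936
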