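import Cfsg.Agent.Lib.Helper30.Fi24.F306936DataU

set_option autoImplicit false
set_option maxRecDepth 100000

namespace Cfsg.Agent.Lib.Helper30.Fi24.F306936

open Cfsg.Agent.Lib.Helper28

theorem chk_72 : allRange D.checkLabel 72000 1000 = true := by decide +kernel
theorem chk_73 : allRange D.checkLabel 73000 1000 = true := by decide +kernel
theorem chk_74 : allRange D.checkLabel 74000 1000 = true := by decide +kernel
theorem chk_75 : allRange D.checkLabel 75000 1000 = true := by decide +kernel
theorem chk_76 : allRange D.checkLabel 76000 1000 = true := by decide +kernel
theorem chk_77 : allRange D.checkLabel 77000 1000 = true := by decide +kernel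
theorem chk_78 : allRange D.checkLabel 78000 1000 = true := by decide +kernel
theorem chk_79 : allRange D.checkLabel 79000 1000 = true := by decide +kernel
theorem chk_80 : allRange D.checkLabel 80000 1000 = true := by decide +kernel
theorem chk_81 : allRange D.checkLabel 81000 1000 = true := by decide +kernel
theorem chk_82 : allRange D.checkLabel 82000 1000 = true := by decide +kernel
theorem chk_83 : allRange D.checkLabel 83000 1000 = true := by decide +kernel

end Cfsg.Agent.Lib.Helper30.Fi24.F306936
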