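import Cfsg.Agent.Lib.Helper30.Fi24.F306936DataU

set_option autoImplicit false
set_option maxRecDepth 100000

namespace Cfsg.Agent.Lib.Helper30.Fi24.F306936

open Cfsg.Agent.Lib.Helper28

theorem chk_84 : allRange D.checkLabel 84000 1000 = true := by decide +kernel
theorem chk_85 : allRange D.checkLabel 85000 1000 = true := by decide +kernel
theorem chk_86 : allRange D.checkLabel 86000 1000 = true := by decide +kernel
theorem chk_87 : allRange D.checkLabel 87000 1000 = true := by decide +kernel
theorem chk_88 : allRange D.checkLabel 88000 1000 = true := by decide +kernel
theorem chk_89 : allRange D.checkLabel 89000 1000 = true := by decide +kernel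
theorem chk_90 : allRange D.checkLabel 90000 1000 = true := by decide +kernel
theorem chk_91 : allRange D.checkLabel 91000 1000 = true := by decide +kernel
theorem chk_92 : allRange D.checkLabel 92000 1000 = true := by decide +kernel
theorem chk_93 : allRange D.checkLabel 93000 1000 = true := by decide +kernel
theorem chk_94 : allRange D.checkLabel 94000 1000 = true := by decide +kernel
theorem chk_95 : allRange D.checkLabel 95000 1000 = true := by decide +kernel

end Cfsg.Agent.Lib.Helper30.Fi24.F306936
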