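import Cfsg.Agent.Lib.Helper30.Fi24.F306936DataU

set_option autoImplicit false
set_option maxRecDepth 100000

namespace Cfsg.Agent.Lib.Helper30.Fi24.F306936

open Cfsg.Agent.Lib.Helper28

theorem chk_96 : allRange D.checkLabel 96000 1000 = true := by decide +kernel
theorem chk_97 : allRange D.checkLabel 97000 1000 = true := by decide +kernel
theorem chk_98 : allRange D.checkLabel 98000 1000 = true := by decide +kernel
theorem chk_99 : allRange D.checkLabel 99000 1000 = true := by decide +kernel
theorem chk_100 : allRange D.checkLabel 100000 1000 = true := by decide +kernel
theorem chk_101 : allRange D.checkLabel 101000 1000 = true := by decide +kernel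
theorem chk_102 : allRange D.checkLabel 102000 1000 = true := by decide +kernel
theorem chk_103 : allRange D.checkLabel 103000 1000 = true := by decide +kernel
theorem chk_104 : allRange D.checkLabel 104000 1000 = true := by decide +kernel
theorem chk_105 : allRange D.checkLabel 105000 1000 = true := by decide +kernel
theorem chk_106 : allRange D.checkLabel 106000 1000 = true := by decide +kernel
theorem chk_107 : allRange D.checkLabel 107000 1000 = true := by decide +kernel

end Cfsg.Agent.Lib.Helper30.Fi24.F306936
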