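import Cfsg.Agent.Lib.Helper30.Fi24.F306936DataU

set_option autoImplicit false
set_option maxRecDepth 100000

namespace Cfsg.Agent.Lib.Helper30.Fi24.F306936

open Cfsg.Agent.Lib.Helper28

theorem chk_108 : allRange D.checkLabel 108000 1000 = true := by decide +kernel
theorem chk_109 : allRange D.checkLabel 109000 1000 = true := by decide +kernel
theorem chk_110 : allRange D.checkLabel 110000 1000 = true := by decide +kernel
theorem chk_111 : allRange D.checkLabel 111000 1000 = true := by decide +kernel
theorem chk_112 : allRange D.checkLabel 112000 1000 = true := by decide +kernel
theorem chk_113 : allRange D.checkLabel 113000 1000 = true := by decide +kernel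
theorem chk_114 : allRange D.checkLabel 114000 1000 = true := by decide +kernel
theorem chk_115 : allRange D.checkLabel 115000 1000 = true := by decide +kernel
theorem chk_116 : allRange D.checkLabel 116000 1000 = true := by decide +kernel
theorem chk_117 : allRange D.checkLabel 117000 1000 = true := by decide +kernel
theorem chk_118 : allRange D.checkLabel 118000 1000 = true := by decide +kernel
theorem chk_119 : allRange D.checkLabel 119000 1000 = true := by decide +kernel

end Cfsg.Agent.Lib.Helper30.Fi24.F306936
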