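import Cfsg.Agent.Lib.Helper30.Fi24.F306936DataU

set_option autoImplicit false
set_option maxRecDepth 100000

namespace Cfsg.Agent.Lib.Helper30.Fi24.F306936

open Cfsg.Agent.Lib.Helper28

theorem fin_0 : allRange D.finalLabel 0 20000 = true := by decide +kernel
theorem fin_1 : allRange D.finalLabel 20000 20000 = true := by decide +kernel
theorem fin_2 : allRange D.finalLabel 40000 20000 = true := by decide +kernel
theorem fin_3 : allRange D.finalLabel 60000 20000 = true := by decide +kernel
theorem fin_4 : allRange D.finalLabel 80000 20000 = true := by decide +kernel
theorem fin_5 : allRange D.finalLabel 100000 20000 = true := by decide +kernel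
theorem fin_6 : allRange D.finalLabel 120000 20000 = true := by decide +kernel
theorem fin_7 : allRange D.finalLabel 140000 20000 = true := by decide +kernel
theorem fin_8 : allRange D.finalLabel 160000 20000 = true := by decide +kernel
theorem fin_9 : allRange D.finalLabel 180000 20000 = true := by decide +kernel
theorem fin_10 : allRange D.finalLabel 200000 20000 = true := by decide +kernel
theorem fin_11 : allRange D.finalLabel 220000 20000 = true := by decide +kernel
theorem fin_12 : allRange D.finalLabel 240000 20000 = true := by decide +kernel
theorem fin_13 : allRange D.finalLabel 260000 20000 = true := by decide +kernel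
theorem fin_14 : allRange D.finalLabel 280000 20000 = true := by decide +kernel
theorem fin_15 : allRange D.finalLabel 300000 20000 = true := by decide +kernel
theorem fin_16 : allRange D.finalLabel 320000 20000 = true := by decide +kernel
theorem fin_17 : allRange D.finalLabel 340000 9988 = true := by decide +kernel
theorem live_count : D.liveCount = 306936 := by decide +kernel
theorem h0_ok : D.tg D.K 0 = 0 := by decide +kernel

end Cfsg.Agent.Lib.Helper30.Fi24.F306936
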