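import Cfsg.Agent.Lib.Helper30.Fi24.F306936DataU
import Cfsg.Agent.Lib.Helper30.Fi24.F306936DataL
import Cfsg.Agent.Lib.Helper28.TCProb

set_option autoImplicit false
set_option maxRecDepth 100000

namespace Cfsg.Agent.Lib.Helper30.Fi24.F306936

open Cfsg.Agent.Lib.Helper28

def sigE : List WExp := []
def subE : List WExp := [(.g 2), (.g 3), (.g 4), (.g 5), (.g 6), (.g 7), (.g 8), (.g 10), (.g 11), (.g 9), (.g 0)]
noncomputable def Q : Prob Cfsg.Spor.Fi24.Gen where
  P := Cfsg.Agent.Lib.Helper30.Fi24.Fi24PD.pd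
  D := D
  L := L
  sigE := sigE
  subE := subE
  pairsC := pairsC
  n := 306936

end Cfsg.Agent.Lib.Helper30.Fi24.F306936
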