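import Cfsg.Agent.Lib.Helper30.Fi24.F306936OrbD

set_option autoImplicit false
set_option maxRecDepth 100000

namespace Cfsg.Agent.Lib.Helper30.Fi24.F306936

open Cfsg.Agent.Lib.Helper28

theorem oinv_0 : allRange (O.checkInv Q) 0 8000 = true := by decide +kernel
theorem oinv_1 : allRange (O.checkInv Q) 8000 8000 = true := by decide +kernel
theorem oinv_2 : allRange (O.checkInv Q) 16000 8000 = true := by decide +kernel
theorem oinv_3 : allRange (O.checkInv Q) 24000 8000 = true := by decide +kernel
theorem oinv_4 : allRange (O.checkInv Q) 32000 8000 = true := by decide +kernel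
theorem oinv_5 : allRange (O.checkInv Q) 40000 8000 = true := by decide +kernel
theorem oinv_6 : allRange (O.checkInv Q) 48000 8000 = true := by decide +kernel
theorem oinv_7 : allRange (O.checkInv Q) 56000 8000 = true := by decide +kernel
theorem oinv_8 : allRange (O.checkInv Q) 64000 8000 = true := by decide +kernel
theorem oinv_9 : allRange (O.checkInv Q) 72000 8000 = true := by decide +kernel

end Cfsg.Agent.Lib.Helper30.Fi24.F306936
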