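import Cfsg.Agent.Lib.Helper30.Fi24.F306936OrbD

set_option autoImplicit false
set_option maxRecDepth 100000

namespace Cfsg.Agent.Lib.Helper30.Fi24.F306936

open Cfsg.Agent.Lib.Helper28

theorem oinv_10 : allRange (O.checkInv Q) 80000 8000 = true := by decide +kernel
theorem oinv_11 : allRange (O.checkInv Q) 88000 8000 = true := by decide +kernel
theorem oinv_12 : allRange (O.checkInv Q) 96000 8000 = true := by decide +kernel
theorem oinv_13 : allRange (O.checkInv Q) 104000 8000 = true := by decide +kernel
theorem oinv_14 : allRange (O.checkInv Q) 112000 8000 = true := by decide +kernel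
theorem oinv_15 : allRange (O.checkInv Q) 120000 8000 = true := by decide +kernel
theorem oinv_16 : allRange (O.checkInv Q) 128000 8000 = true := by decide +kernel
theorem oinv_17 : allRange (O.checkInv Q) 136000 8000 = true := by decide +kernel
theorem oinv_18 : allRange (O.checkInv Q) 144000 8000 = true := by decide +kernel
theorem oinv_19 : allRange (O.checkInv Q) 152000 8000 = true := by decide +kernel

end Cfsg.Agent.Lib.Helper30.Fi24.F306936
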