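import Cfsg.Agent.Lib.Helper30.Fi24.F306936OrbD

set_option autoImplicit false
set_option maxRecDepth 100000

namespace Cfsg.Agent.Lib.Helper30.Fi24.F306936

open Cfsg.Agent.Lib.Helper28

theorem oinv_20 : allRange (O.checkInv Q) 160000 8000 = true := by decide +kernel
theorem oinv_21 : allRange (O.checkInv Q) 168000 8000 = true := by decide +kernel
theorem oinv_22 : allRange (O.checkInv Q) 176000 8000 = true := by decide +kernel
theorem oinv_23 : allRange (O.checkInv Q) 184000 8000 = true := by decide +kernel
theorem oinv_24 : allRange (O.checkInv Q) 192000 8000 = true := by decide +kernel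
theorem oinv_25 : allRange (O.checkInv Q) 200000 8000 = true := by decide +kernel
theorem oinv_26 : allRange (O.checkInv Q) 208000 8000 = true := by decide +kernel
theorem oinv_27 : allRange (O.checkInv Q) 216000 8000 = true := by decide +kernel
theorem oinv_28 : allRange (O.checkInv Q) 224000 8000 = true := by decide +kernel
theorem oinv_29 : allRange (O.checkInv Q) 232000 8000 = true := by decide +kernel

end Cfsg.Agent.Lib.Helper30.Fi24.F306936
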