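import Cfsg.Agent.Lib.Helper30.Fi24.F306936OrbD

set_option autoImplicit false
set_option maxRecDepth 100000

namespace Cfsg.Agent.Lib.Helper30.Fi24.F306936

open Cfsg.Agent.Lib.Helper28

theorem oinv_30 : allRange (O.checkInv Q) 240000 8000 = true := by decide +kernel
theorem oinv_31 : allRange (O.checkInv Q) 248000 8000 = true := by decide +kernel
theorem oinv_32 : allRange (O.checkInv Q) 256000 8000 = true := by decide +kernel
theorem oinv_33 : allRange (O.checkInv Q) 264000 8000 = true := by decide +kernel
theorem oinv_34 : allRange (O.checkInv Q) 272000 8000 = true := by decide +kernel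
theorem oinv_35 : allRange (O.checkInv Q) 280000 8000 = true := by decide +kernel
theorem oinv_36 : allRange (O.checkInv Q) 288000 8000 = true := by decide +kernel
theorem oinv_37 : allRange (O.checkInv Q) 296000 8000 = true := by decide +kernel
theorem oinv_38 : allRange (O.checkInv Q) 304000 2936 = true := by decide +kernel

end Cfsg.Agent.Lib.Helper30.Fi24.F306936
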