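import Cfsg.Agent.Lib.Helper30.Fi24.F306936OrbD

set_option autoImplicit false
set_option maxRecDepth 100000

namespace Cfsg.Agent.Lib.Helper30.Fi24.F306936

open Cfsg.Agent.Lib.Helper28

theorem otree_0 : allRange (O.checkTree Q) 0 30000 = true := by decide +kernel
theorem otree_1 : allRange (O.checkTree Q) 30000 30000 = true := by decide +kernel
theorem otree_2 : allRange (O.checkTree Q) 60000 30000 = true := by decide +kernel
theorem otree_3 : allRange (O.checkTree Q) 90000 30000 = true := by decide +kernel
theorem otree_4 : allRange (O.checkTree Q) 120000 30000 = true := by decide +kernel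
theorem otree_5 : allRange (O.checkTree Q) 150000 30000 = true := by decide +kernel
theorem otree_6 : allRange (O.checkTree Q) 180000 30000 = true := by decide +kernel
theorem otree_7 : allRange (O.checkTree Q) 210000 30000 = true := by decide +kernel
theorem otree_8 : allRange (O.checkTree Q) 240000 30000 = true := by decide +kernel
theorem otree_9 : allRange (O.checkTree Q) 270000 30000 = true := by decide +kernel
theorem otree_10 : allRange (O.checkTree Q) 300000 6936 = true := by decide +kernel
theorem count_0 : O.count Q 0 = 1 := by decide +kernel
theorem root_0 : nth O.roots Q.n 0 < Q.n ∧ O.oid (nth O.roots Q.n 0) = 0 := by decide +kernel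
theorem count_1 : O.count Q 1 = 275264 := by decide +kernel
theorem root_1 : nth O.roots Q.n 1 < Q.n ∧ O.oid (nth O.roots Q.n 1) = 1 := by decide +kernel
theorem count_2 : O.count Q 2 = 31671 := by decide +kernel
theorem root_2 : nth O.roots Q.n 2 < Q.n ∧ O.oid (nth O.roots Q.n 2) = 2 := by decide +kernel
theorem oid_lt_all : allBelow (fun c => Nat.blt (O.oid c) 3) 306936 = true := by decide +kernel
theorem oid_zero : O.oid 0 = 0 := by decide +kernel

end Cfsg.Agent.Lib.Helper30.Fi24.F306936
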