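import Cfsg.Agent.Lib.Helper30.Fi24.F306936Lev0
import Cfsg.Agent.Lib.Helper30.Fi24.F306936Lev1
import Cfsg.Agent.Lib.Helper30.Fi24.F306936Lev2
import Cfsg.Agent.Lib.Helper30.Fi24.F306936Lev3
import Cfsg.Agent.Lib.Helper30.Fi24.F306936Lev4
import Cfsg.Agent.Lib.Helper30.Fi24.F306936Lev5
import Cfsg.Agent.Lib.Helper30.Fi24.F306936Lev6
import Cfsg.Agent.Lib.Helper30.Fi24.F306936Lev7
import Cfsg.Agent.Lib.Helper30.Fi24.F306936Lev8
import Cfsg.Agent.Lib.Helper30.Fi24.F306936Lev9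
import Cfsg.Agent.Lib.Helper30.Fi24.F306936Lev10

set_option autoImplicit false
set_option maxRecDepth 100000

namespace Cfsg.Agent.Lib.Helper30.Fi24.F306936

open Cfsg.Agent.Lib.Helper28

noncomputable def levels : List Lev := [lev0, lev1, lev2, lev3, lev4, lev5, lev6, lev7, lev8, lev9, lev10]
theorem chain_ok : chainOK L [] levels := ⟨lev0_ok, lev1_ok, lev2_ok, lev3_ok, lev4_ok, lev5_ok, lev6_ok, lev7_ok, lev8_ok, lev9_ok, lev10_ok, trivial⟩
theorem levels_prod : (levels.map Lev.cnt).prod = 2510411418381323442585600 := by decide +kernel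

end Cfsg.Agent.Lib.Helper30.Fi24.F306936
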