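import Cfsg.Agent.Lib.Helper30.Fi24.Fi24L2
import Cfsg.Agent.Lib.Helper30.Fi24.Fi24L3
import Cfsg.Agent.Lib.Helper30.Fi24.Fi24L4
import Cfsg.Agent.Lib.Helper30.Fi24.Fi24L5
import Cfsg.Agent.Lib.Helper30.Fi24.Fi24L6
import Cfsg.Agent.Lib.Helper30.Fi24.Fi24L7
import Cfsg.Agent.Lib.Helper30.Fi24.Fi24L8
import Cfsg.Agent.Lib.Helper30.Fi24.Fi24L9
import Cfsg.Agent.Lib.Helper30.Fi24.Fi24L10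
import Cfsg.Agent.Lib.Helper30.Fi24.Fi24L11
import Cfsg.Agent.Lib.Helper30.Fi24.Fi24L12

set_option autoImplicit false
set_option maxRecDepth 100000

namespace Cfsg.Agent.Lib.Helper30.Fi24.Fi24Chain

open Cfsg.Agent.Lib.Helper28

theorem bound_12 {G : Type*} [Group G] (v : ℕ → G) : Finite (Sg v []) ∧ Nat.card (Sg v []) ≤ 1 := by
  rw [Sg_nil]
  exact ⟨inferInstance, by simp⟩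

theorem bound_11 {G : Type*} [Group G] (v : ℕ → G) (hW : ∀ w ∈ Cfsg.Agent.Lib.Helper30.Fi24.Fi24PD.pd.words ++ [[5, 4, 3, 5, 6, 7, 5, 10, 11, 5, 4, 3, 5, 6, 7, 5, 10, 11, 5, 4, 3, 5, 6, 7, 5, 10, 11, 5, 4, 3, 5, 6, 7, 5, 10, 11, 5, 4, 3, 5, 6, 7, 5, 10, 11, 5, 4, 3, 5, 6, 7, 5, 10, 11, 5, 4, 3, 5, 6, 7, 5, 10, 11, 5, 4, 3, 5, 6, 7, 5, 10, 11, 5, 4, 3, 5, 6, 7, 5, 10, 11, 5, 4, 3, 5, 6, 7, 5, 10, 11]], evalW v w = 1)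
    (hoinv : ∀ y < Cfsg.Agent.Lib.Helper30.Fi24.Fi24PD.pd.K, v (Cfsg.Agent.Lib.Helper30.Fi24.Fi24PD.pd.inv y) = (v y)⁻¹) :
    Finite (Sg v [4]) ∧ Nat.card (Sg v [4]) ≤ 2 * 1 := by
  obtain ⟨f, c⟩ := bound_12 v
  obtain ⟨f', c'⟩ := Fi24L12.ok.card_le v hW hoinv f
  exact ⟨f', le_trans c' (Nat.mul_le_mul_left _ c)⟩

theorem bound_10 {G : Type*} [Group G] (v : ℕ → G) (hW : ∀ w ∈ Cfsg.Agent.Lib.Helper30.Fi24.Fi24PD.pd.words ++ [[5, 4, 3, 5, 6, 7, 5, 10, 11, 5, 4, 3, 5, 6, 7, 5, 10, 11, 5, 4, 3, 5, 6, 7, 5, 10, 11, 5, 4, 3, 5, 6, 7, 5, 10, 11, 5, 4, 3, 5, 6, 7, 5, 10, 11, 5, 4, 3, 5, 6, 7, 5, 10, 11, 5, 4, 3, 5, 6, 7, 5, 10, 11, 5, 4, 3, 5, 6, 7, 5, 10, 11, 5, 4, 3, 5, 6, 7, 5, 10, 11, 5, 4, 3, 5, 6, 7, 5, 10, 11]], evalW v w = 1)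
    (hoinv : ∀ y < Cfsg.Agent.Lib.Helper30.Fi24.Fi24PD.pd.K, v (Cfsg.Agent.Lib.Helper30.Fi24.Fi24PD.pd.inv y) = (v y)⁻¹) :
    Finite (Sg v [4, 5]) ∧ Nat.card (Sg v [4, 5]) ≤ 3 * (2 * 1) := by
  obtain ⟨f, c⟩ := bound_11 v hW hoinv
  obtain ⟨f', c'⟩ := Fi24L11.ok.card_le v hW hoinv f
  exact ⟨f', le_trans c' (Nat.mul_le_mul_left _ c)⟩

theorem bound_9 {G : Type*} [Group G] (v : ℕ → G) (hW : ∀ w ∈ Cfsg.Agent.Lib.Helper30.Fi24.Fi24PD.pd.words ++ [[5, 4, 3, 5, 6, 7, 5, 10, 11, 5, 4, 3, 5, 6, 7, 5, 10, 11, 5, 4, 3, 5, 6, 7, 5, 10, 11, 5, 4, 3, 5, 6, 7, 5, 10, 11, 5, 4, 3, 5, 6, 7, 5, 10, 11, 5, 4, 3, 5, 6, 7, 5, 10, 11, 5, 4, 3, 5, 6, 7, 5, 10, 11, 5, 4, 3, 5, 6, 7, 5, 10, 11, 5, 4, 3, 5, 6, 7, 5, 10, 11, 5, 4, 3, 5, 6, 7, 5, 10, 11]],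 evalW v w = 1)
    (hoinv : ∀ y < Cfsg.Agent.Lib.Helper30.Fi24.Fi24PD.pd.K, v (Cfsg.Agent.Lib.Helper30.Fi24.Fi24PD.pd.inv y) = (v y)⁻¹) :
    Finite (Sg v [4, 5, 6]) ∧ Nat.card (Sg v [4, 5, 6]) ≤ 4 * (3 * (2 * 1)) := by
  obtain ⟨f, c⟩ := bound_10 v hW hoinv
  obtain ⟨f', c'⟩ := Fi24L10.ok.card_le v hW hoinv f
  exact ⟨f', le_trans c' (Nat.mul_le_mul_left _ c)⟩

theorem bound_8 {G : Type*} [Group G] (v : ℕ → G) (hW : ∀ w ∈ Cfsg.Agent.Lib.Helper30.Fi24.Fi24PD.pd.words ++ [[5, 4, 3, 5, 6, 7, 5, 10, 11, 5, 4, 3, 5, 6, 7, 5, 10, 11, 5, 4, 3, 5, 6, 7, 5, 10, 11, 5, 4, 3, 5, 6, 7, 5, 10, 11, 5, 4, 3, 5, 6, 7, 5, 10, 11, 5, 4, 3, 5, 6, 7, 5, 10, 11, 5, 4, 3, 5, 6, 7, 5, 10, 11, 5, 4, 3, 5, 6, 7, 5, 10, 11, 5, 4, 3, 5, 6, 7, 5, 10, 11,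 5, 4, 3, 5, 6, 7, 5, 10, 11]], evalW v w = 1)
    (hoinv : ∀ y < Cfsg.Agent.Lib.Helper30.Fi24.Fi24PD.pd.K, v (Cfsg.Agent.Lib.Helper30.Fi24.Fi24PD.pd.inv y) = (v y)⁻¹) :
    Finite (Sg v [4, 5, 6, 7]) ∧ Nat.card (Sg v [4, 5, 6, 7]) ≤ 5 * (4 * (3 * (2 * 1))) := by
  obtain ⟨f, c⟩ := bound_9 v hW hoinv
  obtain ⟨f', c'⟩ := Fi24L9.ok.card_le v hW hoinv f
  exact ⟨f', le_trans c' (Nat.mul_le_mul_left _ c)⟩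

theorem bound_7 {G : Type*} [Group G] (v : ℕ → G) (hW : ∀ w ∈ Cfsg.Agent.Lib.Helper30.Fi24.Fi24PD.pd.words ++ [[5, 4, 3, 5, 6, 7, 5, 10, 11, 5, 4, 3, 5, 6, 7, 5, 10, 11, 5, 4, 3, 5, 6, 7, 5, 10, 11, 5, 4, 3, 5, 6, 7, 5, 10, 11, 5, 4, 3, 5, 6, 7, 5, 10, 11, 5, 4, 3, 5, 6, 7, 5, 10, 11, 5, 4, 3, 5, 6, 7, 5, 10, 11, 5, 4, 3, 5, 6, 7, 5, 10, 11, 5, 4, 3, 5, 6, 7, 5, 10, 11, 5, 4, 3, 5, 6, 7, 5, 10, 11]], evalW v w = 1)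
    (hoinv : ∀ y < Cfsg.Agent.Lib.Helper30.Fi24.Fi24PD.pd.K, v (Cfsg.Agent.Lib.Helper30.Fi24.Fi24PD.pd.inv y) = (v y)⁻¹) :
    Finite (Sg v [4, 5, 6, 7, 10]) ∧ Nat.card (Sg v [4, 5, 6, 7, 10]) ≤ 16 * (5 * (4 * (3 * (2 * 1)))) := by
  obtain ⟨f, c⟩ := bound_8 v hW hoinv
  obtain ⟨f', c'⟩ := Fi24L8.ok.card_le v hW hoinv f
  exact ⟨f', le_trans c' (Nat.mul_le_mul_left _ c)⟩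

theorem bound_6 {G : Type*} [Group G] (v : ℕ → G) (hW : ∀ w ∈ Cfsg.Agent.Lib.Helper30.Fi24.Fi24PD.pd.words ++ [[5, 4, 3, 5, 6, 7, 5, 10, 11, 5, 4, 3, 5, 6, 7, 5, 10, 11, 5, 4, 3, 5, 6, 7, 5, 10, 11, 5, 4, 3, 5, 6, 7, 5, 10, 11, 5, 4, 3, 5, 6, 7, 5, 10, 11, 5, 4, 3, 5, 6, 7, 5, 10, 11, 5, 4, 3, 5, 6, 7, 5, 10, 11, 5, 4, 3, 5, 6, 7, 5, 10, 11, 5, 4, 3, 5, 6, 7, 5, 10, 11, 5, 4, 3, 5, 6, 7, 5, 10, 11]], evalW v w = 1)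
    (hoinv : ∀ y < Cfsg.Agent.Lib.Helper30.Fi24.Fi24PD.pd.K, v (Cfsg.Agent.Lib.Helper30.Fi24.Fi24PD.pd.inv y) = (v y)⁻¹) :
    Finite (Sg v [3, 4, 5, 6, 7, 10]) ∧ Nat.card (Sg v [3, 4, 5, 6, 7, 10]) ≤ 27 * (16 * (5 * (4 * (3 * (2 * 1))))) := by
  obtain ⟨f, c⟩ := bound_7 v hW hoinv
  obtain ⟨f', c'⟩ := Fi24L7.ok.card_le v hW hoinv f
  exact ⟨f', le_trans c' (Nat.mul_le_mul_left _ c)⟩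

theorem bound_5 {G : Type*} [Group G] (v : ℕ → G) (hW : ∀ w ∈ Cfsg.Agent.Lib.Helper30.Fi24.Fi24PD.pd.words ++ [[5, 4, 3, 5, 6, 7, 5, 10, 11, 5, 4, 3, 5, 6, 7, 5, 10, 11, 5, 4, 3, 5, 6, 7, 5, 10, 11, 5, 4, 3, 5, 6, 7, 5, 10, 11, 5, 4, 3, 5, 6, 7, 5, 10, 11, 5, 4, 3, 5, 6, 7, 5, 10, 11, 5, 4, 3, 5, 6, 7, 5, 10, 11, 5, 4, 3, 5, 6, 7, 5, 10, 11, 5, 4, 3, 5, 6, 7, 5, 10, 11, 5, 4, 3, 5, 6, 7, 5, 10, 11]], evalW v w = 1)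
    (hoinv : ∀ y < Cfsg.Agent.Lib.Helper30.Fi24.Fi24PD.pd.K, v (Cfsg.Agent.Lib.Helper30.Fi24.Fi24PD.pd.inv y) = (v y)⁻¹) :
    Finite (Sg v [3, 4, 5, 6, 7, 10, 11]) ∧ Nat.card (Sg v [3, 4, 5, 6, 7, 10, 11]) ≤ 243 * (27 * (16 * (5 * (4 * (3 * (2 * 1)))))) := by
  obtain ⟨f, c⟩ := bound_6 v hW hoinv
  obtain ⟨f', c'⟩ := Fi24L6.ok.card_le v hW hoinv f
  exact ⟨f', le_trans c' (Nat.mul_le_mul_left _ c)⟩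

theorem bound_4 {G : Type*} [Group G] (v : ℕ → G) (hW : ∀ w ∈ Cfsg.Agent.Lib.Helper30.Fi24.Fi24PD.pd.words ++ [[5, 4, 3, 5, 6, 7, 5, 10, 11, 5, 4, 3, 5, 6, 7, 5, 10, 11, 5, 4, 3, 5, 6, 7, 5, 10, 11, 5, 4, 3, 5, 6, 7, 5, 10, 11, 5, 4, 3, 5, 6, 7, 5, 10, 11, 5, 4, 3, 5, 6, 7, 5, 10, 11, 5, 4, 3, 5, 6, 7, 5, 10, 11, 5, 4, 3, 5, 6, 7, 5, 10, 11, 5, 4, 3, 5, 6, 7, 5, 10, 11, 5, 4, 3, 5, 6, 7, 5, 10, 11]], evalW v w = 1)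
    (hoinv : ∀ y < Cfsg.Agent.Lib.Helper30.Fi24.Fi24PD.pd.K, v (Cfsg.Agent.Lib.Helper30.Fi24.Fi24PD.pd.inv y) = (v y)⁻¹) :
    Finite (Sg v [3, 4, 5, 6, 7, 8, 10, 11]) ∧ Nat.card (Sg v [3, 4, 5, 6, 7, 8, 10, 11]) ≤ 728 * (243 * (27 * (16 * (5 * (4 * (3 * (2 * 1))))))) := by
  obtain ⟨f, c⟩ := bound_5 v hW hoinv
  obtain ⟨f', c'⟩ := Fi24L5.ok.card_le v hW hoinv f
  exact ⟨f', le_trans c' (Nat.mul_le_mul_left _ c)⟩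

theorem bound_3 {G : Type*} [Group G] (v : ℕ → G) (hW : ∀ w ∈ Cfsg.Agent.Lib.Helper30.Fi24.Fi24PD.pd.words ++ [[5, 4, 3, 5, 6, 7, 5, 10, 11, 5, 4, 3, 5, 6, 7, 5, 10, 11, 5, 4, 3, 5, 6, 7, 5, 10, 11, 5, 4, 3, 5, 6, 7, 5, 10, 11, 5, 4, 3, 5, 6, 7, 5, 10, 11, 5, 4, 3, 5, 6, 7, 5, 10, 11, 5, 4, 3, 5, 6, 7, 5, 10, 11, 5, 4, 3, 5, 6, 7, 5, 10, 11, 5, 4, 3, 5, 6, 7, 5, 10, 11, 5, 4, 3, 5, 6, 7, 5, 10, 11]], evalW v w = 1)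
    (hoinv : ∀ y < Cfsg.Agent.Lib.Helper30.Fi24.Fi24PD.pd.K, v (Cfsg.Agent.Lib.Helper30.Fi24.Fi24PD.pd.inv y) = (v y)⁻¹) :
    Finite (Sg v [0, 3, 4, 5, 6, 7, 8, 10, 11]) ∧ Nat.card (Sg v [0, 3, 4, 5, 6, 7, 8, 10, 11]) ≤ 2 * (728 * (243 * (27 * (16 * (5 * (4 * (3 * (2 * 1)))))))) := by
  obtain ⟨f, c⟩ := bound_4 v hW hoinv
  obtain ⟨f', c'⟩ := Fi24L4.ok.card_le v hW hoinv f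
  exact ⟨f', le_trans c' (Nat.mul_le_mul_left _ c)⟩

theorem bound_2 {G : Type*} [Group G] (v : ℕ → G) (hW : ∀ w ∈ Cfsg.Agent.Lib.Helper30.Fi24.Fi24PD.pd.words ++ [[5, 4, 3, 5, 6, 7, 5, 10, 11, 5, 4, 3, 5, 6, 7, 5, 10, 11, 5, 4, 3, 5, 6, 7, 5, 10, 11, 5, 4, 3, 5, 6, 7, 5, 10, 11, 5, 4, 3, 5, 6, 7, 5, 10, 11, 5, 4, 3, 5, 6, 7, 5, 10, 11, 5, 4, 3, 5, 6, 7, 5, 10, 11, 5, 4, 3, 5, 6, 7, 5, 10, 11, 5, 4, 3, 5, 6, 7, 5, 10, 11, 5, 4, 3, 5, 6, 7, 5, 10, 11]], evalW v w = 1)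
    (hoinv : ∀ y < Cfsg.Agent.Lib.Helper30.Fi24.Fi24PD.pd.K, v (Cfsg.Agent.Lib.Helper30.Fi24.Fi24PD.pd.inv y) = (v y)⁻¹) :
    Finite (Sg v [0, 2, 3, 4, 5, 6, 7, 8, 10, 11]) ∧ Nat.card (Sg v [0, 2, 3, 4, 5, 6, 7, 8, 10, 11]) ≤ 14080 * (2 * (728 * (243 * (27 * (16 * (5 * (4 * (3 * (2 * 1))))))))) := by
  obtain ⟨f, c⟩ := bound_3 v hW hoinv
  obtain ⟨f', c'⟩ := Fi24L3.ok.card_le v hW hoinv f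
  exact ⟨f', le_trans c' (Nat.mul_le_mul_left _ c)⟩

theorem bound_1 {G : Type*} [Group G] (v : ℕ → G) (hW : ∀ w ∈ Cfsg.Agent.Lib.Helper30.Fi24.Fi24PD.pd.words ++ [[5, 4, 3, 5, 6, 7, 5, 10, 11, 5, 4, 3, 5, 6, 7, 5, 10, 11, 5, 4, 3, 5, 6, 7, 5, 10, 11, 5, 4, 3, 5, 6, 7, 5, 10, 11, 5, 4, 3, 5, 6, 7, 5, 10, 11, 5, 4, 3, 5, 6, 7, 5, 10, 11, 5, 4, 3, 5, 6, 7, 5, 10, 11, 5, 4, 3, 5, 6, 7, 5, 10, 11, 5, 4, 3, 5, 6, 7, 5, 10, 11, 5, 4, 3, 5, 6, 7, 5, 10, 11]], evalW v w = 1)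
    (hoinv : ∀ y < Cfsg.Agent.Lib.Helper30.Fi24.Fi24PD.pd.K, v (Cfsg.Agent.Lib.Helper30.Fi24.Fi24PD.pd.inv y) = (v y)⁻¹) :
    Finite (Sg v [0, 2, 3, 4, 5, 6, 7, 8, 9, 10, 11]) ∧ Nat.card (Sg v [0, 2, 3, 4, 5, 6, 7, 8, 9, 10, 11]) ≤ 31671 * (14080 * (2 * (728 * (243 * (27 * (16 * (5 * (4 * (3 * (2 * 1)))))))))) := by
  obtain ⟨f, c⟩ := bound_2 v hW hoinv
  obtain ⟨f', c'⟩ := Fi24L2.ok.card_le v hW hoinv f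
  exact ⟨f', le_trans c' (Nat.mul_le_mul_left _ c)⟩

end Cfsg.Agent.Lib.Helper30.Fi24.Fi24Chain
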