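import Cfsg.Agent.Lib.Helper30.Fi24.Fi24L2Data

set_option autoImplicit false
set_option maxRecDepth 100000

namespace Cfsg.Agent.Lib.Helper30.Fi24.Fi24L2

open Cfsg.Agent.Lib.Helper28

theorem chk_5 : allRange D.checkLabel 7500 1500 = true := by decide +kernel
theorem chk_6 : allRange D.checkLabel 9000 1500 = true := by decide +kernel
theorem chk_7 : allRange D.checkLabel 10500 1500 = true := by decide +kernel
theorem chk_8 : allRange D.checkLabel 12000 1500 = true := by decide +kernel
theorem chk_9 : allRange D.checkLabel 13500 1500 = true := by decide +kernel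

end Cfsg.Agent.Lib.Helper30.Fi24.Fi24L2
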