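import Cfsg.Agent.Lib.Helper30.Fi24.Fi24L2Data

set_option autoImplicit false
set_option maxRecDepth 100000

namespace Cfsg.Agent.Lib.Helper30.Fi24.Fi24L2

open Cfsg.Agent.Lib.Helper28

theorem chk_25 : allRange D.checkLabel 37500 1500 = true := by decide +kernel
theorem chk_26 : allRange D.checkLabel 39000 1500 = true := by decide +kernel
theorem chk_27 : allRange D.checkLabel 40500 1500 = true := by decide +kernel
theorem chk_28 : allRange D.checkLabel 42000 1253 = true := by decide +kernel

end Cfsg.Agent.Lib.Helper30.Fi24.Fi24L2
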