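import Mathlib

/-!
# Simplicity of a subgroup of index two (helper30)

If every nontrivial normal subgroup of `G` contains the subgroup `K` of index two and some prime divides the
order of `K` exactly once, then `K` is simple.
-/

set_option autoImplicit false

namespace Cfsg.Agent.Lib.Helper30.Fi24

variable {G : Type*} [Group G]

theorem simple_of_index_two [Finite G] (K : Subgroup G) (hK : K.index = 2)
    (hmin : ∀ M : Subgroup G, M.Normal → M ≠ ⊥ → K ≤ M)
    (p : ℕ) (hp : p.Prime) (hp1 : p ∣ Nat.card K) (hp2 : ¬ p ^ 2 ∣ Nat.card K) :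
    IsSimpleGroup K := by
  classical
  haveI hKn : K.Normal := Subgroup.normal_of_index_eq_two hK
  have hnt : Nontrivial K := by
    apply (Finite.one_lt_card_iff_nontrivial).mp
    have h0 : 0 < Nat.card K := Nat.card_pos
    have := Nat.le_of_dvd h0 hp1
    have := hp.two_le
    omega
  obtain ⟨t, ht⟩ : ∃ t : G, t ∉ K := by
    by_contra hcon
    push_neg at hcon
    have : K = ⊤ := (Subgroup.eq_top_iff' K).mpr hcon
    rw [this, Subgroup.index_top] at hK
    omega
  have hmul : ∀ {a b : G}, a * b ∈ K ↔ (a ∈ K ↔ b ∈ K) := Subgroup.mul_mem_iff_of_index_two hK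
  refine { exists_pair_ne := hnt.exists_pair_ne, eq_bot_or_eq_top_of_normal := ?_ }
  intro N0 hN0
  by_cases hbot : N0 = ⊥
  · left; exact hbot
  right
  -- the two conjugates, as sets of elements of `G`
  let N1 : Subgroup G := N0.map K.subtype
  have hN1K : N1 ≤ K := by
    rintro _ ⟨x, _, rfl⟩
    exact x.2
  have hN1 : ∀ x : G, x ∈ N1 ↔ ∃ h : x ∈ K, (⟨x, h⟩ : K) ∈ N0 := by
    intro x
    constructor
    · rintro ⟨y, hy, rfl⟩
      exact ⟨y.2, hy⟩
    · rintro ⟨h, hx⟩
      exact ⟨⟨x, h⟩, hx, rfl⟩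
  have hconjK : ∀ k ∈ K, ∀ x ∈ N1, k * x * k⁻¹ ∈ N1 := by
    intro k hk x hx
    obtain ⟨h, hx⟩ := (hN1 x).mp hx
    exact (hN1 _).mpr ⟨K.mul_mem (K.mul_mem hk h) (K.inv_mem hk), hN0.conj_mem _ hx ⟨k, hk⟩⟩
  let N2 : Subgroup G := N1.map (MulAut.conj t).toMonoidHom
  have hN2 : ∀ x : G, x ∈ N2 ↔ t⁻¹ * x * t ∈ N1 := by
    intro x
    constructor
    · rintro ⟨y, hy, rfl⟩
      have : t⁻¹ * (MulAut.conj t).toMonoidHom y * t = y := by
        simp [MulAut.conj_apply, mul_assoc]
      rw [this]; exact hy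
    · intro hx
      refine ⟨t⁻¹ * x * t, hx, ?_⟩
      simp [MulAut.conj_apply, mul_assoc]
  have htinv : t⁻¹ ∉ K := fun h => ht (by simpa using K.inv_mem h)
  -- conjugation by elements outside `K` swaps the two
  have hswap1 : ∀ g ∉ K, ∀ x ∈ N1, g * x * g⁻¹ ∈ N2 := by
    intro g hg x hx
    rw [hN2]
    have hk : t⁻¹ * g ∈ K := hmul.mpr ⟨fun h => absurd h htinv, fun h => absurd h hg⟩
    have := hconjK _ hk x hx
    convert this using 1
    group
  have hswap2 : ∀ g ∉ K, ∀ x ∈ N2, g * x * g⁻¹ ∈ N1 := by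
    intro g hg x hx
    rw [hN2] at hx
    have hk : g * t ∈ K := hmul.mpr ⟨fun h => absurd h hg, fun h => absurd h ht⟩
    have := hconjK _ hk _ hx
    convert this using 1
    group
  have hconjK2 : ∀ k ∈ K, ∀ x ∈ N2, k * x * k⁻¹ ∈ N2 := by
    intro k hk x hx
    rw [hN2] at hx ⊢
    have hk' : t⁻¹ * k * t ∈ K := by
      have := hKn.conj_mem k hk t⁻¹
      simpa using this
    have := hconjK _ hk' _ hx
    convert this using 1
    group
  have hN2K : N2 ≤ K := by
    intro x hx
    have h1 := hN1K ((hN2 x).mp hx)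
    have := hKn.conj_mem _ h1 t
    have e : t * (t⁻¹ * x * t) * t⁻¹ = x := by group
    rwa [e] at this
  have hA : (N1 ⊓ N2).Normal := by
    constructor
    intro x hx g
    by_cases hg : g ∈ K
    · exact ⟨hconjK g hg x hx.1, hconjK2 g hg x hx.2⟩
    · exact ⟨hswap2 g hg x hx.2, hswap1 g hg x hx.1⟩
  have hB : (N1 ⊔ N2).Normal := by
    constructor
    intro x hx g
    have hle : N1 ⊔ N2 ≤ (N1 ⊔ N2).comap (MulAut.conj g).toMonoidHom := by
      apply sup_le
      · intro y hy
        show g * y * g⁻¹ ∈ N1 ⊔ N2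
        by_cases hg : g ∈ K
        · exact Subgroup.mem_sup_left (hconjK g hg y hy)
        · exact Subgroup.mem_sup_right (hswap1 g hg y hy)
      · intro y hy
        show g * y * g⁻¹ ∈ N1 ⊔ N2
        by_cases hg : g ∈ K
        · exact Subgroup.mem_sup_right (hconjK2 g hg y hy)
        · exact Subgroup.mem_sup_left (hswap2 g hg y hy)
    exact hle hx
  have hN1ne : N1 ≠ ⊥ := by
    intro h
    apply hbot
    rw [eq_bot_iff]
    intro x hx
    have : (x : G) ∈ N1 := ⟨x, hx, rfl⟩
    rw [h, Subgroup.mem_bot] at this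
    exact Subgroup.mem_bot.mpr (Subtype.ext this)
  by_cases hAb : N1 ⊓ N2 = ⊥
  · -- impossible: the order of `K` would be a square
    exfalso
    have hBK : N1 ⊔ N2 = K := by
      apply le_antisymm (sup_le hN1K hN2K)
      apply hmin _ hB
      intro h
      apply hN1ne
      rw [eq_bot_iff, ← h]
      exact le_sup_left
    -- inside `K`
    let M1 : Subgroup K := N1.subgroupOf K
    let M2 : Subgroup K := N2.subgroupOf K
    haveI hM2 : M2.Normal := by
      constructor
      intro x hx k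
      exact hconjK2 k.1 k.2 x.1 hx
    have hdisj : Disjoint M1 M2 := by
      rw [Subgroup.disjoint_def]
      intro x h1 h2
      have : (x : G) ∈ N1 ⊓ N2 := ⟨h1, h2⟩
      rw [hAb, Subgroup.mem_bot] at this
      exact Subtype.ext this
    have hsup : M1 ⊔ M2 = ⊤ := by
      have h1 : (M1 ⊔ M2).map K.subtype = K := by
        rw [Subgroup.map_sup, Subgroup.subgroupOf_map_subtype, Subgroup.subgroupOf_map_subtype,
          inf_eq_left.mpr hN1K, inf_eq_left.mpr hN2K, hBK]
      rw [eq_top_iff]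
      intro x _
      have : (x : G) ∈ (M1 ⊔ M2).map K.subtype := by rw [h1]; exact x.2
      obtain ⟨y, hy, e⟩ := this
      have : y = x := Subtype.ext e
      rwa [this] at hy
    have hcompl : Subgroup.IsComplement' M1 M2 := by
      apply Subgroup.isComplement'_of_disjoint_and_mul_eq_univ hdisj
      rw [← Subgroup.mul_normal, hsup]
      rfl
    have hcard := hcompl.card_mul
    have c1 : Nat.card M1 = Nat.card N1 := Nat.card_congr (Subgroup.subgroupOfEquivOfLe hN1K).toEquiv
    have c2 : Nat.card M2 = Nat.card N2 := Nat.card_congr (Subgroup.subgroupOfEquivOfLe hN2K).toEquiv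
    have c3 : Nat.card N2 = Nat.card N1 :=
      Subgroup.card_map_of_injective (MulAut.conj t).injective
    rw [c1, c2, c3] at hcard
    rw [← hcard] at hp1 hp2
    apply hp2
    have : p ∣ Nat.card N1 := (Nat.Prime.dvd_mul hp).mp hp1 |>.elim id id
    rw [pow_two]
    exact Nat.mul_dvd_mul this this
  · have h1 : K ≤ N1 ⊓ N2 := hmin _ hA hAb
    rw [eq_top_iff]
    intro x _
    obtain ⟨_, hx⟩ := (hN1 x.1).mp (h1 x.2).1
    exact hx

end Cfsg.Agent.Lib.Helper30.Fi24
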