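import Cfsg.Agent.Lib.Helper28.TCSimple

/-!
# Normal subgroups of a presented group acting primitively on cosets (helper30)

A variant of helper28's `Prob.OK.normal_dichotomy` giving transitivity, and Iwasawa's argument for a central
element of the point stabiliser whose conjugates generate.
-/

set_option autoImplicit false

namespace Cfsg.Agent.Lib.Helper30.Fi24

open Cfsg.Agent.Lib.Helper28 Cfsg.Agent.Lib.Helper28.Prob

variable {α : Type} [DecidableEq α] {Q : Prob α} {S : Set (FreeGroup α)} (O : Orb)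

/-- a subgroup whose orbit of the base point is a block invariant under the point stabiliser fixes the base point
or is transitive, by arithmetic of the suborbit lengths -/
theorem block_trans (h : Q.OK S) (hO : O.OK Q) (hS1 : ∀ E ∈ Q.subE, E.value Q.P.lfree ∈ S)
    (r : ℕ) (hoid : ∀ c < Q.n, O.oid c < r)
    (hc0 : O.count Q 0 = 1) (h00 : O.oid 0 = 0)
    (harith : ∀ I ∈ (Finset.range r).powerset, 0 ∈ I → (∑ k ∈ I, O.count Q k) ∣ Q.n →
      I = {0} ∨ I = Finset.range r)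
    (M : Subgroup Q.Grp)
    (hblock : MulAction.IsBlock Q.Grp (MulAction.orbit M (((1 : Q.Grp) : Q.Grp ⧸ HS Q S))))
    (hinv : ∀ k ∈ HS Q S, ∀ m ∈ M, ∃ m' ∈ M, phi h k (phi h m 0) = phi h m' 0) :
    M ≤ HS Q S ∨ ∀ c < Q.n, ∃ m ∈ M, phi h m 0 = c := by
  classical
  have hn : 0 < Q.n := lt_of_le_of_lt (Nat.zero_le _) (h.index.2.2.1 1)
  let q0 : Q.Grp ⧸ HS Q S := ((1 : Q.Grp) : Q.Grp ⧸ HS Q S)
  let B : Set (Q.Grp ⧸ HS Q S) := MulAction.orbit M q0
  have hq0 : q0 ∈ B := MulAction.mem_orbit_self q0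
  have hdvd1 : B.ncard ∣ Q.n := by
    have := hblock.ncard_dvd_card ⟨q0, hq0⟩
    rwa [show Nat.card (Q.Grp ⧸ HS Q S) = (HS Q S).index from rfl, h.index.1] at this
  let P : Set ℕ := toPt h '' B
  have hP : ∀ c, c ∈ P ↔ ∃ m ∈ M, phi h m 0 = c := by
    intro c
    constructor
    · rintro ⟨_, ⟨m, rfl⟩, rfl⟩
      refine ⟨m.1, m.2, ?_⟩
      show phi h m.1 0 = toPt h ((m.1 * 1 : Q.Grp) : Q.Grp ⧸ HS Q S)
      rw [toPt_mk, mul_one]
    · rintro ⟨m, hm, rfl⟩
      refine ⟨(⟨m, hm⟩ : M) • q0, ⟨⟨m, hm⟩, rfl⟩, ?_⟩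
      have e : (⟨m, hm⟩ : M) • q0 = ((m * 1 : Q.Grp) : Q.Grp ⧸ HS Q S) := rfl
      rw [e, toPt_mk, mul_one]
  have hinvP : ∀ k ∈ HS Q S, ∀ c ∈ P, phi h k c ∈ P := by
    intro k hk c hc
    obtain ⟨m, hm, rfl⟩ := (hP c).mp hc
    obtain ⟨m', hm', e⟩ := hinv k hk m hm
    exact (hP _).mpr ⟨m', hm', e.symm⟩
  have hroot : ∀ c < Q.n, (c ∈ P ↔ nth O.roots Q.n (O.oid c) ∈ P) := by
    intro c hc
    obtain ⟨k, hk, e⟩ := h.reach O hO hS1 _ c rfl hc
    constructor
    · intro hcP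
      have := hinvP k⁻¹ (Subgroup.inv_mem _ hk) c hcP
      rwa [← e, ← Equiv.Perm.mul_apply, ← map_mul, inv_mul_cancel, map_one, Equiv.Perm.one_apply] at this
    · intro hr
      rw [← e]
      exact hinvP k hk _ hr
  let I : Finset ℕ := (Finset.range r).filter (fun k => nth O.roots Q.n k ∈ P)
  have hPeq : P = ↑((Finset.range Q.n).filter (fun c => O.oid c ∈ I)) := by
    ext c
    simp only [Finset.coe_filter, Finset.mem_range, Set.mem_ofPred_eq]
    constructor
    · intro hc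
      obtain ⟨m, _, e⟩ := (hP c).mp hc
      have hcn : c < Q.n := by rw [← e]; exact h.index.2.2.1 m
      exact ⟨hcn, Finset.mem_filter.mpr ⟨Finset.mem_range.mpr (hoid c hcn), (hroot c hcn).mp hc⟩⟩
    · rintro ⟨hcn, hcI⟩
      exact (hroot c hcn).mpr (Finset.mem_filter.mp hcI).2
  have hcard : B.ncard = ∑ k ∈ I, O.count Q k := by
    rw [← Set.ncard_image_of_injective B (toPt_injective h)]
    show P.ncard = _
    rw [hPeq, Set.ncard_coe_finset,
      Finset.card_eq_sum_card_fiberwise (f := O.oid) (t := I)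
        (s := (Finset.range Q.n).filter (fun c => O.oid c ∈ I))
        (fun c hc => (Finset.mem_filter.mp (Finset.mem_coe.mp hc)).2)]
    apply Finset.sum_congr rfl
    intro k hk
    rw [Orb.count_eq]
    congr 1
    ext c
    simp only [Finset.mem_filter, Finset.mem_range]
    constructor
    · rintro ⟨⟨a, _⟩, b⟩; exact ⟨a, b⟩
    · rintro ⟨a, b⟩; exact ⟨⟨a, by rw [b]; exact hk⟩, b⟩
  have h0P : (0 : ℕ) ∈ P := (hP 0).mpr ⟨1, M.one_mem, by simp⟩
  have h0I : 0 ∈ I := by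
    have := (hroot 0 hn).mp h0P
    rw [h00] at this
    refine Finset.mem_filter.mpr ⟨Finset.mem_range.mpr ?_, this⟩
    have := hoid 0 hn
    rwa [h00] at this
  rcases harith I (Finset.mem_powerset.mpr (Finset.filter_subset _ _)) h0I (by rw [← hcard]; exact hdvd1)
    with hI | hI
  · left
    rw [hI, Finset.sum_singleton, hc0] at hcard
    obtain ⟨a, ha⟩ := Set.ncard_eq_one.mp hcard
    intro m hm
    have h1 : (⟨m, hm⟩ : M) • q0 ∈ B := ⟨⟨m, hm⟩, rfl⟩
    rw [ha] at h1 hq0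
    have h2 : (⟨m, hm⟩ : M) • q0 = q0 := by
      rw [Set.mem_singleton_iff.mp h1, Set.mem_singleton_iff.mp hq0]
    have e : (⟨m, hm⟩ : M) • q0 = ((m * 1 : Q.Grp) : Q.Grp ⧸ HS Q S) := rfl
    rw [e, mul_one] at h2
    have h3 := QuotientGroup.eq.mp h2
    rw [mul_one] at h3
    simpa using Subgroup.inv_mem _ h3
  · right
    intro c hc
    apply (hP c).mp
    rw [hPeq]
    simp only [Finset.coe_filter, Finset.mem_range, Set.mem_ofPred_eq]
    exact ⟨hc, by rw [hI]; exact Finset.mem_range.mpr (hoid c hc)⟩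

/-- a normal subgroup fixes the base point or is transitive -/
theorem normal_trans (h : Q.OK S) (hO : O.OK Q) (hS1 : ∀ E ∈ Q.subE, E.value Q.P.lfree ∈ S)
    (r : ℕ) (hoid : ∀ c < Q.n, O.oid c < r)
    (hc0 : O.count Q 0 = 1) (h00 : O.oid 0 = 0)
    (harith : ∀ I ∈ (Finset.range r).powerset, 0 ∈ I → (∑ k ∈ I, O.count Q k) ∣ Q.n →
      I = {0} ∨ I = Finset.range r)
    (M : Subgroup Q.Grp) (hM : M.Normal) : M ≤ HS Q S ∨ ∀ c < Q.n, ∃ m ∈ M, phi h m 0 = c := by
  refine block_trans O h hO hS1 r hoid hc0 h00 harith M (MulAction.IsBlock.orbit_of_normal _) ?_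
  intro k hk m hm
  refine ⟨k * m * k⁻¹, hM.conj_mem m hm k, ?_⟩
  have e2 : phi h k (phi h m 0) = phi h (k * m * k⁻¹) (phi h k 0) := by
    rw [← Equiv.Perm.mul_apply, ← Equiv.Perm.mul_apply, ← map_mul, ← map_mul]
    congr 2
    group
  rw [e2, h.index.2.2.2.1 k hk]

/-- the point stabiliser is a maximal subgroup -/
theorem sub_trans (h : Q.OK S) (hO : O.OK Q) (hS1 : ∀ E ∈ Q.subE, E.value Q.P.lfree ∈ S)
    (r : ℕ) (hoid : ∀ c < Q.n, O.oid c < r)
    (hc0 : O.count Q 0 = 1) (h00 : O.oid 0 = 0)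
    (harith : ∀ I ∈ (Finset.range r).powerset, 0 ∈ I → (∑ k ∈ I, O.count Q k) ∣ Q.n →
      I = {0} ∨ I = Finset.range r)
    (C : Subgroup Q.Grp) (hC : HS Q S ≤ C) : C ≤ HS Q S ∨ C = ⊤ := by
  rcases block_trans O h hO hS1 r hoid hc0 h00 harith C
    (MulAction.IsBlock.of_orbit (by rw [MulAction.stabilizer_quotient]; exact hC)) (by
      intro k hk m hm
      exact ⟨k * m, C.mul_mem (hC hk) hm, by rw [map_mul, Equiv.Perm.mul_apply]⟩) with h1 | h1
  · left; exact h1
  · right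
    rw [eq_top_iff]
    intro g _
    obtain ⟨m, hm, e⟩ := h1 _ (h.index.2.2.1 g)
    have h2 : m⁻¹ * g ∈ HS Q S := by
      apply h.index.2.1
      rw [map_mul, Equiv.Perm.mul_apply, ← e, ← Equiv.Perm.mul_apply, ← map_mul, inv_mul_cancel, map_one,
        Equiv.Perm.one_apply]
    have := C.mul_mem hm (hC h2)
    simpa using this

/-- Iwasawa's argument: a transitive normal subgroup contains the commutator subgroup, if the point stabiliser
centralises an element to which all generators are conjugate -/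
theorem commutator_le_of_trans (h : Q.OK S) (z : Q.Grp) (hz : ∀ s ∈ HS Q S, s * z = z * s)
    (hconj : ∀ x < Q.P.K, ∃ u : Q.Grp, Q.val x = u * z * u⁻¹)
    (M : Subgroup Q.Grp) (hM : M.Normal) (htr : ∀ c < Q.n, ∃ m ∈ M, phi h m 0 = c) :
    commutator Q.Grp ≤ M := by
  -- every element is in `M * H`
  have hMH : ∀ g : Q.Grp, ∃ m ∈ M, ∃ s ∈ HS Q S, g = m * s := by
    intro g
    obtain ⟨m, hm, e⟩ := htr _ (h.index.2.2.1 g)
    refine ⟨m, hm, m⁻¹ * g, ?_, by group⟩
    apply h.index.2.1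
    rw [map_mul, Equiv.Perm.mul_apply, ← e, ← Equiv.Perm.mul_apply, ← map_mul, inv_mul_cancel, map_one,
      Equiv.Perm.one_apply]
  let π : Q.Grp →* Q.Grp ⧸ M := QuotientGroup.mk' M
  have hπM : ∀ m ∈ M, π m = 1 := fun m hm => (QuotientGroup.eq_one_iff m).mpr hm
  -- the image of `z` is central
  have hcen : ∀ g : Q.Grp, π g * π z = π z * π g := by
    intro g
    obtain ⟨m, hm, s, hs, rfl⟩ := hMH g
    rw [map_mul, hπM m hm, one_mul, ← map_mul, ← map_mul, hz s hs]
  have hgen : ∀ x < Q.P.K, π (Q.val x) = π z := by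
    intro x hx
    obtain ⟨u, e⟩ := hconj x hx
    rw [e, map_mul, map_mul, hcen u, mul_assoc, ← map_mul, mul_inv_cancel, map_one, mul_one]
  -- everything maps into the powers of the image of `z`
  have hall : ∀ g : Q.Grp, π g ∈ Subgroup.zpowers (π z) := by
    intro g
    have hg : g ∈ Sg Q.val (List.range Q.P.K) := by rw [h.Sg_top]; exact Subgroup.mem_top g
    have hle : Sg Q.val (List.range Q.P.K) ≤ (Subgroup.zpowers (π z)).comap π := by
      unfold Sg
      rw [Subgroup.closure_le]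
      rintro _ ⟨x, hx, rfl⟩
      show π (Q.val x) ∈ Subgroup.zpowers (π z)
      rw [hgen x (by simpa using hx)]
      exact Subgroup.mem_zpowers _
    exact hle hg
  rw [commutator_eq_closure, Subgroup.closure_le]
  rintro _ ⟨a, b, rfl⟩
  have key : π (a * b * a⁻¹ * b⁻¹) = 1 := by
    obtain ⟨i, hi⟩ := Subgroup.mem_zpowers_iff.mp (hall a)
    obtain ⟨j, hj⟩ := Subgroup.mem_zpowers_iff.mp (hall b)
    rw [map_mul, map_mul, map_mul, map_inv, map_inv, ← hi, ← hj]
    group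
  exact (QuotientGroup.eq_one_iff _).mp key

end Cfsg.Agent.Lib.Helper30.Fi24
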