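import Cfsg.Agent.Lib.Helper30.Fi24.Y522n28431
import Cfsg.Agent.Lib.Helper30.Fi24.Y522n28431Stab
import Cfsg.Agent.Lib.Helper30.Fi24.Y522Chain
import Cfsg.Agent.Lib.Helper28.TCSimple2
import Cfsg.Agent.Lib.Helper28.TCBase
import Cfsg.Agent.Lib.Helper28.Embed

/-!
# The spider relation is a consequence of `l = (abcdefh)^9` on the diagram Y522 (helper30)

The group presented on the nodes l, k, a, b, c, d, e, f, h, i has order 28431 * 120 * 2903040 and acts
faithfully on 28431 points; the word problem by base images gives `(dcbdefdhi)^10 = 1`.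
-/

set_option autoImplicit false
set_option maxRecDepth 100000

namespace Cfsg.Agent.Lib.Helper30.Fi24.Y522n28431

open Cfsg.Agent.Lib.Helper28

theorem ub : Finite (Sg Q.val (List.range Q.P.K)) ∧ Nat.card (Sg Q.val (List.range Q.P.K)) ≤ 9904359628800 := by
  obtain ⟨f, c⟩ := Y522Chain.bound_1 Q.val ok.val_words ok.val_inv
  obtain ⟨f', c'⟩ := ok.card_le_of_sub [0, 1, 2, 3, 4, 5, 6, 7, 8] (by
    intro s hs
    simp only [S, Set.mem_insert_iff, Set.mem_singleton_iff] at hs
    rcases hs with rfl | rfl | rfl | rfl | rfl | rfl | rfl | rfl | rfl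
    · exact Subgroup.subset_closure ⟨0, by simp, Prob.val_lt (Q := Q) (by decide)⟩
    · exact Subgroup.subset_closure ⟨1, by simp, Prob.val_lt (Q := Q) (by decide)⟩
    · exact Subgroup.subset_closure ⟨2, by simp, Prob.val_lt (Q := Q) (by decide)⟩
    · exact Subgroup.subset_closure ⟨3, by simp, Prob.val_lt (Q := Q) (by decide)⟩
    · exact Subgroup.subset_closure ⟨4, by simp, Prob.val_lt (Q := Q) (by decide)⟩
    · exact Subgroup.subset_closure ⟨5, by simp, Prob.val_lt (Q := Q) (by decide)⟩
    · exact Subgroup.subset_closure ⟨6, by simp, Prob.val_lt (Q := Q) (by decide)⟩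
    · exact Subgroup.subset_closure ⟨7, by simp, Prob.val_lt (Q := Q) (by decide)⟩
    · exact Subgroup.subset_closure ⟨8, by simp, Prob.val_lt (Q := Q) (by decide)⟩
    ) f
  exact ⟨f', le_trans c' (le_trans (Nat.mul_le_mul_left _ c) (by norm_num [Q]))⟩

theorem card_inj : Nat.card Q.Grp = 9904359628800 ∧ Function.Injective (Prob.phi ok) := by
  have hub := ub
  rw [ok.Sg_top] at hub
  have hfin : Finite Q.Grp := by
    have := hub.1
    exact Finite.of_injective (fun g => (⟨g, Subgroup.mem_top g⟩ : (⊤ : Subgroup Q.Grp)))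
      (fun a b hab => congrArg Subtype.val hab)
  have hub2 : Nat.card Q.Grp ≤ 9904359628800 := by
    have := hub.2
    rwa [Subgroup.card_top] at this
  have hlb := ok.card_range_ge hfin levels chain_ok
  rw [levels_prod] at hlb
  exact order_of_bounds (Prob.phi ok) _ hfin hub2 hlb

/-- the spider word -/
def spiderW : List ℕ := (List.replicate 10 [5, 4, 3, 5, 6, 7, 5, 8, 9]).flatten

theorem spider : evalW Q.val spiderW = 1 :=
  ok.word_eq_one_of_base card_inj.2 9904359628800 (by norm_num) card_inj.1 levels chain_ok levels_prod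
    (by decide +kernel) spiderW (by decide +kernel) (by decide +kernel)

/-- the spider relation in any group satisfying the relations of the diagram -/
theorem spider_of_words {Γ : Type*} [Group Γ] (v : ℕ → Γ) (hW : ∀ w ∈ Y522PD.pd.words, evalW v w = 1)
    (hinv : ∀ x < Y522PD.pd.K, v (Y522PD.pd.inv x) = (v x)⁻¹) : evalW v spiderW = 1 := by
  obtain ⟨f, hf⟩ : ∃ f : Q.Grp →* Γ, ∀ x < Q.P.K, f (PresentedGroup.mk Q.P.rels (Q.P.lfree x)) = v x :=
    Y522PD.pd_ok.exists_hom Y522PD.pd_wordsK Y522PD.pd_letters v hW hinv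
  have h1 : f (evalW Q.val spiderW) = 1 := by rw [spider]; exact map_one f
  rw [map_evalW] at h1
  rw [← h1]
  apply Prob.evalW_congr
  intro y hy
  have hy' : y < Y522PD.pd.K := by
    have : ∀ y ∈ spiderW, y < Y522PD.pd.K := by decide +kernel
    exact this y hy
  rw [Prob.val_lt (Q := Q) hy']
  exact (hf y hy').symm

end Cfsg.Agent.Lib.Helper30.Fi24.Y522n28431
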