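import Cfsg.Agent.Lib.Helper30.Fi24.F306936Orb
import Cfsg.Agent.Lib.Helper30.Fi24.F306936Stab
import Cfsg.Agent.Lib.Helper30.Fi24.Fi24Chain
import Cfsg.Agent.Lib.Helper30.Fi24.Y522Main
import Cfsg.Agent.Lib.Helper30.Fi24.Iwasawa
import Cfsg.Agent.Lib.Helper30.Fi24.IndexTwo
import Cfsg.Agent.Lib.Helper28.TCSimple2
import Cfsg.Agent.Lib.Helper28.TCBase
import Cfsg.Agent.S1691

/-!
# The presented group Fi24: order, faithful action on 306936 points, simplicity of the commutator subgroup (helper30)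
-/

set_option autoImplicit false
set_option maxRecDepth 100000

namespace Cfsg.Agent.Lib.Helper30.Fi24.F306936

open Cfsg.Agent.Lib.Helper28

/-- the letters of the diagram Y522 inside the diagram of Fi24 -/
def ren : ℕ → ℕ
  | 8 => 10
  | 9 => 11
  | x => x

theorem val_self_inv : ∀ x < 12, Q.val x = (Q.val x)⁻¹ := by
  intro x hx
  have h := ok.val_inv x hx
  have e : Q.P.inv x = x := by
    interval_cases x <;> rfl
  rwa [e] at h

theorem spider : evalW Q.val [5, 4, 3, 5, 6, 7, 5, 10, 11, 5, 4, 3, 5, 6, 7, 5, 10, 11, 5, 4, 3, 5, 6, 7, 5, 10, 11, 5, 4, 3, 5, 6, 7, 5, 10, 11, 5, 4, 3, 5, 6, 7, 5, 10, 11, 5, 4, 3, 5, 6, 7, 5, 10, 11, 5, 4, 3, 5, 6, 7, 5, 10, 11, 5, 4, 3, 5, 6, 7, 5, 10, 11, 5, 4, 3, 5, 6, 7, 5, 10, 11, 5, 4, 3, 5, 6, 7, 5, 10, 11] = 1 := by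
  have h := Y522n28431.spider_of_words (fun x => Q.val (ren x)) (by
    intro w hw
    rw [← evalW_map]
    apply ok.val_words
    have key : ∀ w ∈ Y522PD.pd.words, w.map ren ∈ Fi24PD.pd.words := by decide +kernel
    exact key w hw) (by
    intro x hx
    have hx' : x < 10 := hx
    have e : Y522PD.pd.inv x = x := by
      interval_cases x <;> rfl
    rw [e]
    apply val_self_inv
    interval_cases x <;> decide)
  rw [← evalW_map] at h
  have e : Y522n28431.spiderW.map ren = [5, 4, 3, 5, 6, 7, 5, 10, 11, 5, 4, 3, 5, 6, 7, 5, 10, 11, 5, 4, 3, 5, 6, 7, 5, 10, 11, 5, 4, 3, 5, 6, 7, 5, 10, 11, 5, 4, 3, 5, 6, 7, 5, 10, 11, 5, 4, 3, 5, 6, 7, 5, 10, 11, 5, 4, 3, 5, 6, 7, 5, 10, 11, 5, 4, 3, 5, 6, 7, 5, 10, 11, 5, 4, 3, 5, 6, 7, 5, 10, 11, 5, 4, 3, 5, 6, 7, 5, 10, 11] := by decide +kernel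
  rwa [e] at h

theorem hW' : ∀ w ∈ Fi24PD.pd.words ++ [[5, 4, 3, 5, 6, 7, 5, 10, 11, 5, 4, 3, 5, 6, 7, 5, 10, 11, 5, 4, 3, 5, 6, 7, 5, 10, 11, 5, 4, 3, 5, 6, 7, 5, 10, 11, 5, 4, 3, 5, 6, 7, 5, 10, 11, 5, 4, 3, 5, 6, 7, 5, 10, 11, 5, 4, 3, 5, 6, 7, 5, 10, 11, 5, 4, 3, 5, 6, 7, 5, 10, 11, 5, 4, 3, 5, 6, 7, 5, 10, 11, 5, 4, 3, 5, 6, 7, 5, 10, 11]], evalW Q.val w = 1 := by
  intro w hw
  rcases List.mem_append.mp hw with hw | hw
  · exact ok.val_words w hw
  · simp only [List.mem_cons, List.mem_nil_iff, or_false] at hw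
    rw [hw]
    exact spider

theorem ubH : Finite (Sg Q.val [0, 2, 3, 4, 5, 6, 7, 8, 9, 10, 11]) ∧
    Nat.card (Sg Q.val [0, 2, 3, 4, 5, 6, 7, 8, 9, 10, 11]) ≤ 8178940946586009600 := by
  obtain ⟨f, c⟩ := Fi24Chain.bound_1 Q.val hW' ok.val_inv
  exact ⟨f, le_trans c (by norm_num)⟩

theorem S_le : ∀ s ∈ S, PresentedGroup.mk Q.P.rels s ∈ Sg Q.val [0, 2, 3, 4, 5, 6, 7, 8, 9, 10, 11] := by
  intro s hs
  simp only [S, Set.mem_insert_iff, Set.mem_singleton_iff] at hs
  rcases hs with rfl | rfl | rfl | rfl | rfl | rfl | rfl | rfl | rfl | rfl | rfl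
  · exact Subgroup.subset_closure ⟨2, by simp, Prob.val_lt (Q := Q) (by decide)⟩
  · exact Subgroup.subset_closure ⟨3, by simp, Prob.val_lt (Q := Q) (by decide)⟩
  · exact Subgroup.subset_closure ⟨4, by simp, Prob.val_lt (Q := Q) (by decide)⟩
  · exact Subgroup.subset_closure ⟨5, by simp, Prob.val_lt (Q := Q) (by decide)⟩
  · exact Subgroup.subset_closure ⟨6, by simp, Prob.val_lt (Q := Q) (by decide)⟩
  · exact Subgroup.subset_closure ⟨7, by simp, Prob.val_lt (Q := Q) (by decide)⟩
  · exact Subgroup.subset_closure ⟨8, by simp, Prob.val_lt (Q := Q) (by decide)⟩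
  · exact Subgroup.subset_closure ⟨10, by simp, Prob.val_lt (Q := Q) (by decide)⟩
  · exact Subgroup.subset_closure ⟨11, by simp, Prob.val_lt (Q := Q) (by decide)⟩
  · exact Subgroup.subset_closure ⟨9, by simp, Prob.val_lt (Q := Q) (by decide)⟩
  · exact Subgroup.subset_closure ⟨0, by simp, Prob.val_lt (Q := Q) (by decide)⟩

theorem ub : Finite (Sg Q.val (List.range Q.P.K)) ∧
    Nat.card (Sg Q.val (List.range Q.P.K)) ≤ 2510411418381323442585600 := by
  obtain ⟨f, c⟩ := ubH
  obtain ⟨f', c'⟩ := ok.card_le_of_sub [0, 2, 3, 4, 5, 6, 7, 8, 9, 10, 11] S_le f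
  exact ⟨f', le_trans c' (le_trans (Nat.mul_le_mul_left _ c) (by norm_num [Q]))⟩

theorem finite_grp : Finite Q.Grp := by
  have hub := ub
  rw [ok.Sg_top] at hub
  have := hub.1
  exact Finite.of_injective (fun g => (⟨g, Subgroup.mem_top g⟩ : (⊤ : Subgroup Q.Grp)))
    (fun a b hab => congrArg Subtype.val hab)

theorem card_inj : Nat.card Q.Grp = 2510411418381323442585600 ∧ Function.Injective (Prob.phi ok) := by
  have hub := ub
  rw [ok.Sg_top] at hub
  have hub2 : Nat.card Q.Grp ≤ 2510411418381323442585600 := by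
    have := hub.2
    rwa [Subgroup.card_top] at this
  have hlb := ok.card_range_ge finite_grp levels chain_ok
  rw [levels_prod] at hlb
  exact order_of_bounds (Prob.phi ok) _ finite_grp hub2 hlb

/-- the word problem by base images -/
theorem word_one (w : List ℕ) (hw : ∀ y ∈ w, y < 12)
    (hchk : ∀ b ∈ levels.map Lev.b, ptrace L.pt w b = b + 1) : evalW Q.val w = 1 :=
  ok.word_eq_one_of_base card_inj.2 _ (by norm_num) card_inj.1 levels chain_ok levels_prod
    (by decide +kernel) w hw hchk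

theorem cnt_eq : ∀ k < 3, O.count Q k = [1, 275264, 31671].getD k 0 := by
  intro k hk
  interval_cases k
  · exact count_0
  · exact count_1
  · exact count_2

theorem arith0 : ∀ I ∈ (Finset.range 3).powerset, 0 ∈ I → (∑ k ∈ I, [1, 275264, 31671].getD k 0) ∣ 306936 →
    I = {0} ∨ I = Finset.range 3 := by decide +kernel

theorem arith : ∀ I ∈ (Finset.range 3).powerset, 0 ∈ I → (∑ k ∈ I, O.count Q k) ∣ Q.n →
    I = {0} ∨ I = Finset.range 3 := by
  intro I hI h0 hd
  rw [Finset.sum_congr rfl (fun k hk => cnt_eq k (Finset.mem_range.mp (Finset.mem_powerset.mp hI hk)))] at hd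
  exact arith0 I hI h0 hd

/-- braid relations -/
theorem rel_word (w : List ℕ) (hw : w ∈ Fi24PD.pd.words) : evalW Q.val w = 1 := ok.val_words w hw

theorem conj_of_braid {x y : ℕ} (hx : x < 12) (hy : y < 12) (hw : [x, y, x, y, x, y] ∈ Fi24PD.pd.words)
    {z : Q.Grp} (h : ∃ u : Q.Grp, Q.val x = u * z * u⁻¹) : ∃ u : Q.Grp, Q.val y = u * z * u⁻¹ := by
  obtain ⟨u, hu⟩ := h
  have h1 := rel_word _ hw
  simp only [evalW_cons, evalW_nil, mul_one] at h1
  have hxi := val_self_inv x hx
  have hyi := val_self_inv y hy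
  refine ⟨Q.val x * Q.val y * u, ?_⟩
  rw [mul_inv_rev, mul_inv_rev, ← hxi, ← hyi]
  have e : Q.val x * Q.val y * u * z * (u⁻¹ * (Q.val y * Q.val x)) =
      Q.val x * Q.val y * (u * z * u⁻¹) * Q.val y * Q.val x := by group
  rw [e, ← hu]
  -- `y = x y x y x`
  have h2 : Q.val x * Q.val y * Q.val x * Q.val y * Q.val x * Q.val y = 1 := by
    simpa only [mul_assoc] using h1
  rw [eq_inv_of_mul_eq_one_left h2]
  exact hyi

theorem conj_all : ∀ x < Q.P.K, ∃ u : Q.Grp, Q.val x = u * Q.val 0 * u⁻¹ := by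
  have c0 : ∃ u : Q.Grp, Q.val 0 = u * Q.val 0 * u⁻¹ := ⟨1, by simp⟩
  have c1 := conj_of_braid (x := 0) (y := 1) (by decide) (by decide) (by decide +kernel) c0
  have c2 := conj_of_braid (x := 1) (y := 2) (by decide) (by decide) (by decide +kernel) c1
  have c3 := conj_of_braid (x := 2) (y := 3) (by decide) (by decide) (by decide +kernel) c2
  have c4 := conj_of_braid (x := 3) (y := 4) (by decide) (by decide) (by decide +kernel) c3
  have c5 := conj_of_braid (x := 4) (y := 5) (by decide) (by decide) (by decide +kernel) c4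
  have c6 := conj_of_braid (x := 5) (y := 6) (by decide) (by decide) (by decide +kernel) c5
  have c7 := conj_of_braid (x := 6) (y := 7) (by decide) (by decide) (by decide +kernel) c6
  have c8 := conj_of_braid (x := 7) (y := 8) (by decide) (by decide) (by decide +kernel) c7
  have c9 := conj_of_braid (x := 8) (y := 9) (by decide) (by decide) (by decide +kernel) c8
  have c10 := conj_of_braid (x := 5) (y := 10) (by decide) (by decide) (by decide +kernel) c5
  have c11 := conj_of_braid (x := 10) (y := 11) (by decide) (by decide) (by decide +kernel) c10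
  intro x hx
  have hx' : x < 12 := hx
  interval_cases x
  · exact c0
  · exact c1
  · exact c2
  · exact c3
  · exact c4
  · exact c5
  · exact c6
  · exact c7
  · exact c8
  · exact c9
  · exact c10
  · exact c11

/-- commuting generators -/
theorem comm_of_word {x y : ℕ} (hx : x < 12) (hy : y < 12) (hw : [x, y, x, y] ∈ Fi24PD.pd.words) :
    Q.val y * Q.val x = Q.val x * Q.val y := by
  have h1 := rel_word _ hw
  simp only [evalW_cons, evalW_nil, mul_one] at h1
  have hxi := val_self_inv x hx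
  have hyi := val_self_inv y hy
  have : Q.val x * Q.val y = (Q.val x * Q.val y)⁻¹ := by
    rw [eq_inv_iff_mul_eq_one]
    simpa only [mul_assoc] using h1
  rw [this, mul_inv_rev, ← hxi, ← hyi]

/-- the point stabiliser centralises `l` -/
theorem central_l : ∀ s ∈ Prob.HS Q S, s * Q.val 0 = Q.val 0 * s := by
  have hle : Prob.HS Q S ≤ Subgroup.centralizer {Q.val 0} := by
    rw [Subgroup.map_le_iff_le_comap, Subgroup.closure_le]
    intro s hs
    have hmem := S_le s hs
    show PresentedGroup.mk Q.P.rels s ∈ Subgroup.centralizer {Q.val 0}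
    have hle2 : Sg Q.val [0, 2, 3, 4, 5, 6, 7, 8, 9, 10, 11] ≤ Subgroup.centralizer {Q.val 0} := by
      unfold Sg
      rw [Subgroup.closure_le]
      rintro _ ⟨x, hx, rfl⟩
      rw [SetLike.mem_coe, Subgroup.mem_centralizer_singleton_iff]
      simp only [Set.mem_ofPred_eq, List.mem_cons, List.mem_nil_iff, or_false] at hx
      rcases hx with rfl | rfl | rfl | rfl | rfl | rfl | rfl | rfl | rfl | rfl | rfl
      · rfl
      all_goals exact comm_of_word (by decide) (by decide) (by decide +kernel)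
    exact hle2 hmem
  intro s hs
  exact (Subgroup.mem_centralizer_singleton_iff.mp (hle hs))

/-- every nontrivial normal subgroup contains the commutator subgroup -/
theorem commutator_le (M : Subgroup Q.Grp) (hM : M.Normal) (hne : M ≠ ⊥) : commutator Q.Grp ≤ M := by
  rcases normal_trans O ok O_ok hS1 3 (fun c hc => lt_of_blt (allBelow_iff.mp oid_lt_all c hc)) count_0 oid_zero
    arith M hM with h | h
  · exfalso
    apply hne
    rw [eq_bot_iff]
    intro m hm
    exact card_inj.2 (by rw [ok.core M hM h m hm, map_one])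
  · exact commutator_le_of_trans ok (Q.val 0) central_l conj_all M hM h

theorem card_commutator : Nat.card (commutator Q.Grp) = 1255205709190661721292800 := by
  have h1 := (commutator Q.Grp).card_mul_index
  have h2 : (commutator Q.Grp).index = 2 := Cfsg.Agent.S1691.result
  rw [h2, card_inj.1] at h1
  omega

theorem simple_commutator : IsSimpleGroup (commutator Q.Grp) := by
  have := finite_grp
  exact simple_of_index_two (commutator Q.Grp) Cfsg.Agent.S1691.result commutator_le 29 (by norm_num)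
    (by rw [card_commutator]; norm_num) (by rw [card_commutator]; norm_num)

end Cfsg.Agent.Lib.Helper30.Fi24.F306936
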