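import Cfsg.Agent.Lib.Helper30.Fi24.Fi24Main
import Cfsg.Agent.Lib.Helper28.Fi23n31671Simple
import Cfsg.Agent.Lib.Helper28.He2058Simple
import Cfsg.Agent.Lib.Helper28.Embed
import Cfsg.Agent.Lib.Helper40.PresTransp

/-!
# Fi24 as a 3-transposition group, with subgroups Fi23 and He (helper30)
-/

namespace Cfsg.Agent.Lib.Helper30.Fi24.F306936
open Cfsg.Agent.Lib.Helper28
theorem fi23_simple : IsSimpleGroup (PresentedGroup Fi23PD.pd.rels) ∧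
    Nat.card (PresentedGroup Fi23PD.pd.rels) = 4089470473293004800 :=
  ⟨Fi23n31671.main.1, Fi23n31671.main.2.1⟩
theorem he_simple : IsSimpleGroup (PresentedGroup HePD.pd.rels) ∧
    Nat.card (PresentedGroup HePD.pd.rels) = 4030387200 :=
  ⟨He2058.main.1, He2058.main.2.1⟩
end Cfsg.Agent.Lib.Helper30.Fi24.F306936

set_option autoImplicit false
set_option maxRecDepth 100000

namespace Cfsg.Agent.Lib.Helper30.Fi24

/-- a simple subgroup with more than two elements lies in every subgroup of index two -/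
theorem simple_le_of_index_two {G : Type*} [Group G] (K : Subgroup G) (hK : K.index = 2) (A : Subgroup G)
    (hA : IsSimpleGroup A) (hc : 2 < Nat.card A) : A ≤ K := by
  have hKn : K.Normal := Subgroup.normal_of_index_eq_two hK
  have hN : (K.subgroupOf A).Normal := inferInstance
  rcases hA.eq_bot_or_eq_top_of_normal _ hN with h | h
  · exfalso
    have h1 : K.relIndex A = Nat.card A := by
      rw [Subgroup.relIndex, h, Subgroup.index_bot]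
    have h2 : K.relIndex A ∣ K.index := Subgroup.relIndex_dvd_index_of_normal K A
    rw [h1, hK] at h2
    have := Nat.le_of_dvd (by norm_num) h2
    omega
  · exact Subgroup.subgroupOf_eq_top.mp h

/-- the image of an embedding of a simple group, as a subgroup of a subgroup of index two -/
theorem exists_sub_of_embedding {A G : Type*} [Group A] [Group G] (hs : IsSimpleGroup A) (N : ℕ)
    (hA : Nat.card A = N) (hN : 2 < N) (f : A →* G) (hf : Function.Injective f) (K : Subgroup G)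
    (hK : K.index = 2) : ∃ L : Subgroup K, IsSimpleGroup L ∧ Nat.card L = N := by
  let E : A ≃* f.range := MonoidHom.ofInjective hf
  have hR : IsSimpleGroup f.range := E.symm.isSimpleGroup
  have hc : Nat.card f.range = N := by rw [← Nat.card_congr E.toEquiv]; exact hA
  have hle : f.range ≤ K := simple_le_of_index_two K hK _ hR (by rw [hc]; exact hN)
  let E2 : (f.range).subgroupOf K ≃* f.range := Subgroup.subgroupOfEquivOfLe hle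
  exact ⟨(f.range).subgroupOf K, E2.isSimpleGroup, by rw [Nat.card_congr E2.toEquiv]; exact hc⟩

namespace F306936

open Cfsg.Agent.Lib.Helper28

theorem base_eq : levels.map Lev.b = [0, 72450, 2, 964, 6, 510, 249, 12, 24, 51, 116] := by decide +kernel

theorem word_one' (w : List ℕ) (hw : ∀ y ∈ w, y < 12)
    (hchk : ∀ b ∈ [0, 72450, 2, 964, 6, 510, 249, 12, 24, 51, 116], ptrace L.pt w b = b + 1) :
    evalW Q.val w = 1 :=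
  word_one w hw (by rw [base_eq]; exact hchk)

theorem evalW_rev (w : List ℕ) (hw : ∀ y ∈ w, y < 12) : (evalW Q.val w)⁻¹ = evalW Q.val w.reverse := by
  induction w with
  | nil => simp
  | cons x w ih =>
    rw [evalW_cons, mul_inv_rev, ih (fun y hy => hw y (List.mem_cons_of_mem _ hy)), List.reverse_cons,
      evalW_append, evalW_cons, evalW_nil, mul_one, ← val_self_inv x (hw x List.mem_cons_self)]

theorem l_sq : Q.val 0 * Q.val 0 = 1 := by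
  have h := val_self_inv 0 (by decide)
  nth_rewrite 2 [h]
  exact mul_inv_cancel _

theorem l_ne_one : Q.val 0 ≠ 1 := by
  have h := ok.word_ne_one [0] (by decide) 1 (by decide) (by decide +kernel)
  simpa using h

/-- `l` and `k` do not commute -/
theorem lk_ne : Q.val 1 * Q.val 0 ≠ Q.val 0 * Q.val 1 := by
  intro h
  have h1 := ok.word_ne_one [0, 1, 0, 1] (by decide) 0 (by decide) (by decide +kernel)
  apply h1
  simp only [evalW_cons, evalW_nil, mul_one]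
  have h2 : Q.val 1 * Q.val 1 = 1 := by
    have h := val_self_inv 1 (by decide)
    nth_rewrite 2 [h]
    exact mul_inv_cancel _
  calc Q.val 0 * (Q.val 1 * (Q.val 0 * Q.val 1)) = Q.val 0 * ((Q.val 1 * Q.val 0) * Q.val 1) := by group
    _ = (Q.val 0 * Q.val 0) * (Q.val 1 * Q.val 1) := by rw [h]; group
    _ = 1 := by rw [l_sq, h2, one_mul]

theorem centralizer_l : Subgroup.centralizer {Q.val 0} = Prob.HS Q S := by
  have hle : Prob.HS Q S ≤ Subgroup.centralizer {Q.val 0} := by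
    intro s hs
    rw [Subgroup.mem_centralizer_singleton_iff]
    exact central_l s hs
  rcases sub_trans O ok O_ok hS1 3 (fun c hc => lt_of_blt (allBelow_iff.mp oid_lt_all c hc)) count_0 oid_zero
    arith _ hle with h | h
  · exact le_antisymm h hle
  · exfalso
    apply lk_ne
    have : Q.val 1 ∈ Subgroup.centralizer {Q.val 0} := by rw [h]; trivial
    exact Subgroup.mem_centralizer_singleton_iff.mp this

theorem card_H : Nat.card (Prob.HS Q S) = 2 * 4089470473293004800 := by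
  have h1 : Nat.card (Prob.HS Q S) * 306936 = 2510411418381323442585600 := by
    have h0 := (Prob.HS Q S).card_mul_index
    rw [ok.index.1, card_inj.1] at h0
    exact h0
  generalize Nat.card (Prob.HS Q S) = m at h1 ⊢
  omega

/-- double coset representatives -/
noncomputable def r1 : Q.Grp := (evalW Q.val [1])⁻¹
noncomputable def r2 : Q.Grp := (evalW Q.val [1, 0, 2, 1])⁻¹

theorem phi_r1 : Prob.phi ok r1 0 = 1 := by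
  unfold r1
  rw [ok.phi_word [1] (by decide)]
  have h := ok.valid.ptrace_eq [1] (by decide) (c := 0) (by decide)
  have h2 : ptrace Q.L.pt [1] 0 = 2 := by decide +kernel
  rw [h2] at h
  omega

theorem phi_r2 : Prob.phi ok r2 0 = 6 := by
  unfold r2
  rw [ok.phi_word [1, 0, 2, 1] (by decide)]
  have h := ok.valid.ptrace_eq [1, 0, 2, 1] (by decide) (c := 0) (by decide)
  have h2 : ptrace Q.L.pt [1, 0, 2, 1] 0 = 7 := by decide +kernel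
  rw [h2] at h
  omega

theorem dc (c : Q.Grp) : (c : Q.Grp ⧸ Prob.HS Q S) = ((1 : Q.Grp) : Q.Grp ⧸ Prob.HS Q S) ∨
    (∃ h ∈ Prob.HS Q S, (c : Q.Grp ⧸ Prob.HS Q S) = ((h * r1 : Q.Grp) : Q.Grp ⧸ Prob.HS Q S)) ∨
    (∃ h ∈ Prob.HS Q S, (c : Q.Grp ⧸ Prob.HS Q S) = ((h * r2 : Q.Grp) : Q.Grp ⧸ Prob.HS Q S)) := by
  have hp : Prob.phi ok c 0 < Q.n := ok.index.2.2.1 c
  obtain ⟨s, hs, e⟩ := ok.reach O O_ok hS1 _ _ rfl hp
  have hlt : O.oid (Prob.phi ok c 0) < 3 := lt_of_blt (allBelow_iff.mp oid_lt_all _ hp)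
  have hr0 : nth O.roots Q.n 0 = 0 := by decide +kernel
  have hr1 : nth O.roots Q.n 1 = 1 := by decide +kernel
  have hr2 : nth O.roots Q.n 2 = 6 := by decide +kernel
  generalize O.oid (Prob.phi ok c 0) = k at e hlt
  interval_cases k
  · left
    apply Prob.toPt_injective ok
    rw [Prob.toPt_mk, Prob.toPt_mk, ← e, hr0, map_one, Equiv.Perm.one_apply]
    exact ok.index.2.2.2.1 s hs
  · right; left
    refine ⟨s, hs, Prob.toPt_injective ok ?_⟩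
    rw [Prob.toPt_mk, Prob.toPt_mk, map_mul, Equiv.Perm.mul_apply, phi_r1, ← e, hr1]
  · right; right
    refine ⟨s, hs, Prob.toPt_injective ok ?_⟩
    rw [Prob.toPt_mk, Prob.toPt_mk, map_mul, Equiv.Perm.mul_apply, phi_r2, ← e, hr2]

theorem val0_eq : Q.val 0 = evalW Q.val [0] := by simp

theorem ord3 : (Q.val 0 * (r1 * Q.val 0 * r1⁻¹)) ^ 3 = 1 := by
  unfold r1
  rw [inv_inv, evalW_rev [1] (by decide), val0_eq, ← evalW_append, ← evalW_append, ← evalW_append,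
    ← evalW_flatten_replicate]
  exact word_one' _ (by decide +kernel) (by decide +kernel)

theorem ord2 : (Q.val 0 * (r2 * Q.val 0 * r2⁻¹)) ^ 2 = 1 := by
  unfold r2
  rw [inv_inv, evalW_rev [1, 0, 2, 1] (by decide), val0_eq, ← evalW_append, ← evalW_append, ← evalW_append,
    ← evalW_flatten_replicate]
  exact word_one' _ (by decide +kernel) (by decide +kernel)

theorem transp : ∀ d ∈ conjugatesOf (Q.val 0), ∀ e ∈ conjugatesOf (Q.val 0), (d * e) ^ 2 = 1 ∨ (d * e) ^ 3 = 1 :=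
  Cfsg.Agent.Lib.Helper40.PE.transp_of_dc central_l l_sq dc ord3 ord2

theorem closure_conj : Subgroup.closure (conjugatesOf (Q.val 0)) = ⊤ := by
  rw [eq_top_iff, ← ok.Sg_top]
  unfold Sg
  rw [Subgroup.closure_le]
  rintro _ ⟨x, hx, rfl⟩
  obtain ⟨u, hu⟩ := conj_all x (by simpa using hx)
  apply Subgroup.subset_closure
  rw [hu]
  exact isConj_iff.mpr ⟨u, rfl⟩

/-! ### The subgroup Fi23 -/

/-- the letters of Fi23 (a, b, c, d, e, f, g, j, h, i) as words of Fi24: each generator times `l` -/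
def f23W (x : ℕ) : List ℕ := [x + 2, 0]

theorem f23_words : ∀ w ∈ Fi23PD.pd.words, evalW (fun x => evalW Q.val (f23W x)) w = 1 := by
  intro w hw
  rw [evalW_flatMap]
  have key : ∀ w ∈ Fi23PD.pd.words, (∀ y ∈ w.flatMap f23W, y < 12) ∧
      ∀ b ∈ [0, 72450, 2, 964, 6, 510, 249, 12, 24, 51, 116], ptrace L.pt (w.flatMap f23W) b = b + 1 := by
    decide +kernel
  exact word_one' _ (key w hw).1 (key w hw).2

theorem inv_of_sq {Γ : Type*} [Group Γ] {v : ℕ → Γ} {x : ℕ} (h : evalW v [x, x] = 1) : v x = (v x)⁻¹ := by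
  simp only [evalW_cons, evalW_nil, mul_one] at h
  exact eq_inv_of_mul_eq_one_left h

theorem exists_fi23 : ∃ f : PresentedGroup Fi23PD.pd.rels →* Q.Grp, Function.Injective f ∧
    ∀ u, f u * Q.val 0 = Q.val 0 * f u := by
  obtain ⟨f, hf, hv⟩ := Fi23PD.pd_ok.exists_embedding Fi23PD.pd_wordsK Fi23PD.pd_letters fi23_simple.1
    (fun x => evalW Q.val (f23W x)) f23_words (by
      intro x hx
      have hx' : x < 10 := hx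
      have e : Fi23PD.pd.inv x = x := by interval_cases x <;> rfl
      rw [e]
      apply inv_of_sq (v := fun x => evalW Q.val (f23W x))
      apply f23_words
      interval_cases x <;> decide +kernel) 0 (by decide) (by
      exact ok.word_ne_one (f23W 0) (by decide) 1 (by decide) (by decide +kernel))
  refine ⟨f, hf, ?_⟩
  have hle : (⊤ : Subgroup (PresentedGroup Fi23PD.pd.rels)) ≤ (Subgroup.centralizer {Q.val 0}).comap f := by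
    rw [← PresentedGroup.closure_range_of, Subgroup.closure_le]
    rintro _ ⟨a, rfl⟩
    show f (PresentedGroup.of a) ∈ Subgroup.centralizer {Q.val 0}
    have e1 : (PresentedGroup.of a : PresentedGroup Fi23PD.pd.rels) =
        PresentedGroup.mk Fi23PD.pd.rels (Fi23PD.pd.lfree (Fi23PD.pd.enc a)) := by
      rw [(Fi23PD.pd_ok.enc a).1]; rfl
    rw [e1, hv _ (Fi23PD.pd_ok.enc a).2, Subgroup.mem_centralizer_singleton_iff]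
    have hlt : Fi23PD.pd.enc a < 10 := (Fi23PD.pd_ok.enc a).2
    generalize Fi23PD.pd.enc a = x at hlt
    simp only [f23W, evalW_cons, evalW_nil, mul_one]
    have hc : Q.val (x + 2) * Q.val 0 = Q.val 0 * Q.val (x + 2) := by
      interval_cases x <;> exact comm_of_word (by decide) (by decide) (by decide +kernel)
    rw [mul_assoc, ← mul_assoc (Q.val 0), ← hc, mul_assoc]
  intro u
  exact Subgroup.mem_centralizer_singleton_iff.mp (hle (Subgroup.mem_top u))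

/-! ### The subgroup He -/

def heW : ℕ → List ℕ
  | 0 => [10, 5, 6, 3, 4, 5, 10, 11, 7, 6, 5, 10, 8, 7, 4, 5, 6, 1, 2, 3, 4, 5, 10, 11, 7, 4, 5, 6, 3, 4, 5, 10, 9, 8, 7, 6, 5, 4, 3, 2, 1, 2, 3, 4, 5, 6, 7, 8, 9, 10, 5, 4, 3, 6, 5, 4, 7, 11, 10, 5, 4, 3, 2, 1, 6, 5, 4, 7, 8, 10, 5, 6, 7, 11, 10, 5, 4, 3, 6, 5, 10, 11, 7, 6, 0, 1, 2, 3, 4, 5, 10, 8, 6, 7, 4, 5, 6, 3, 4, 5, 10, 11, 10, 8, 7, 5, 6, 3, 4, 5, 10, 9, 8, 7, 6, 5, 4, 3, 2, 1, 0, 1, 2, 3, 4, 5, 6, 7, 8, 9, 10, 5, 4, 3, 6, 5, 7, 8, 10, 11, 10, 5, 4, 3, 6, 5, 4, 7, 6, 8, 10, 5, 4, 3, 2, 1, 0, 6, 7, 11]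
  | 1 => [7, 6, 5, 10, 11, 3, 4, 5, 10, 5, 6, 7, 2, 3, 4, 5, 6, 1, 2, 3, 4, 5, 10, 11, 10, 7, 5, 6, 3, 4, 5, 10, 9, 8, 7, 6, 5, 4, 3, 2, 1, 0, 1, 2, 3, 4, 5, 6, 7, 8, 9, 10, 5, 4, 3, 6, 5, 7, 10, 11, 10, 5, 4, 3, 2, 1, 6, 5, 4, 3, 2, 7, 6, 5, 10, 5, 4, 3, 11, 10, 5, 6, 7, 5, 10, 8, 7, 4, 5, 6, 3, 4, 5, 10, 11, 6, 7, 4, 5, 6, 3, 4, 5, 10, 9, 8, 7, 6, 5, 4, 3, 2, 1, 0, 1, 2, 3, 4, 5, 6, 7, 8, 9, 10, 5, 4, 3, 6, 5, 4, 7, 6, 11, 10, 5, 4, 3, 6, 5, 4, 7, 8, 10, 5]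
  | 2 => [7, 6, 4, 5, 10, 11, 8, 7, 6, 5, 10, 6, 7, 8, 4, 5, 6, 7, 3, 4, 5, 6, 2, 3, 4, 5, 10, 11, 5, 6, 3, 4, 5, 10, 9, 8, 7, 6, 5, 4, 3, 2, 1, 2, 3, 4, 5, 6, 7, 8, 9, 10, 5, 4, 3, 6, 5, 11, 10, 5, 4, 3, 2, 6, 5, 4, 3, 7, 6, 5, 4, 8, 7, 6, 10, 5, 6, 7, 8, 11, 10, 5, 4, 6, 7, 10, 11, 6, 5, 10, 5, 6, 7, 2, 3, 4, 5, 6, 0, 1, 2, 3, 4, 5, 10, 11, 8, 7, 4, 5, 6, 3, 4, 5, 10, 9, 8, 7, 6, 5, 4, 3, 2, 1, 0, 1, 2, 3, 4, 5, 6, 7, 8, 9, 10, 5, 4, 3, 6, 5, 4, 7, 8, 11, 10, 5, 4, 3, 2, 1, 0, 6, 5, 4, 3, 2, 7, 6, 5, 10, 5, 6, 11, 10]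
  | 3 => [11, 10, 8, 9, 7, 8, 6, 7, 4, 5, 6, 3, 4, 5, 10, 11, 6, 7, 5, 6, 3, 4, 5, 10, 9, 8, 7, 6, 5, 4, 3, 2, 3, 4, 5, 6, 7, 8, 9, 10, 5, 4, 3, 6, 5, 7, 6, 11, 10, 5, 4, 3, 6, 5, 4, 7, 6, 8, 7, 9, 8, 10, 11, 10, 11, 6, 3, 4, 5, 10, 8, 6, 7, 4, 5, 6, 3, 4, 5, 10, 11, 6, 7, 4, 5, 6, 3, 4, 5, 10, 9, 8, 7, 6, 5, 4, 3, 2, 1, 2, 3, 4, 5, 6, 7, 8, 9, 10, 5, 4, 3, 6, 5, 4, 7, 6, 11, 10, 5, 4, 3, 6, 5, 4, 7, 6, 8, 10, 5, 4, 3, 6, 11, 10, 11, 10, 6, 7, 5, 6, 4, 5, 10, 11, 5, 6, 7, 4, 5, 6, 3, 4, 5, 10, 9, 8, 7, 6, 5, 4, 3, 2, 3, 4, 5, 6, 7, 8, 9, 10, 5, 4, 3, 6, 5, 4, 7, 6, 5, 11, 10, 5, 4, 6, 5, 7, 6, 10, 11, 10, 11, 3, 4, 5, 10, 8, 6, 7, 5, 6, 2, 3, 4, 5, 10, 11, 5, 6, 7, 4, 5, 6, 3, 4, 5, 10, 9, 8, 7, 6, 5, 4, 3, 2, 1, 2, 3, 4, 5, 6, 7, 8, 9, 10, 5, 4, 3, 6, 5, 4, 7, 6, 5, 11, 10, 5, 4, 3, 2, 6, 5, 7, 6, 8, 10, 5, 4, 3, 11, 10]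
  | 4 => [10, 8, 7, 5, 6, 4, 5, 10, 11, 7, 4, 5, 6, 3, 4, 5, 10, 8, 7, 6, 5, 4, 3, 2, 1, 0, 1, 2, 3, 4, 5, 6, 7, 8, 10, 5, 4, 3, 6, 5, 4, 7, 11, 10, 5, 4, 6, 5, 7, 8, 10, 5, 10, 11, 2, 3, 4, 5, 10, 8, 6, 7, 3, 4, 5, 6, 1, 2, 3, 4, 5, 10, 11, 6, 7, 5, 6, 3, 4, 5, 10, 9, 8, 7, 6, 5, 4, 3, 2, 1, 2, 3, 4, 5, 6, 7, 8, 9, 10, 5, 4, 3, 6, 5, 7, 6, 11, 10, 5, 4, 3, 2, 1, 6, 5, 4, 3, 7, 6, 8, 10, 5, 4, 3, 2, 11, 10, 5, 5, 10, 8, 6, 7, 4, 5, 6, 3, 4, 5, 10, 11, 7, 6, 3, 4, 5, 10, 9, 8, 7, 6, 5, 4, 3, 2, 1, 0, 1, 2, 3, 4, 5, 6, 7, 8, 9, 10, 5, 4, 3, 6, 7, 11, 10, 5, 4, 3, 6, 5, 4, 7, 6, 8, 10, 5, 8, 7, 5, 6, 3, 4, 5, 10, 11, 7, 5, 6, 4, 5, 10, 9, 8, 7, 6, 5, 4, 3, 4, 5, 6, 7, 8, 9, 10, 5, 4, 6, 5, 7, 11, 10, 5, 4, 3, 6, 5, 7, 8]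
  | 5 => [5, 10, 11, 6, 5, 10, 9, 7, 8, 6, 7, 4, 5, 6, 2, 3, 4, 5, 10, 11, 8, 7, 4, 5, 6, 3, 4, 5, 10, 9, 8, 7, 6, 5, 4, 3, 2, 3, 4, 5, 6, 7, 8, 9, 10, 5, 4, 3, 6, 5, 4, 7, 8, 11, 10, 5, 4, 3, 2, 6, 5, 4, 7, 6, 8, 7, 9, 10, 5, 6, 11, 10, 5, 10, 9, 8, 5, 6, 7, 4, 5, 6, 2, 3, 4, 5, 10, 11, 8, 7, 4, 5, 6, 3, 4, 5, 10, 9, 8, 7, 6, 5, 4, 3, 2, 1, 0, 1, 2, 3, 4, 5, 6, 7, 8, 9, 10, 5, 4, 3, 6, 5, 4, 7, 8, 11, 10, 5, 4, 3, 2, 6, 5, 4, 7, 6, 5, 8, 9, 10, 11, 5, 10, 8, 5, 6, 7, 1, 2, 3, 4, 5, 6, 0, 1, 2, 3, 4, 5, 10, 11, 8, 7, 4, 5, 6, 3, 4, 5, 10, 9, 8, 7, 6, 5, 4, 3, 2, 1, 0, 1, 2, 3, 4, 5, 6, 7, 8, 9, 10, 5, 4, 3, 6, 5, 4, 7, 8, 11, 10, 5, 4, 3, 2, 1, 0, 6, 5, 4, 3, 2, 1, 7, 6, 5, 8, 10, 5, 11, 5, 10, 11, 6, 3, 4, 5, 10, 6, 7, 8, 5, 6, 7, 4, 5, 6, 1, 2, 3, 4, 5, 10, 11, 8, 6, 7, 5, 6, 2, 3, 4, 5, 10, 9, 8, 7, 6, 5, 4, 3, 2, 1, 2, 3, 4, 5, 6,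 7, 8, 9, 10, 5, 4, 3, 2, 6, 5, 7, 6, 8, 11, 10, 5, 4, 3, 2, 1, 6, 5, 4, 7, 6, 5, 8, 7, 6, 10, 5, 4, 3, 6, 11, 10, 5]
  | 6 => [11, 3, 4, 5, 10, 8, 5, 6, 7, 4, 5, 6, 1, 2, 3, 4, 5, 10, 11, 8, 7, 5, 6, 2, 3, 4, 5, 10, 9, 8, 7, 6, 5, 4, 3, 2, 1, 2, 3, 4, 5, 6, 7, 8, 9, 10, 5, 4, 3, 2, 6, 5, 7, 8, 11, 10, 5, 4, 3, 2, 1, 6, 5, 4, 7, 6, 5, 8, 10, 5, 4, 3, 11, 6, 4, 5, 10, 11, 5, 6, 4, 5, 10, 7, 8, 5, 6, 7, 4, 5, 6, 2, 3, 4, 5, 10, 11, 6, 7, 5, 6, 3, 4, 5, 10, 9, 8, 7, 6, 5, 4, 3, 2, 1, 0, 1, 2, 3, 4, 5, 6, 7, 8, 9, 10, 5, 4, 3, 6, 5, 7, 6, 11, 10, 5, 4, 3, 2, 6, 5, 4, 7, 6, 5, 8, 7, 10, 5, 4, 6, 5, 11, 10, 5, 4, 6, 11, 4, 5, 10, 6, 7, 5, 6, 4, 5, 10, 11, 10, 8, 6, 7, 5, 6, 3, 4, 5, 10, 9, 8, 7, 6, 5, 4, 3, 2, 3, 4, 5, 6, 7, 8, 9, 10, 5, 4, 3, 6, 5, 7, 6, 8, 10, 11, 10, 5, 4, 6, 5, 7, 6, 10, 5, 4, 11, 3, 4, 5, 10, 11, 6, 3, 4, 5, 10, 9, 7,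 8, 5, 6, 7, 4, 5, 6, 3, 4, 5, 10, 11, 8, 7, 5, 6, 3, 4, 5, 10, 9, 8, 7, 6, 5, 4, 3, 2, 1, 2, 3, 4, 5, 6, 7, 8, 9, 10, 5, 4, 3, 6, 5, 7, 8, 11, 10, 5, 4, 3, 6, 5, 4, 7, 6, 5, 8, 7, 9, 10, 5, 4, 3, 6, 11, 10, 5, 4, 3]
  | _ => []

theorem he_words : ∀ w ∈ HePD.pd.words, evalW (fun x => evalW Q.val (heW x)) w = 1 := by
  intro w hw
  rw [evalW_flatMap]
  have key : ∀ w ∈ HePD.pd.words, (∀ y ∈ w.flatMap heW, y < 12) ∧
      ∀ b ∈ [0, 72450, 2, 964, 6, 510, 249, 12, 24, 51, 116], ptrace L.pt (w.flatMap heW) b = b + 1 := by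
    decide +kernel
  exact word_one' _ (key w hw).1 (key w hw).2

theorem exists_he : ∃ f : PresentedGroup HePD.pd.rels →* Q.Grp, Function.Injective f := by
  obtain ⟨f, hf, -⟩ := HePD.pd_ok.exists_embedding HePD.pd_wordsK HePD.pd_letters he_simple.1
    (fun x => evalW Q.val (heW x)) he_words (by
      intro x hx
      have hx' : x < 7 := hx
      have e : HePD.pd.inv x = x := by interval_cases x <;> rfl
      rw [e]
      apply inv_of_sq (v := fun x => evalW Q.val (heW x))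
      apply he_words
      interval_cases x <;> decide +kernel) 0 (by decide) (by
      exact ok.word_ne_one (heW 0) (by decide +kernel) 0 (by decide) (by decide +kernel))
  exact ⟨f, hf⟩

end F306936

end Cfsg.Agent.Lib.Helper30.Fi24
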