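import Cfsg.Agent.Lib.Helper30.Fi24.Y522n28431Data

set_option autoImplicit false
set_option maxRecDepth 100000

namespace Cfsg.Agent.Lib.Helper30.Fi24.Y522n28431

open Cfsg.Agent.Lib.Helper28
theorem lrel_10 : allRange (fun c => allList (fun w => L.checkRel w c) Cfsg.Agent.Lib.Helper30.Fi24.Y522PD.pd.words) 21270 2127 = true := by decide +kernel
theorem lrel_11 : allRange (fun c => allList (fun w => L.checkRel w c) Cfsg.Agent.Lib.Helper30.Fi24.Y522PD.pd.words) 23397 2127 = true := by decide +kernel
theorem lrel_12 : allRange (fun c => allList (fun w => L.checkRel w c) Cfsg.Agent.Lib.Helper30.Fi24.Y522PD.pd.words) 25524 2127 = true := by decide +kernel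
theorem lrel_13 : allRange (fun c => allList (fun w => L.checkRel w c) Cfsg.Agent.Lib.Helper30.Fi24.Y522PD.pd.words) 27651 780 = true := by decide +kernel

end Cfsg.Agent.Lib.Helper30.Fi24.Y522n28431
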