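import Cfsg.Agent.Lib.Helper30.Fi24.Y522n28431Data

set_option autoImplicit false
set_option maxRecDepth 100000

namespace Cfsg.Agent.Lib.Helper30.Fi24.Y522n28431

open Cfsg.Agent.Lib.Helper28
theorem chk_13 : allRange D.checkLabel 19500 1500 = true := by decide +kernel
theorem chk_14 : allRange D.checkLabel 21000 1500 = true := by decide +kernel
theorem chk_15 : allRange D.checkLabel 22500 1500 = true := by decide +kernel
theorem chk_16 : allRange D.checkLabel 24000 1500 = true := by decide +kernel
theorem chk_17 : allRange D.checkLabel 25500 1500 = true := by decide +kernel
theorem chk_18 : allRange D.checkLabel 27000 1500 = true := by decide +kernel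
theorem chk_19 : allRange D.checkLabel 28500 1500 = true := by decide +kernel
theorem chk_20 : allRange D.checkLabel 30000 1500 = true := by decide +kernel
theorem chk_21 : allRange D.checkLabel 31500 1500 = true := by decide +kernel
theorem chk_22 : allRange D.checkLabel 33000 1500 = true := by decide +kernel
theorem chk_23 : allRange D.checkLabel 34500 1500 = true := by decide +kernel
theorem chk_24 : allRange D.checkLabel 36000 1500 = true := by decide +kernel
theorem chk_25 : allRange D.checkLabel 37500 1199 = true := by decide +kernel

end Cfsg.Agent.Lib.Helper30.Fi24.Y522n28431
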